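import Mathlib
import Cfsg.Agent.Helper2.Steiner
import Cfsg.Agent.S0356

set_option autoImplicit false

namespace Cfsg.Agent.Helper29.S3622

open Cfsg.Agent.Helper2.Steiner

variable {α : Type*} [Fintype α] [DecidableEq α]

/-- number of blocks meeting `U` in exactly `i` points -/
noncomputable def m (B : Set (Finset α)) (U : Finset α) (i : ℕ) : ℕ :=
  ((blocks B).filter (fun c => (U ∩ c).card = i)).card

theorem moments (hα : Fintype.card α = 22) {B : Set (Finset α)}
    (hB : Cfsg.IsSteinerSystem 3 6 B) (U : Finset α) (t : Finset ℕ)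
    (ht : ∀ c ∈ B, (U ∩ c).card ∈ t) (j : ℕ) (hj : j ≤ 3) :
    (∑ i ∈ t, m B U i * Nat.choose i j) * (6 - j).choose (3 - j)
      = (Nat.choose U.card j) * (22 - j).choose (3 - j) := by
  have hF : ∑ c ∈ blocks B, ((U ∩ c).card).choose j = ∑ i ∈ t, m B U i * Nat.choose i j := by
    rw [← Finset.sum_fiberwise_of_maps_to (g := fun c => (U ∩ c).card) (t := t)
      (fun c hc => ht c (mem_blocks.1 hc))]
    apply Finset.sum_congr rfl
    intro i _
    unfold m
    rw [Finset.card_eq_sum_ones, Finset.sum_mul]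
    apply Finset.sum_congr rfl
    intro c hc
    rw [(Finset.mem_filter.1 hc).2, one_mul]
  rw [← hF, inter_sum, Finset.sum_mul]
  have h1 : ∀ I ∈ U.powersetCard j,
      ((blocks B).filter (fun c => I ⊆ c)).card * (6 - j).choose (3 - j)
        = (22 - j).choose (3 - j) := by
    intro I hI
    rw [Finset.mem_powersetCard] at hI
    have h2 := lambda_count hB I (by omega)
    rw [hI.2, hα] at h2
    exact h2
  rw [Finset.sum_congr rfl h1, Finset.sum_const, Finset.card_powersetCard, smul_eq_mul]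

theorem m_self (hα : Fintype.card α = 22) {B : Set (Finset α)}
    (hB : Cfsg.IsSteinerSystem 3 6 B) (b : Finset α) (hb : b ∈ B) : m B b 6 = 1 := by
  unfold m
  have h : (blocks B).filter (fun c => (b ∩ c).card = 6) = {b} := by
    ext c
    rw [Finset.mem_filter, mem_blocks, Finset.mem_singleton]
    constructor
    · rintro ⟨hc, h6⟩
      by_contra hne
      have := inter_lt hB hb hc (Ne.symm hne)
      omega
    · rintro rfl
      exact ⟨hb, by rw [Finset.inter_self]; exact hB.1 c hb⟩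
  rw [h, Finset.card_singleton]

/-- every block is disjoint from exactly 16 blocks -/
theorem deg (hα : Fintype.card α = 22) {B : Set (Finset α)}
    (hB : Cfsg.IsSteinerSystem 3 6 B) (b : Finset α) (hb : b ∈ B) : m B b 0 = 16 := by
  have ht : ∀ c ∈ B, (b ∩ c).card ∈ ({0, 2, 6} : Finset ℕ) := by
    intro c hc
    by_cases hbc : b = c
    · rw [← hbc, Finset.inter_self, hB.1 b hb]
      simp
    · rcases Cfsg.Agent.S0356.result hα hB hb hc hbc with h | h <;> rw [h] <;> simp
  have h0 := moments hα hB b _ ht 0 (by omega)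
  have h1 := moments hα hB b _ ht 1 (by omega)
  have h6 := m_self hα hB b hb
  rw [hB.1 b hb] at h0 h1
  simp only [Finset.sum_insert, Finset.mem_insert, Finset.mem_singleton, Finset.sum_singleton,
    show (0 : ℕ) ≠ 2 from by decide, show (0 : ℕ) ≠ 6 from by decide,
    show (2 : ℕ) ≠ 6 from by decide, or_self, not_false_eq_true] at h0 h1
  generalize m B b 0 = n0 at h0 h1 ⊢
  generalize m B b 2 = n2 at h0 h1 ⊢
  generalize m B b 6 = n6 at h0 h1 h6 ⊢
  norm_num [Nat.choose] at h0 h1
  omega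

theorem m_pair (hα : Fintype.card α = 22) {B : Set (Finset α)}
    (hB : Cfsg.IsSteinerSystem 3 6 B) (b c : Finset α) (hb : b ∈ B) (hc : c ∈ B) (hne : b ≠ c)
    (hsmall : ∀ d ∈ B, d ≠ b → d ≠ c → ((b ∪ c) ∩ d).card ≤ 4) : m B (b ∪ c) 6 = 2 := by
  unfold m
  have h : (blocks B).filter (fun d => ((b ∪ c) ∩ d).card = 6) = {b, c} := by
    ext d
    rw [Finset.mem_filter, mem_blocks, Finset.mem_insert, Finset.mem_singleton]
    constructor
    · rintro ⟨hd, h6⟩
      by_contra hcon
      push Not at hcon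
      have := hsmall d hd hcon.1 hcon.2
      omega
    · rintro (rfl | rfl)
      · exact ⟨hb, by rw [Finset.inter_eq_right.2 Finset.subset_union_left]; exact hB.1 d hb⟩
      · exact ⟨hc, by rw [Finset.inter_eq_right.2 Finset.subset_union_right]; exact hB.1 d hc⟩
  rw [h, Finset.card_pair hne]

theorem union_inter_card (b c d : Finset α) :
    ((b ∪ c) ∩ d).card + (b ∩ c ∩ d).card = (b ∩ d).card + (c ∩ d).card := by
  have h1 : (b ∪ c) ∩ d = (b ∩ d) ∪ (c ∩ d) := Finset.union_inter_distrib_right b c d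
  have h2 : b ∩ c ∩ d = (b ∩ d) ∩ (c ∩ d) := by
    ext x
    simp only [Finset.mem_inter]
    tauto
  rw [h1, h2]
  exact Finset.card_union_add_card_inter _ _

/-- two disjoint blocks have no common disjoint block -/
theorem adj0 (hα : Fintype.card α = 22) {B : Set (Finset α)}
    (hB : Cfsg.IsSteinerSystem 3 6 B) (b c : Finset α) (hb : b ∈ B) (hc : c ∈ B)
    (hd : Disjoint b c) : m B (b ∪ c) 0 = 0 := by
  have hne : b ≠ c := by
    rintro rfl
    have h6 := hB.1 b hb
    rw [Finset.disjoint_self_iff_empty] at hd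
    rw [hd] at h6
    simp at h6
  have hbc0 : ∀ d : Finset α, (b ∩ c ∩ d).card = 0 := by
    intro d
    rw [Finset.disjoint_iff_inter_eq_empty.1 hd, Finset.empty_inter, Finset.card_empty]
  have hval : ∀ d ∈ B, d ≠ b → d ≠ c → ((b ∪ c) ∩ d).card = 0 ∨ ((b ∪ c) ∩ d).card = 2 ∨
      ((b ∪ c) ∩ d).card = 4 := by
    intro d hd' hdb hdc
    have h1 := union_inter_card b c d
    have h2 := hbc0 d
    rcases Cfsg.Agent.S0356.result hα hB hb hd' (Ne.symm hdb) with h3 | h3 <;>
      rcases Cfsg.Agent.S0356.result hα hB hc hd' (Ne.symm hdc) with h4 | h4 <;> omega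
  have ht : ∀ d ∈ B, ((b ∪ c) ∩ d).card ∈ ({0, 2, 4, 6} : Finset ℕ) := by
    intro d hd'
    by_cases hdb : d = b
    · rw [hdb, Finset.inter_eq_right.2 Finset.subset_union_left, hB.1 b hb]
      simp
    by_cases hdc : d = c
    · rw [hdc, Finset.inter_eq_right.2 Finset.subset_union_right, hB.1 c hc]
      simp
    rcases hval d hd' hdb hdc with h | h | h <;> rw [h] <;> simp
  have h6 := m_pair hα hB b c hb hc hne (fun d hd' hdb hdc => by
    rcases hval d hd' hdb hdc with h | h | h <;> omega)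
  have hU : (b ∪ c).card = 12 := by
    rw [Finset.card_union_of_disjoint hd, hB.1 b hb, hB.1 c hc]
  have h0 := moments hα hB (b ∪ c) _ ht 0 (by omega)
  have h1 := moments hα hB (b ∪ c) _ ht 1 (by omega)
  have h2 := moments hα hB (b ∪ c) _ ht 2 (by omega)
  rw [hU] at h0 h1 h2
  simp only [Finset.sum_insert, Finset.mem_insert, Finset.mem_singleton, Finset.sum_singleton,
    show (0 : ℕ) ≠ 2 from by decide, show (0 : ℕ) ≠ 4 from by decide,
    show (0 : ℕ) ≠ 6 from by decide, show (2 : ℕ) ≠ 4 from by decide,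
    show (2 : ℕ) ≠ 6 from by decide, show (4 : ℕ) ≠ 6 from by decide,
    or_self, not_false_eq_true] at h0 h1 h2
  generalize m B (b ∪ c) 0 = n0 at h0 h1 h2 ⊢
  generalize m B (b ∪ c) 2 = n2 at h0 h1 h2 ⊢
  generalize m B (b ∪ c) 4 = n4 at h0 h1 h2 ⊢
  generalize m B (b ∪ c) 6 = n6 at h0 h1 h2 h6 ⊢
  norm_num [Nat.choose] at h0 h1 h2
  omega

/-- two distinct intersecting blocks have exactly 4 common disjoint blocks -/
theorem nonadj4 (hα : Fintype.card α = 22) {B : Set (Finset α)}
    (hB : Cfsg.IsSteinerSystem 3 6 B) (b c : Finset α) (hb : b ∈ B) (hc : c ∈ B)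
    (hne : b ≠ c) (hnd : ¬ Disjoint b c) : m B (b ∪ c) 0 = 4 := by
  have hbc : (b ∩ c).card = 2 := by
    rcases Cfsg.Agent.S0356.result hα hB hb hc hne with h | h
    · exfalso
      apply hnd
      rw [Finset.disjoint_iff_inter_eq_empty]
      exact Finset.card_eq_zero.1 h
    · exact h
  have hval : ∀ d ∈ B, d ≠ b → d ≠ c → ((b ∪ c) ∩ d).card = 0 ∨ ((b ∪ c) ∩ d).card = 2 ∨
      ((b ∪ c) ∩ d).card = 3 ∨ ((b ∪ c) ∩ d).card = 4 := by
    intro d hd' hdb hdc
    have h1 := union_inter_card b c d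
    have h5 : (b ∩ c ∩ d).card ≤ (b ∩ d).card := Finset.card_le_card (by
      intro x hx
      simp only [Finset.mem_inter] at hx ⊢
      exact ⟨hx.1.1, hx.2⟩)
    have h6 : (b ∩ c ∩ d).card ≤ (c ∩ d).card := Finset.card_le_card (by
      intro x hx
      simp only [Finset.mem_inter] at hx ⊢
      exact ⟨hx.1.2, hx.2⟩)
    rcases Cfsg.Agent.S0356.result hα hB hb hd' (Ne.symm hdb) with h3 | h3 <;>
      rcases Cfsg.Agent.S0356.result hα hB hc hd' (Ne.symm hdc) with h4 | h4 <;> omega
  have ht : ∀ d ∈ B, ((b ∪ c) ∩ d).card ∈ ({0, 2, 3, 4, 6} : Finset ℕ) := by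
    intro d hd'
    by_cases hdb : d = b
    · rw [hdb, Finset.inter_eq_right.2 Finset.subset_union_left, hB.1 b hb]
      simp
    by_cases hdc : d = c
    · rw [hdc, Finset.inter_eq_right.2 Finset.subset_union_right, hB.1 c hc]
      simp
    rcases hval d hd' hdb hdc with h | h | h | h <;> rw [h] <;> simp
  have h6 := m_pair hα hB b c hb hc hne (fun d hd' hdb hdc => by
    rcases hval d hd' hdb hdc with h | h | h | h <;> omega)
  have hU : (b ∪ c).card = 10 := by
    have := Finset.card_union_add_card_inter b c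
    rw [hB.1 b hb, hB.1 c hc, hbc] at this
    omega
  have h0 := moments hα hB (b ∪ c) _ ht 0 (by omega)
  have h1 := moments hα hB (b ∪ c) _ ht 1 (by omega)
  have h2 := moments hα hB (b ∪ c) _ ht 2 (by omega)
  have h3 := moments hα hB (b ∪ c) _ ht 3 (by omega)
  rw [hU] at h0 h1 h2 h3
  simp only [Finset.sum_insert, Finset.mem_insert, Finset.mem_singleton, Finset.sum_singleton,
    show (0 : ℕ) ≠ 2 from by decide, show (0 : ℕ) ≠ 3 from by decide,
    show (0 : ℕ) ≠ 4 from by decide, show (0 : ℕ) ≠ 6 from by decide,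
    show (2 : ℕ) ≠ 3 from by decide, show (2 : ℕ) ≠ 4 from by decide,
    show (2 : ℕ) ≠ 6 from by decide, show (3 : ℕ) ≠ 4 from by decide,
    show (3 : ℕ) ≠ 6 from by decide, show (4 : ℕ) ≠ 6 from by decide,
    or_self, not_false_eq_true] at h0 h1 h2 h3
  generalize m B (b ∪ c) 0 = n0 at h0 h1 h2 h3 ⊢
  generalize m B (b ∪ c) 2 = n2 at h0 h1 h2 h3 ⊢
  generalize m B (b ∪ c) 3 = n3 at h0 h1 h2 h3 ⊢
  generalize m B (b ∪ c) 4 = n4 at h0 h1 h2 h3 ⊢
  generalize m B (b ∪ c) 6 = n6 at h0 h1 h2 h3 h6 ⊢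
  norm_num [Nat.choose] at h0 h1 h2 h3
  omega

end Cfsg.Agent.Helper29.S3622
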