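import Mathlib
import Cfsg.Prelude.Def_Sporadic_a
import Cfsg.Agent.Helper2.Steiner

set_option autoImplicit false

/-! Projective planes of order 4 as Steiner systems S(2,5,21): basic incidence facts and
independent sets (arcs). -/

namespace Cfsg.Agent.Helper29.Plane4

open Cfsg.Agent.Helper2.Steiner

variable {α : Type*} [Fintype α] [DecidableEq α] {L : Set (Finset α)}

omit [Fintype α] in
theorem exists_line (hL : Cfsg.IsSteinerSystem 2 5 L) {a b : α} (hab : a ≠ b) :
    ∃ l ∈ L, a ∈ l ∧ b ∈ l := by
  obtain ⟨l, ⟨hl, hs⟩, _⟩ := hL.2 {a, b} (Finset.card_pair hab)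
  exact ⟨l, hl, hs (by simp), hs (by simp)⟩

omit [Fintype α] in
theorem line_unique (hL : Cfsg.IsSteinerSystem 2 5 L) {l m : Finset α} (hl : l ∈ L) (hm : m ∈ L)
    {a b : α} (hab : a ≠ b) (hal : a ∈ l) (hbl : b ∈ l) (ham : a ∈ m) (hbm : b ∈ m) :
    l = m := by
  obtain ⟨l0, _, hu⟩ := hL.2 {a, b} (Finset.card_pair hab)
  have h1 := hu l ⟨hl, by
    intro x hx
    rw [Finset.mem_insert, Finset.mem_singleton] at hx
    rcases hx with rfl | rfl <;> assumption⟩
  have h2 := hu m ⟨hm, by
    intro x hx
    rw [Finset.mem_insert, Finset.mem_singleton] at hx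
    rcases hx with rfl | rfl <;> assumption⟩
  rw [h1, h2]

theorem card_lines_erase (hα : Fintype.card α = 21) (hL : Cfsg.IsSteinerSystem 2 5 L)
    {l : Finset α} (hl : l ∈ L) : ((blocks L).erase l).card = 20 := by
  have h := inter_sum_erase_val hL hl 0 (by norm_num) 20 (by rw [hα]; decide) (by decide)
  simpa using h

theorem card_lines (hα : Fintype.card α = 21) (hL : Cfsg.IsSteinerSystem 2 5 L) :
    (blocks L).card = 21 := by
  have h := lambda_count hL ∅ (by simp)
  simp only [Finset.empty_subset, Finset.filter_true, Finset.card_empty, Nat.sub_zero, hα] at h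
  have e1 : Nat.choose 5 2 = 10 := by decide
  have e2 : Nat.choose 21 2 = 210 := by decide
  rw [e1, e2] at h
  have : ((blocks L).filter (fun _ => True)).card = (blocks L).card := by simp
  omega

theorem meet_card (hα : Fintype.card α = 21) (hL : Cfsg.IsSteinerSystem 2 5 L)
    {l m : Finset α} (hl : l ∈ L) (hm : m ∈ L) (hlm : l ≠ m) : (l ∩ m).card = 1 := by
  have h1 := inter_sum_erase_val hL hl 1 (by norm_num) 20 (by rw [hα]; decide) (by decide)
  have h0 := card_lines_erase hα hL hl
  have hle : ∀ c ∈ (blocks L).erase l, (l ∩ c).card.choose 1 ≤ 1 := by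
    intro c hc
    rw [Finset.mem_erase, mem_blocks] at hc
    have := inter_lt hL hl hc.2 (Ne.symm hc.1)
    rw [Nat.choose_one_right]
    omega
  by_contra hne
  have hm' : m ∈ (blocks L).erase l := Finset.mem_erase.2 ⟨Ne.symm hlm, mem_blocks.2 hm⟩
  have hlt : ∑ c ∈ (blocks L).erase l, (l ∩ c).card.choose 1 < ∑ c ∈ (blocks L).erase l, 1 := by
    apply Finset.sum_lt_sum hle
    refine ⟨m, hm', ?_⟩
    have := inter_lt hL hl hm hlm
    rw [Nat.choose_one_right]
    omega
  rw [Finset.sum_const, smul_eq_mul, mul_one] at hlt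
  omega

theorem meet (hα : Fintype.card α = 21) (hL : Cfsg.IsSteinerSystem 2 5 L)
    {l m : Finset α} (hl : l ∈ L) (hm : m ∈ L) (hlm : l ≠ m) : ∃ p, l ∩ m = {p} :=
  Finset.card_eq_one.1 (meet_card hα hL hl hm hlm)

theorem card_through (hα : Fintype.card α = 21) (hL : Cfsg.IsSteinerSystem 2 5 L) (a : α) :
    ((blocks L).filter (fun l => a ∈ l)).card = 5 := by
  have h := lambda_count hL {a} (by simp)
  simp only [Finset.singleton_subset_iff, Finset.card_singleton, hα] at h
  norm_num at h
  omega

theorem card_eq_sum_through (hL : Cfsg.IsSteinerSystem 2 5 L) (a : α) (U : Finset α)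
    (ha : a ∉ U) :
    U.card = ∑ m ∈ (blocks L).filter (fun l => a ∈ l), (U ∩ m).card := by
  have h1 : ∀ m ∈ (blocks L).filter (fun l => a ∈ l),
      (U ∩ m).card = ∑ x ∈ U, if x ∈ m then 1 else 0 := by
    intro m _
    rw [← Finset.card_filter, Finset.filter_mem_eq_inter]
  rw [Finset.sum_congr rfl h1, Finset.sum_comm, Finset.card_eq_sum_ones]
  apply Finset.sum_congr rfl
  intro x hx
  rw [← Finset.card_filter, eq_comm, Finset.card_eq_one]
  have hxa : a ≠ x := fun h => ha (h ▸ hx)
  obtain ⟨l, hl, hal, hxl⟩ := exists_line hL hxa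
  refine ⟨l, ?_⟩
  ext m
  simp only [Finset.mem_filter, mem_blocks, Finset.mem_singleton]
  constructor
  · rintro ⟨⟨hm, ham⟩, hxm⟩
    exact line_unique hL hm hl hxa ham hxm hal hxl
  · rintro rfl
    exact ⟨⟨hl, hal⟩, hxl⟩

/-- independent sets (arcs): no line meets the set in more than two points -/
def Indep (L : Set (Finset α)) (S : Finset α) : Prop := ∀ l ∈ L, (l ∩ S).card ≤ 2

omit [Fintype α] in
theorem Indep.mono {S T : Finset α} (hS : Indep L S) (hTS : T ⊆ S) : Indep L T :=
  fun l hl => (Finset.card_le_card (Finset.inter_subset_inter_left hTS)).trans (hS l hl)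

open Classical in
/-- extension points of a set -/
noncomputable def E (L : Set (Finset α)) (S : Finset α) : Finset α :=
  Finset.univ.filter (fun x => x ∉ S ∧ Indep L (insert x S))

theorem mem_E {S : Finset α} {x : α} : x ∈ E L S ↔ x ∉ S ∧ Indep L (insert x S) := by
  simp [E]

theorem mem_E_iff {S : Finset α} (hS : Indep L S) {x : α} :
    x ∈ E L S ↔ x ∉ S ∧ ∀ l ∈ L, x ∈ l → (l ∩ S).card ≤ 1 := by
  rw [mem_E]
  constructor
  · rintro ⟨hx, h⟩
    refine ⟨hx, fun l hl hxl => ?_⟩
    have h2 := h l hl
    rw [Finset.inter_insert_of_mem hxl, Finset.card_insert_of_notMem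
      (fun h' => hx (Finset.mem_inter.1 h').2)] at h2
    omega
  · rintro ⟨hx, h⟩
    refine ⟨hx, fun l hl => ?_⟩
    by_cases hxl : x ∈ l
    · rw [Finset.inter_insert_of_mem hxl, Finset.card_insert_of_notMem
        (fun h' => hx (Finset.mem_inter.1 h').2)]
      have := h l hl hxl
      omega
    · rw [Finset.inter_insert_of_notMem hxl]
      exact hS l hl

theorem tangent_count (hα : Fintype.card α = 21) (hL : Cfsg.IsSteinerSystem 2 5 L)
    {S : Finset α} (hS : Indep L S) {a : α} (ha : a ∈ S) :
    (((blocks L).filter (fun l => a ∈ l)).filter (fun m => (m ∩ S).card = 1)).card + S.card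
      = 6 := by
  have h1 := card_eq_sum_through hL a (S.erase a) (Finset.notMem_erase a S)
  have h2 : ∀ m ∈ (blocks L).filter (fun l => a ∈ l),
      ((S.erase a) ∩ m).card = if ¬ (m ∩ S).card = 1 then 1 else 0 := by
    intro m hm
    rw [Finset.mem_filter, mem_blocks] at hm
    have e : (S.erase a) ∩ m = (m ∩ S).erase a := by
      ext x
      simp only [Finset.mem_inter, Finset.mem_erase]
      tauto
    rw [e, Finset.card_erase_of_mem (Finset.mem_inter.2 ⟨hm.2, ha⟩)]
    have h3 := hS m hm.1
    have h4 : 0 < (m ∩ S).card := Finset.card_pos.2 ⟨a, Finset.mem_inter.2 ⟨hm.2, ha⟩⟩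
    split_ifs with h <;> omega
  rw [Finset.sum_congr rfl h2, ← Finset.card_filter, Finset.card_erase_of_mem ha] at h1
  have h5 := Finset.card_filter_add_card_filter_not
    (s := (blocks L).filter (fun l => a ∈ l)) (fun m => (m ∩ S).card = 1)
  rw [card_through hα hL a] at h5
  have h6 : 0 < S.card := Finset.card_pos.2 ⟨a, ha⟩
  omega

theorem E_inter_tangent (hα : Fintype.card α = 21) (hL : Cfsg.IsSteinerSystem 2 5 L)
    {S : Finset α} (hS : Indep L S) (hk : S.card ≤ 4) {a : α} (ha : a ∈ S) {m : Finset α}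
    (hm : m ∈ L) (ham : a ∈ m) (hmS : (m ∩ S).card = 1) :
    (E L S ∩ m).card + (S.card - 1).choose 2 = 4 := by
  classical
  have hS'card : (S.erase a).card = S.card - 1 := Finset.card_erase_of_mem ha
  have hmSa : m ∩ S = {a} := by
    obtain ⟨y, hy⟩ := Finset.card_eq_one.1 hmS
    have h : a ∈ m ∩ S := Finset.mem_inter.2 ⟨ham, ha⟩
    rw [hy] at h ⊢
    rw [Finset.mem_singleton.1 h]
  have hS'ind : Indep L (S.erase a) := hS.mono (Finset.erase_subset a S)
  have hSec_card : ((blocks L).filter (fun l => (l ∩ S.erase a).card = 2)).card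
      = (S.card - 1).choose 2 := by
    have h := inter_sum L (S.erase a) 2
    have hr : ∑ I ∈ (S.erase a).powersetCard 2, ((blocks L).filter (fun c => I ⊆ c)).card
        = (S.card - 1).choose 2 := by
      rw [← hS'card, ← Finset.card_powersetCard, Finset.card_eq_sum_ones]
      apply Finset.sum_congr rfl
      intro I hI
      rw [Finset.mem_powersetCard] at hI
      have := lambda_count hL I (by rw [hI.2])
      rw [hI.2] at this
      simpa using this
    have hl : ∑ c ∈ blocks L, ((S.erase a ∩ c).card).choose 2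
        = ((blocks L).filter (fun l => (l ∩ S.erase a).card = 2)).card := by
      rw [Finset.card_filter]
      apply Finset.sum_congr rfl
      intro c hc
      have h2 : (c ∩ S.erase a).card ≤ 2 := hS'ind c (mem_blocks.1 hc)
      rw [Finset.inter_comm (S.erase a) c]
      generalize (c ∩ S.erase a).card = j at h2
      interval_cases j <;> simp
    rw [← hl, h, hr]
  set Sec := (blocks L).filter (fun l => (l ∩ S.erase a).card = 2) with hSec
  have hsec : ∀ l ∈ Sec, l ∈ L ∧ a ∉ l ∧ l ≠ m := by
    intro l hl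
    rw [hSec, Finset.mem_filter, mem_blocks] at hl
    have hal : a ∉ l := by
      intro hal
      have h3 := hS l hl.1
      have e : l ∩ S = insert a (l ∩ S.erase a) := by
        ext x
        simp only [Finset.mem_inter, Finset.mem_insert, Finset.mem_erase]
        constructor
        · rintro ⟨h1, h2⟩
          by_cases hxa : x = a
          · exact Or.inl hxa
          · exact Or.inr ⟨h1, hxa, h2⟩
        · rintro (rfl | ⟨h1, _, h2⟩)
          · exact ⟨hal, ha⟩
          · exact ⟨h1, h2⟩
      rw [e, Finset.card_insert_of_notMem (by simp), hl.2] at h3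
      omega
    exact ⟨hl.1, hal, fun h => hal (h ▸ ham)⟩
  set B := (m.erase a).filter (fun x => ∃ l ∈ Sec, x ∈ l) with hB
  have hxS : ∀ x ∈ m.erase a, x ∉ S := by
    intro x hx hxS
    rw [Finset.mem_erase] at hx
    have : x ∈ m ∩ S := Finset.mem_inter.2 ⟨hx.2, hxS⟩
    rw [hmSa, Finset.mem_singleton] at this
    exact hx.1 this
  have hBcard : B.card = Sec.card := by
    have key : ∑ x ∈ m.erase a, ∑ l ∈ Sec, (if x ∈ l then 1 else 0)
        = ∑ l ∈ Sec, ∑ x ∈ m.erase a, (if x ∈ l then 1 else 0) := Finset.sum_comm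
    have hR : ∑ l ∈ Sec, ∑ x ∈ m.erase a, (if x ∈ l then 1 else 0) = Sec.card := by
      rw [Finset.card_eq_sum_ones]
      apply Finset.sum_congr rfl
      intro l hl
      obtain ⟨hlL, hal, hlm⟩ := hsec l hl
      obtain ⟨p, hp⟩ := meet hα hL hlL hm hlm
      rw [← Finset.card_filter, Finset.card_eq_one]
      refine ⟨p, ?_⟩
      ext x
      simp only [Finset.mem_filter, Finset.mem_erase, Finset.mem_singleton]
      have hx : x ∈ l ∩ m ↔ x = p := by rw [hp, Finset.mem_singleton]
      rw [Finset.mem_inter] at hx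
      constructor
      · rintro ⟨⟨_, h1⟩, h2⟩
        exact hx.1 ⟨h2, h1⟩
      · intro h
        obtain ⟨h1, h2⟩ := hx.2 h
        exact ⟨⟨fun hxa => hal (hxa ▸ h1), h2⟩, h1⟩
    have hLs : ∑ x ∈ m.erase a, ∑ l ∈ Sec, (if x ∈ l then 1 else 0) = B.card := by
      rw [hB, Finset.card_filter]
      apply Finset.sum_congr rfl
      intro x hx
      rw [← Finset.card_filter]
      by_cases hex : ∃ l ∈ Sec, x ∈ l
      · rw [if_pos hex, Finset.card_eq_one]
        obtain ⟨l1, hl1, hxl1⟩ := hex
        refine ⟨l1, ?_⟩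
        ext l2
        simp only [Finset.mem_filter, Finset.mem_singleton]
        constructor
        · rintro ⟨hl2, hxl2⟩
          by_contra hne
          obtain ⟨h1L, _, _⟩ := hsec l1 hl1
          obtain ⟨h2L, _, _⟩ := hsec l2 hl2
          obtain ⟨p, hp⟩ := meet hα hL h2L h1L hne
          have hxp : x = p := by
            have : x ∈ l2 ∩ l1 := Finset.mem_inter.2 ⟨hxl2, hxl1⟩
            rwa [hp, Finset.mem_singleton] at this
          have hdisj : Disjoint (l1 ∩ S.erase a) (l2 ∩ S.erase a) := by
            rw [Finset.disjoint_left]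
            intro y hy1 hy2
            rw [Finset.mem_inter] at hy1 hy2
            have : y ∈ l2 ∩ l1 := Finset.mem_inter.2 ⟨hy2.1, hy1.1⟩
            rw [hp, Finset.mem_singleton] at this
            rw [this, ← hxp] at hy1
            exact hxS x hx (Finset.mem_of_mem_erase hy1.2)
          have hsub : (l1 ∩ S.erase a) ∪ (l2 ∩ S.erase a) ⊆ S.erase a :=
            Finset.union_subset Finset.inter_subset_right Finset.inter_subset_right
          have hc := Finset.card_le_card hsub
          rw [Finset.card_union_of_disjoint hdisj] at hc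
          rw [hSec, Finset.mem_filter] at hl1 hl2
          omega
        · rintro rfl
          exact ⟨hl1, hxl1⟩
      · rw [if_neg hex, Finset.card_eq_zero, Finset.filter_eq_empty_iff]
        intro l hl hxl
        exact hex ⟨l, hl, hxl⟩
    rw [← hLs, key, hR]
  have hE : E L S ∩ m = (m.erase a) \ B := by
    ext x
    rw [Finset.mem_inter, mem_E_iff hS, Finset.mem_sdiff, hB, Finset.mem_filter,
      Finset.mem_erase]
    constructor
    · rintro ⟨⟨hxS', hx⟩, hxm⟩
      have hxa : x ≠ a := fun h => hxS' (h ▸ ha)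
      refine ⟨⟨hxa, hxm⟩, ?_⟩
      rintro ⟨_, l, hl, hxl⟩
      have h1 := hx l (hsec l hl).1 hxl
      rw [hSec, Finset.mem_filter] at hl
      have h2 := Finset.card_le_card
        (Finset.inter_subset_inter_left (s := l) (Finset.erase_subset a S))
      omega
    · rintro ⟨⟨hxa, hxm⟩, hnB⟩
      have hx' : x ∈ m.erase a := Finset.mem_erase.2 ⟨hxa, hxm⟩
      refine ⟨⟨hxS x hx', ?_⟩, hxm⟩
      intro l hl hxl
      by_cases hal : a ∈ l
      · have : l = m := line_unique hL hl hm (Ne.symm hxa) hal hxl ham hxm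
        rw [this, hmS]
      · have e : l ∩ S = l ∩ S.erase a := by
          ext y
          simp only [Finset.mem_inter, Finset.mem_erase]
          constructor
          · rintro ⟨h1, h2⟩
            exact ⟨h1, fun h => hal (h ▸ h1), h2⟩
          · rintro ⟨h1, _, h2⟩
            exact ⟨h1, h2⟩
        rw [e]
        have h2 := hS'ind l hl
        by_contra hgt
        have h3 : (l ∩ S.erase a).card = 2 := by omega
        exact hnB ⟨⟨hxa, hxm⟩, l, by rw [hSec, Finset.mem_filter, mem_blocks]; exact ⟨hl, h3⟩, hxl⟩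
  have hle : B.card ≤ (m.erase a).card := Finset.card_le_card (Finset.filter_subset _ _)
  rw [hE, Finset.card_sdiff_of_subset (Finset.filter_subset _ _)]
  rw [hBcard, hSec_card, Finset.card_erase_of_mem ham, hL.1 m hm] at hle ⊢
  omega

theorem E_card (hα : Fintype.card α = 21) (hL : Cfsg.IsSteinerSystem 2 5 L)
    {S : Finset α} (hS : Indep L S) (h1 : 1 ≤ S.card) (hk : S.card ≤ 4) :
    (E L S).card = (6 - S.card) * (4 - (S.card - 1).choose 2) := by
  obtain ⟨a, ha⟩ := Finset.card_pos.1 h1
  have haE : a ∉ E L S := fun h => (mem_E.1 h).1 ha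
  rw [card_eq_sum_through hL a (E L S) haE]
  have h2 : ∀ m ∈ (blocks L).filter (fun l => a ∈ l),
      (E L S ∩ m).card = if (m ∩ S).card = 1 then (4 - (S.card - 1).choose 2) else 0 := by
    intro m hm
    rw [Finset.mem_filter, mem_blocks] at hm
    split_ifs with h
    · have := E_inter_tangent hα hL hS hk ha hm.1 hm.2 h
      omega
    · rw [Finset.card_eq_zero, Finset.eq_empty_iff_forall_notMem]
      intro x hx
      rw [Finset.mem_inter, mem_E_iff hS] at hx
      have h3 := hx.1.2 m hm.1 hx.2
      have h4 : 0 < (m ∩ S).card := Finset.card_pos.2 ⟨a, Finset.mem_inter.2 ⟨hm.2, ha⟩⟩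
      omega
  rw [Finset.sum_congr rfl h2, ← Finset.sum_filter, Finset.sum_const, smul_eq_mul]
  have := tangent_count hα hL hS ha
  congr 1
  omega

theorem ext_count (P : Finset α → Prop) [DecidablePred P]
    (hP : ∀ S x, P S → P (S.erase x)) (k : ℕ) :
    ∑ T ∈ ((Finset.univ : Finset α).powersetCard k).filter P,
      ((Finset.univ : Finset α).filter (fun x => x ∉ T ∧ P (insert x T))).card
    = (k + 1) * (((Finset.univ : Finset α).powersetCard (k + 1)).filter P).card := by
  have h2 : (k + 1) * (((Finset.univ : Finset α).powersetCard (k + 1)).filter P).card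
      = ∑ S ∈ ((Finset.univ : Finset α).powersetCard (k + 1)).filter P, S.card := by
    rw [Finset.sum_const_nat (m := k + 1), mul_comm]
    intro S hS
    exact (Finset.mem_powersetCard.1 (Finset.mem_filter.1 hS).1).2
  rw [h2, ← Finset.card_sigma, ← Finset.card_sigma]
  apply Finset.card_nbij' (fun p => (⟨insert p.2 p.1, p.2⟩ : Sigma (fun _ : Finset α => α)))
    (fun q => (⟨q.1.erase q.2, q.2⟩ : Sigma (fun _ : Finset α => α)))
  · rintro ⟨T, x⟩ h
    simp only [Finset.coe_sigma, Set.mem_sigma_iff, Finset.mem_coe, Finset.mem_filter,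
      Finset.mem_powersetCard, Finset.subset_univ, true_and, Finset.mem_univ] at h ⊢
    obtain ⟨⟨hT, hPT⟩, hx, hPx⟩ := h
    exact ⟨⟨by rw [Finset.card_insert_of_notMem hx, hT], hPx⟩, Finset.mem_insert_self x T⟩
  · rintro ⟨S, x⟩ h
    simp only [Finset.coe_sigma, Set.mem_sigma_iff, Finset.mem_coe, Finset.mem_filter,
      Finset.mem_powersetCard, Finset.subset_univ, true_and, Finset.mem_univ] at h ⊢
    obtain ⟨⟨hS, hPS⟩, hx⟩ := h
    refine ⟨⟨by rw [Finset.card_erase_of_mem hx, hS]; rfl, hP S x hPS⟩,
      Finset.notMem_erase x S, ?_⟩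
    rw [Finset.insert_erase hx]
    exact hPS
  · rintro ⟨T, x⟩ h
    simp only [Finset.coe_sigma, Set.mem_sigma_iff, Finset.mem_coe, Finset.mem_filter,
      Finset.mem_powersetCard, Finset.subset_univ, true_and, Finset.mem_univ] at h
    simp [Finset.erase_insert h.2.1]
  · rintro ⟨S, x⟩ h
    simp only [Finset.coe_sigma, Set.mem_sigma_iff, Finset.mem_coe, Finset.mem_filter,
      Finset.mem_powersetCard, Finset.subset_univ, true_and] at h
    simp [Finset.insert_erase h.2]

open Classical in
/-- the independent `k`-sets -/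
noncomputable def Ind (L : Set (Finset α)) (k : ℕ) : Finset (Finset α) :=
  ((Finset.univ : Finset α).powersetCard k).filter (Indep L)

theorem mem_Ind {k : ℕ} {S : Finset α} : S ∈ Ind L k ↔ S.card = k ∧ Indep L S := by
  simp [Ind, Finset.mem_powersetCard]

theorem ncard_eq_Ind (k : ℕ) :
    {S : Finset α | S.card = k ∧ ∀ l ∈ L, (l ∩ S).card ≤ 2}.ncard = (Ind L k).card := by
  rw [← Set.ncard_coe_finset]
  congr 1
  ext S
  rw [Finset.mem_coe, mem_Ind]
  rfl

theorem Ind_succ (L : Set (Finset α)) (k : ℕ) :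
    ∑ T ∈ Ind L k, (E L T).card = (k + 1) * (Ind L (k + 1)).card := by
  classical
  have h := ext_count (Indep L) (fun S x hS => hS.mono (Finset.erase_subset x S)) k
  have e : ∀ T : Finset α,
      (Finset.univ : Finset α).filter (fun x => x ∉ T ∧ Indep L (insert x T)) = E L T := by
    intro T
    ext x
    simp [mem_E]
  simp only [e] at h
  have e2 : ∀ j, ((Finset.univ : Finset α).powersetCard j).filter (Indep L) = Ind L j := by
    intro j
    ext S
    simp [mem_Ind, Finset.mem_powersetCard]
  rw [e2, e2] at h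
  exact h

theorem Ind_two (hα : Fintype.card α = 21) : (Ind L 2).card = 210 := by
  classical
  have e : Ind L 2 = (Finset.univ : Finset α).powersetCard 2 := by
    ext S
    rw [mem_Ind, Finset.mem_powersetCard]
    constructor
    · rintro ⟨h, _⟩
      exact ⟨Finset.subset_univ _, h⟩
    · rintro ⟨_, h⟩
      refine ⟨h, fun l _ => ?_⟩
      rw [← h]
      exact Finset.card_le_card Finset.inter_subset_right
  rw [e, Finset.card_powersetCard, Finset.card_univ, hα]
  decide

theorem Ind_three (hα : Fintype.card α = 21) (hL : Cfsg.IsSteinerSystem 2 5 L) :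
    (Ind L 3).card = 1120 := by
  have h : ∑ T ∈ Ind L 2, (E L T).card = 3 * (Ind L 3).card := Ind_succ L 2
  have h2 : ∀ T ∈ Ind L 2, (E L T).card = 16 := by
    intro T hT
    rw [mem_Ind] at hT
    rw [E_card hα hL hT.2 (by omega) (by omega), hT.1]
    decide
  rw [Finset.sum_const_nat h2, Ind_two hα] at h
  omega

theorem Ind_four (hα : Fintype.card α = 21) (hL : Cfsg.IsSteinerSystem 2 5 L) :
    (Ind L 4).card = 2520 := by
  have h : ∑ T ∈ Ind L 3, (E L T).card = 4 * (Ind L 4).card := Ind_succ L 3
  have h2 : ∀ T ∈ Ind L 3, (E L T).card = 9 := by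
    intro T hT
    rw [mem_Ind] at hT
    rw [E_card hα hL hT.2 (by omega) (by omega), hT.1]
    decide
  rw [Finset.sum_const_nat h2, Ind_three hα hL] at h
  omega

theorem E_card_four (hα : Fintype.card α = 21) (hL : Cfsg.IsSteinerSystem 2 5 L)
    {S : Finset α} (hS : Indep L S) (h4 : S.card = 4) : (E L S).card = 2 := by
  rw [E_card hα hL hS (by omega) (by omega), h4]
  decide

theorem indep_union_E (hα : Fintype.card α = 21) (hL : Cfsg.IsSteinerSystem 2 5 L)
    {S : Finset α} (hS : Indep L S) (h4 : S.card = 4) : Indep L (S ∪ E L S) := by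
  intro l hl
  have hd : Disjoint (l ∩ S) (l ∩ E L S) := by
    rw [Finset.disjoint_left]
    intro x h1 h2
    exact (mem_E.1 (Finset.mem_inter.1 h2).2).1 (Finset.mem_inter.1 h1).2
  rw [Finset.inter_union_distrib_left, Finset.card_union_of_disjoint hd]
  have h2 := hS l hl
  have hEc := E_card_four hα hL hS h4
  rcases Nat.lt_or_ge (l ∩ S).card 1 with h | h
  · have := Finset.card_le_card (Finset.inter_subset_right (s₁ := l) (s₂ := E L S))
    omega
  · rcases Nat.lt_or_ge (l ∩ S).card 2 with h' | h'
    · have h1 : (l ∩ S).card = 1 := by omega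
      obtain ⟨a, ha⟩ := Finset.card_eq_one.1 h1
      have ha' : a ∈ l ∩ S := by
        rw [ha]
        exact Finset.mem_singleton_self a
      rw [Finset.mem_inter] at ha'
      have := E_inter_tangent hα hL hS (by omega) ha'.2 hl ha'.1 h1
      rw [h4] at this
      rw [Finset.inter_comm l (E L S)]
      have e : Nat.choose (4 - 1) 2 = 3 := by decide
      omega
    · have : l ∩ E L S = ∅ := by
        rw [Finset.eq_empty_iff_forall_notMem]
        intro x hx
        rw [Finset.mem_inter, mem_E_iff hS] at hx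
        have := hx.2.2 l hl hx.1
        omega
      rw [this, Finset.card_empty]
      omega

theorem hyperoval_unique (hα : Fintype.card α = 21) (hL : Cfsg.IsSteinerSystem 2 5 L)
    {S : Finset α} (hS : Indep L S) (h4 : S.card = 4) :
    ∃! H : Finset α, (H.card = 6 ∧ Indep L H) ∧ S ⊆ H := by
  have hEc := E_card_four hα hL hS h4
  have hd : Disjoint S (E L S) := by
    rw [Finset.disjoint_left]
    intro x h1 h2
    exact (mem_E.1 h2).1 h1
  refine ⟨S ∪ E L S, ⟨⟨by rw [Finset.card_union_of_disjoint hd, h4, hEc],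
    indep_union_E hα hL hS h4⟩, Finset.subset_union_left⟩, ?_⟩
  rintro H ⟨⟨hH6, hHi⟩, hSH⟩
  have hsub : H \ S ⊆ E L S := by
    intro x hx
    rw [Finset.mem_sdiff] at hx
    rw [mem_E]
    exact ⟨hx.2, hHi.mono (Finset.insert_subset hx.1 hSH)⟩
  have hc : (H \ S).card = 2 := by
    rw [Finset.card_sdiff_of_subset hSH]
    omega
  have := Finset.eq_of_subset_of_card_le hsub (by omega)
  rw [← this, Finset.union_sdiff_of_subset hSH]

theorem Ind_six (hα : Fintype.card α = 21) (hL : Cfsg.IsSteinerSystem 2 5 L) :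
    (Ind L 6).card = 168 := by
  classical
  have key := Finset.sum_card_bipartiteAbove_eq_sum_card_bipartiteBelow
    (s := Ind L 6) (t := Ind L 4) (r := fun H S => S ⊆ H)
  have h1 : ∀ H ∈ Ind L 6, ((Ind L 4).bipartiteAbove (fun H S => S ⊆ H) H).card = 15 := by
    intro H hH
    rw [mem_Ind] at hH
    have e : (Ind L 4).bipartiteAbove (fun H S => S ⊆ H) H = H.powersetCard 4 := by
      ext S
      simp only [Finset.bipartiteAbove, Finset.mem_filter, mem_Ind, Finset.mem_powersetCard]
      constructor
      · rintro ⟨⟨h, _⟩, hs⟩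
        exact ⟨hs, h⟩
      · rintro ⟨hs, h⟩
        exact ⟨⟨h, hH.2.mono hs⟩, hs⟩
    rw [e, Finset.card_powersetCard, hH.1]
    decide
  have h2 : ∀ S ∈ Ind L 4, ((Ind L 6).bipartiteBelow (fun H S => S ⊆ H) S).card = 1 := by
    intro S hS
    rw [mem_Ind] at hS
    obtain ⟨H, hH, hu⟩ := hyperoval_unique hα hL hS.2 hS.1
    rw [Finset.card_eq_one]
    refine ⟨H, ?_⟩
    ext H'
    simp only [Finset.bipartiteBelow, Finset.mem_filter, mem_Ind, Finset.mem_singleton]
    constructor
    · intro h
      exact hu H' h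
    · rintro rfl
      exact hH
  rw [Finset.sum_const_nat h1, Finset.sum_const_nat h2, Ind_four hα hL] at key
  omega

end Cfsg.Agent.Helper29.Plane4
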