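import Mathlib
import Cfsg.Prelude.Def_Sporadic_a
import Cfsg.Agent.Helper2.Steiner
import Cfsg.Agent.Helper29.Plane4

set_option autoImplicit false

/-! Hyperovals in a projective plane of order 4: the plane is coordinatised by a hyperoval
(points off the hyperoval are the synthemes), so bijections between hyperovals extend to
isomorphisms of planes. -/

namespace Cfsg.Agent.Helper29.Plane4

open Cfsg.Agent.Helper2.Steiner

variable {α : Type*} [Fintype α] [DecidableEq α] {L : Set (Finset α)} {H : Finset α}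

omit [Fintype α] in
theorem indep_three {S : Finset α} (hS : Indep L S) {l : Finset α} (hl : l ∈ L) {a b c : α}
    (ha : a ∈ S) (hb : b ∈ S) (hc : c ∈ S) (hal : a ∈ l) (hbl : b ∈ l) (hcl : c ∈ l)
    (hab : a ≠ b) (hac : a ≠ c) : b = c := by
  by_contra hbc
  have h : 2 < (l ∩ S).card := Finset.two_lt_card.2
    ⟨a, Finset.mem_inter.2 ⟨hal, ha⟩, b, Finset.mem_inter.2 ⟨hbl, hb⟩, c,
      Finset.mem_inter.2 ⟨hcl, hc⟩, hab, hac, hbc⟩
  have := hS l hl
  omega

/-- a plane of order 4 with a hyperoval -/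
structure Hyp (L : Set (Finset α)) (H : Finset α) : Prop where
  card : Fintype.card α = 21
  st : Cfsg.IsSteinerSystem 2 5 L
  six : H.card = 6
  ind : Indep L H

theorem hyp_secant (h : Hyp L H) {l : Finset α} (hl : l ∈ L) {a : α} (haH : a ∈ H)
    (hal : a ∈ l) : (l ∩ H).card = 2 := by
  have ht := tangent_count h.card h.st h.ind haH
  rw [h.six] at ht
  have h0 : (((blocks L).filter (fun l => a ∈ l)).filter (fun m => (m ∩ H).card = 1)) = ∅ :=
    Finset.card_eq_zero.1 (by omega)
  have h1 : (l ∩ H).card ≠ 1 := by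
    intro h1
    have : l ∈ (((blocks L).filter (fun l => a ∈ l)).filter (fun m => (m ∩ H).card = 1)) := by
      rw [Finset.mem_filter, Finset.mem_filter, mem_blocks]
      exact ⟨⟨hl, hal⟩, h1⟩
    rw [h0] at this
    exact Finset.notMem_empty _ this
  have h2 := h.ind l hl
  have h3 : 0 < (l ∩ H).card := Finset.card_pos.2 ⟨a, Finset.mem_inter.2 ⟨hal, haH⟩⟩
  omega

/-- collinear -/
def Col (L : Set (Finset α)) (p u v : α) : Prop := ∃ l ∈ L, p ∈ l ∧ u ∈ l ∧ v ∈ l

omit [Fintype α] [DecidableEq α] in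
theorem Col.swap {p u v : α} (h : Col L p u v) : Col L p v u := by
  obtain ⟨l, hl, a, b, c⟩ := h
  exact ⟨l, hl, a, c, b⟩

theorem exists_mate (h : Hyp L H) {p : α} (hp : p ∉ H) (u : ↥H) :
    ∃ v : ↥H, v ≠ u ∧ Col L p u v := by
  have hpu : p ≠ (u : α) := fun e => hp (e ▸ u.2)
  obtain ⟨l, hl, hpl, hul⟩ := exists_line h.st hpu
  have h2 := hyp_secant h hl u.2 hul
  obtain ⟨v, hv, hvu⟩ := Finset.exists_mem_ne (by omega : 1 < (l ∩ H).card) (u : α)
  rw [Finset.mem_inter] at hv
  exact ⟨⟨v, hv.2⟩, fun e => hvu (congrArg Subtype.val e), l, hl, hpl, hul, hv.1⟩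

omit [Fintype α] in
theorem mate_unique (hL : Cfsg.IsSteinerSystem 2 5 L) (hHi : Indep L H) {p : α} (hp : p ∉ H)
    {u v w : ↥H} (hv : v ≠ u) (hw : w ≠ u)
    (h1 : Col L p u v) (h2 : Col L p u w) : v = w := by
  obtain ⟨l, hl, hpl, hul, hvl⟩ := h1
  obtain ⟨l', hl', hpl', hul', hwl'⟩ := h2
  have hpu : p ≠ (u : α) := fun e => hp (e ▸ u.2)
  have e := line_unique hL hl hl' hpu hpl hul hpl' hul'
  rw [← e] at hwl'
  have := indep_three hHi hl u.2 v.2 w.2 hul hvl hwl' (fun e' => hv (Subtype.ext e'.symm))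
    (fun e' => hw (Subtype.ext e'.symm))
  exact Subtype.ext this

open Classical in
/-- the other point of the hyperoval on the line through `p` and `u` -/
noncomputable def mate (L : Set (Finset α)) (H : Finset α) (p : α) (u : ↥H) : ↥H :=
  if h : ∃ v : ↥H, v ≠ u ∧ Col L p u v then h.choose else u

theorem mate_spec (h : Hyp L H) {p : α} (hp : p ∉ H) (u : ↥H) :
    mate L H p u ≠ u ∧ Col L p u (mate L H p u) := by
  have hx := exists_mate h hp u
  rw [mate, dif_pos hx]
  exact hx.choose_spec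

theorem mate_eq (h : Hyp L H) {p : α} (hp : p ∉ H) {u v : ↥H} (hv : v ≠ u)
    (hc : Col L p u v) : mate L H p u = v :=
  mate_unique h.st h.ind hp (mate_spec h hp u).1 hv (mate_spec h hp u).2 hc

theorem mate_mate (h : Hyp L H) {p : α} (hp : p ∉ H) (u : ↥H) :
    mate L H p (mate L H p u) = u :=
  mate_eq h hp (mate_spec h hp u).1.symm (mate_spec h hp u).2.swap

omit [Fintype α] [DecidableEq α] in
theorem exists_two (hH : H.card = 6) (τ : ↥H → ↥H) :
    ∃ u1 u2 : ↥H, u2 ≠ u1 ∧ u2 ≠ τ u1 := by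
  classical
  have hc : Fintype.card ↥H = 6 := by rw [Fintype.card_coe, hH]
  have hne : Nonempty ↥H := Fintype.card_pos_iff.1 (by omega)
  obtain ⟨u1⟩ := hne
  obtain ⟨u2, _, hu2⟩ := Finset.exists_mem_notMem_of_card_lt_card
    (s := ({u1, τ u1} : Finset ↥H)) (t := Finset.univ) (by
      rw [Finset.card_univ, hc]
      exact lt_of_le_of_lt (Finset.card_insert_le _ _) (by simp))
  refine ⟨u1, u2, ?_, ?_⟩
  · intro e
    apply hu2
    rw [e]
    simp
  · intro e
    apply hu2
    rw [e]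
    simp

theorem point_of_mate (h : Hyp L H) {p1 p2 : α} (hp1 : p1 ∉ H) (hp2 : p2 ∉ H)
    (hm : mate L H p1 = mate L H p2) : p1 = p2 := by
  obtain ⟨u1, u2, hne1, hne2⟩ := exists_two h.six (mate L H p1)
  obtain ⟨l1, hl1, hp1l1, hu1l1, hv1l1⟩ := (mate_spec h hp1 u1).2
  obtain ⟨l1', hl1', hp2l1', hu1l1', hv1l1'⟩ := (mate_spec h hp2 u1).2
  rw [← hm] at hv1l1'
  have hne : (u1 : α) ≠ (mate L H p1 u1 : α) :=
    fun e => (mate_spec h hp1 u1).1 (Subtype.ext e.symm)
  have e1 := line_unique h.st hl1 hl1' hne hu1l1 hv1l1 hu1l1' hv1l1'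
  obtain ⟨l2, hl2, hp1l2, hu2l2, hv2l2⟩ := (mate_spec h hp1 u2).2
  obtain ⟨l2', hl2', hp2l2', hu2l2', hv2l2'⟩ := (mate_spec h hp2 u2).2
  rw [← hm] at hv2l2'
  have hne' : (u2 : α) ≠ (mate L H p1 u2 : α) :=
    fun e => (mate_spec h hp1 u2).1 (Subtype.ext e.symm)
  have e2 := line_unique h.st hl2 hl2' hne' hu2l2 hv2l2 hu2l2' hv2l2'
  by_contra hpp
  rw [← e1] at hp2l1'
  rw [← e2] at hp2l2'
  have e3 := line_unique h.st hl1 hl2 hpp hp1l1 hp2l1' hp1l2 hp2l2'
  rw [← e3] at hu2l2
  have := indep_three h.ind hl1 u1.2 (mate L H p1 u1).2 u2.2 hu1l1 hv1l1 hu2l2 hne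
    (fun e => hne1 (Subtype.ext e.symm))
  exact hne2 (Subtype.ext this.symm)

/-- two fixed-point-free involutions of a 6-set agreeing on two points in different orbits
are equal -/
theorem inv_eq {X : Type*} [Fintype X] [DecidableEq X] (hX : Fintype.card X = 6)
    (τ τ' : X → X) (h1 : ∀ x, τ (τ x) = x) (h2 : ∀ x, τ x ≠ x) (h1' : ∀ x, τ' (τ' x) = x)
    (h2' : ∀ x, τ' x ≠ x) (u1 u2 : X) (hu : u2 ≠ u1) (hu' : u2 ≠ τ u1)
    (e1 : τ' u1 = τ u1) (e2 : τ' u2 = τ u2) : τ' = τ := by
  set A : Finset X := {u1, τ u1, u2, τ u2} with hA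
  have hAcard : A.card ≤ 4 := Finset.card_le_four
  have hmem : ∀ x, x ∈ A ↔ x = u1 ∨ x = τ u1 ∨ x = u2 ∨ x = τ u2 := by
    intro x
    rw [hA]
    simp
  have hAτ : ∀ x ∈ A, τ' x = τ x ∧ τ x ∈ A := by
    intro x hx
    rw [hmem] at hx
    rcases hx with rfl | rfl | rfl | rfl
    · exact ⟨e1, (hmem _).2 (Or.inr (Or.inl rfl))⟩
    · refine ⟨?_, (hmem _).2 (Or.inl (h1 _))⟩
      rw [← e1, h1', e1, h1]
    · exact ⟨e2, (hmem _).2 (Or.inr (Or.inr (Or.inr rfl)))⟩
    · refine ⟨?_, (hmem _).2 (Or.inr (Or.inr (Or.inl (h1 _))))⟩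
      rw [← e2, h1', e2, h1]
  funext x
  by_cases hx : x ∈ A
  · exact (hAτ x hx).1
  · have hτx : τ x ∉ A := by
      intro hmem'
      have := (hAτ _ hmem').2
      rw [h1] at this
      exact hx this
    have hτ'x : τ' x ∉ A := by
      intro hmem'
      have h3 := (hAτ _ hmem').1
      rw [h1'] at h3
      have := (hAτ _ hmem').2
      rw [← h3] at this
      exact hx this
    have hc : ((Finset.univ \ A).erase x).card ≤ 1 := by
      rw [Finset.card_erase_of_mem (by simp [hx]), Finset.card_sdiff_of_subset (Finset.subset_univ _),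
        Finset.card_univ, hX]
      have : 4 ≤ A.card := by
        rw [hA]
        have d1 : u1 ≠ τ u1 := fun e => h2 u1 e.symm
        have d2 : u1 ≠ u2 := fun e => hu e.symm
        have d3 : u1 ≠ τ u2 := by
          intro e
          apply hu'
          rw [e, h1]
        have d4 : τ u1 ≠ u2 := fun e => hu' e.symm
        have d5 : τ u1 ≠ τ u2 := by
          intro e
          apply hu
          have := congrArg τ e
          rw [h1, h1] at this
          exact this.symm
        have d6 : u2 ≠ τ u2 := fun e => h2 u2 e.symm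
        rw [Finset.card_insert_of_notMem (by simp [d1, d2, d3]),
          Finset.card_insert_of_notMem (by simp [d4, d5]),
          Finset.card_insert_of_notMem (by simp [d6]), Finset.card_singleton]
      omega
    exact Finset.card_le_one.1 hc _ (by simp [hτ'x, h2' x]) _ (by simp [hτx, h2 x])

theorem exists_point (h : Hyp L H) (τ : ↥H → ↥H) (h1 : ∀ x, τ (τ x) = x)
    (h2 : ∀ x, τ x ≠ x) : ∃ q, q ∉ H ∧ mate L H q = τ := by
  obtain ⟨u1, u2, hne1, hne2⟩ := exists_two h.six τ
  have d1 : (u1 : α) ≠ (τ u1 : α) := fun e => h2 u1 (Subtype.ext e.symm)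
  have d2 : (u2 : α) ≠ (τ u2 : α) := fun e => h2 u2 (Subtype.ext e.symm)
  obtain ⟨l1, hl1, a1, b1⟩ := exists_line h.st d1
  obtain ⟨l2, hl2, a2, b2⟩ := exists_line h.st d2
  have hl12 : l1 ≠ l2 := by
    intro e
    rw [← e] at a2
    have := indep_three h.ind hl1 u1.2 (τ u1).2 u2.2 a1 b1 a2 d1
      (fun e => hne1 (Subtype.ext e.symm))
    exact hne2 (Subtype.ext this.symm)
  obtain ⟨q, hq⟩ := meet h.card h.st hl1 hl2 hl12
  have hq' : q ∈ l1 ∧ q ∈ l2 := by
    have : q ∈ l1 ∩ l2 := by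
      rw [hq]
      exact Finset.mem_singleton_self q
    exact Finset.mem_inter.1 this
  have hqH : q ∉ H := by
    intro hqH
    -- q ∈ {u1, τ u1} and q ∈ {u2, τ u2}
    have c1 : q = u1 ∨ q = τ u1 := by
      by_cases e : q = u1
      · exact Or.inl e
      · right
        exact (indep_three h.ind hl1 u1.2 (τ u1).2 hqH a1 b1 hq'.1 d1 (Ne.symm e)).symm
    have c2 : q = u2 ∨ q = τ u2 := by
      by_cases e : q = u2
      · exact Or.inl e
      · right
        exact (indep_three h.ind hl2 u2.2 (τ u2).2 hqH a2 b2 hq'.2 d2 (Ne.symm e)).symm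
    rcases c1 with c1 | c1 <;> rcases c2 with c2 | c2
    · exact hne1 (Subtype.ext (c2.symm.trans c1))
    · have e : τ u2 = u1 := Subtype.ext (c2.symm.trans c1)
      apply hne2
      rw [← e, h1]
    · exact hne2 (Subtype.ext (c2.symm.trans c1))
    · have e : τ u2 = τ u1 := Subtype.ext (c2.symm.trans c1)
      apply hne1
      have := congrArg τ e
      rwa [h1, h1] at this
  refine ⟨q, hqH, ?_⟩
  have hc : Fintype.card ↥H = 6 := by rw [Fintype.card_coe, h.six]
  apply inv_eq hc τ (mate L H q) h1 h2 (mate_mate h hqH) (fun x => (mate_spec h hqH x).1)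
    u1 u2 hne1 hne2
  · exact mate_eq h hqH (fun e => h2 u1 e) ⟨l1, hl1, hq'.1, a1, b1⟩
  · exact mate_eq h hqH (fun e => h2 u2 e) ⟨l2, hl2, hq'.2, a2, b2⟩

theorem external_count (h : Hyp L H) {q : α} (hq : q ∉ H) :
    (((blocks L).filter (fun l => q ∈ l)).filter (fun l => l ∩ H = ∅)).card = 2 := by
  have h1 := card_eq_sum_through h.st q H hq
  have h2 : ∀ m ∈ (blocks L).filter (fun l => q ∈ l),
      (H ∩ m).card = 2 * if ¬ (m ∩ H = ∅) then 1 else 0 := by
    intro m hm
    rw [Finset.mem_filter, mem_blocks] at hm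
    rw [Finset.inter_comm]
    split_ifs with hne
    · rw [hne]
      rfl
    · obtain ⟨a, ha⟩ := Finset.nonempty_iff_ne_empty.2 hne
      rw [Finset.mem_inter] at ha
      rw [hyp_secant h hm.1 ha.2 ha.1]
  rw [Finset.sum_congr rfl h2, ← Finset.mul_sum, ← Finset.card_filter, h.six] at h1
  have h5 := Finset.card_filter_add_card_filter_not
    (s := (blocks L).filter (fun l => q ∈ l)) (fun m => m ∩ H = ∅)
  rw [card_through h.card h.st q] at h5
  omega

theorem external_three (h : Hyp L H) {q : α} (hq : q ∉ H) {l1 l2 l3 : Finset α}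
    (h1 : l1 ∈ L) (h2 : l2 ∈ L) (h3 : l3 ∈ L) (q1 : q ∈ l1) (q2 : q ∈ l2) (q3 : q ∈ l3)
    (e1 : l1 ∩ H = ∅) (e2 : l2 ∩ H = ∅) (e3 : l3 ∩ H = ∅) (hne : l1 ≠ l2) :
    l3 = l1 ∨ l3 = l2 := by
  by_contra hcon
  push Not at hcon
  have hc := external_count h hq
  have hsub : ({l1, l2, l3} : Finset (Finset α)) ⊆
      (((blocks L).filter (fun l => q ∈ l)).filter (fun l => l ∩ H = ∅)) := by
    intro l hl
    rw [Finset.mem_insert, Finset.mem_insert, Finset.mem_singleton] at hl
    rw [Finset.mem_filter, Finset.mem_filter, mem_blocks]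
    rcases hl with rfl | rfl | rfl
    · exact ⟨⟨h1, q1⟩, e1⟩
    · exact ⟨⟨h2, q2⟩, e2⟩
    · exact ⟨⟨h3, q3⟩, e3⟩
  have h3c : ({l1, l2, l3} : Finset (Finset α)).card = 3 := by
    rw [Finset.card_insert_of_notMem (by simp [hne, hcon.1.symm]),
      Finset.card_insert_of_notMem (by simp [hcon.2.symm]), Finset.card_singleton]
  have := Finset.card_le_card hsub
  omega

/-- five points off the hyperoval, pairwise joined by external lines, form a line -/
theorem whitney (h : Hyp L H) {T : Finset α} (hT : T.card = 5) (hTH : Disjoint T H)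
    (hext : ∀ x ∈ T, ∀ y ∈ T, x ≠ y → ∀ l ∈ L, x ∈ l → y ∈ l → l ∩ H = ∅) : T ∈ L := by
  obtain ⟨q1, hq1⟩ := Finset.card_pos.1 (by omega : 0 < T.card)
  obtain ⟨q2, hq2, hq21⟩ := Finset.exists_mem_ne (by omega : 1 < T.card) q1
  obtain ⟨l, hl, h1l, h2l⟩ := exists_line h.st (Ne.symm hq21)
  have hle := hext q1 hq1 q2 hq2 (Ne.symm hq21) l hl h1l h2l
  have hout : ∀ x ∈ T, x ∉ H := fun x hx => Finset.disjoint_left.1 hTH hx
  have hsub : T ⊆ l := by
    intro q3 hq3
    by_contra h3l
    have h13 : q1 ≠ q3 := fun e => h3l (e ▸ h1l)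
    have h23 : q2 ≠ q3 := fun e => h3l (e ▸ h2l)
    obtain ⟨l13, hl13, a13, b13⟩ := exists_line h.st h13
    obtain ⟨l23, hl23, a23, b23⟩ := exists_line h.st h23
    have e13 := hext q1 hq1 q3 hq3 h13 l13 hl13 a13 b13
    have e23 := hext q2 hq2 q3 hq3 h23 l23 hl23 a23 b23
    have n1 : l ≠ l13 := fun e => h3l (e ▸ b13)
    have n2 : l ≠ l23 := fun e => h3l (e ▸ b23)
    have n3 : l13 ≠ l23 := by
      intro e
      rw [← e] at a23
      exact n1 (line_unique h.st hl hl13 (Ne.symm hq21) h1l h2l a13 a23)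
    -- a fourth point
    obtain ⟨q4, hq4, hq4'⟩ := Finset.exists_mem_notMem_of_card_lt_card
      (s := ({q1, q2, q3} : Finset α)) (t := T) (by
        rw [hT]
        exact lt_of_le_of_lt Finset.card_le_three (by norm_num))
    rw [Finset.mem_insert, Finset.mem_insert, Finset.mem_singleton] at hq4'
    push Not at hq4'
    obtain ⟨h41, h42, h43⟩ := hq4'
    obtain ⟨l14, hl14, a14, b14⟩ := exists_line h.st (Ne.symm h41)
    obtain ⟨l24, hl24, a24, b24⟩ := exists_line h.st (Ne.symm h42)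
    obtain ⟨l34, hl34, a34, b34⟩ := exists_line h.st (Ne.symm h43)
    have e14 := hext q1 hq1 q4 hq4 (Ne.symm h41) l14 hl14 a14 b14
    have e24 := hext q2 hq2 q4 hq4 (Ne.symm h42) l24 hl24 a24 b24
    have e34 := hext q3 hq3 q4 hq4 (Ne.symm h43) l34 hl34 a34 b34
    have c1 := external_three h (hout q1 hq1) hl hl13 hl14 h1l a13 a14 hle e13 e14 n1
    have c2 := external_three h (hout q2 hq2) hl hl23 hl24 h2l a23 a24 hle e23 e24 n2
    have c3 := external_three h (hout q3 hq3) hl13 hl23 hl34 b13 b23 a34 e13 e23 e34 n3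
    have m1 : q4 ∈ l ∨ q4 ∈ l13 := by
      rcases c1 with c | c
      · exact Or.inl (c ▸ b14)
      · exact Or.inr (c ▸ b14)
    have m2 : q4 ∈ l ∨ q4 ∈ l23 := by
      rcases c2 with c | c
      · exact Or.inl (c ▸ b24)
      · exact Or.inr (c ▸ b24)
    have m3 : q4 ∈ l13 ∨ q4 ∈ l23 := by
      rcases c3 with c | c
      · exact Or.inl (c ▸ b34)
      · exact Or.inr (c ▸ b34)
    by_cases h4l : q4 ∈ l
    · rcases m3 with m | m
      · exact n1 (line_unique h.st hl hl13 (Ne.symm h41) h1l h4l a13 m)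
      · exact n2 (line_unique h.st hl hl23 (Ne.symm h42) h2l h4l a23 m)
    · have m1' : q4 ∈ l13 := m1.resolve_left h4l
      have m2' : q4 ∈ l23 := m2.resolve_left h4l
      exact n3 (line_unique h.st hl13 hl23 (Ne.symm h43) b13 m1' b23 m2')
  have := Finset.eq_of_subset_of_card_le hsub (by rw [hT, h.st.1 l hl])
  rw [this]
  exact hl

/-- a bijection between hyperovals of two planes of order 4 extends to an isomorphism -/
theorem exists_ext {β : Type*} [Fintype β] [DecidableEq β] {L' : Set (Finset β)}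
    {H' : Finset β} (h : Hyp L H) (h' : Hyp L' H') (φ : ↥H ≃ ↥H') :
    ∃ e : α ≃ β, (∀ x : ↥H, e x = φ x) ∧ ∀ l ∈ L, l.image e ∈ L' := by
  classical
  have hex : ∀ x : α, ∃ q : β, (∀ hx : x ∈ H, q = φ ⟨x, hx⟩) ∧
      (x ∉ H → q ∉ H' ∧ mate L' H' q = fun u' => φ (mate L H x (φ.symm u'))) := by
    intro x
    by_cases hx : x ∈ H
    · exact ⟨φ ⟨x, hx⟩, fun _ => rfl, fun hn => absurd hx hn⟩
    · obtain ⟨q, hq, hm⟩ := exists_point h' (fun u' => φ (mate L H x (φ.symm u')))
        (by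
          intro u'
          simp only [Equiv.symm_apply_apply]
          rw [mate_mate h hx, Equiv.apply_symm_apply])
        (by
          intro u' e
          apply (mate_spec h hx (φ.symm u')).1
          have := congrArg φ.symm e
          rwa [Equiv.symm_apply_apply] at this)
      exact ⟨q, fun hx' => absurd hx' hx, fun _ => ⟨hq, hm⟩⟩
  choose e he1 he2 using hex
  have hinj : Function.Injective e := by
    intro x y hxy
    by_cases hx : x ∈ H
    · by_cases hy : y ∈ H
      · have e' : (φ ⟨x, hx⟩ : β) = φ ⟨y, hy⟩ := by rw [← he1 x hx, ← he1 y hy, hxy]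
        have := φ.injective (Subtype.ext e')
        exact congrArg Subtype.val this
      · exfalso
        apply (he2 y hy).1
        rw [← hxy, he1 x hx]
        exact (φ ⟨x, hx⟩).2
    · by_cases hy : y ∈ H
      · exfalso
        apply (he2 x hx).1
        rw [hxy, he1 y hy]
        exact (φ ⟨y, hy⟩).2
      · have hm : mate L H x = mate L H y := by
          funext u
          have h1 := congrFun (he2 x hx).2 (φ u)
          have h2 := congrFun (he2 y hy).2 (φ u)
          rw [hxy] at h1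
          rw [h1] at h2
          simp only [Equiv.symm_apply_apply] at h2
          exact φ.injective h2
        exact point_of_mate h hx hy hm
  have hline : ∀ l ∈ L, l.image e ∈ L' := by
    intro l hl
    by_cases hlH : (l ∩ H).Nonempty
    · obtain ⟨u, hu⟩ := hlH
      rw [Finset.mem_inter] at hu
      have h2 := hyp_secant h hl hu.2 hu.1
      obtain ⟨v, hv, hvu⟩ := Finset.exists_mem_ne (by omega : 1 < (l ∩ H).card) u
      rw [Finset.mem_inter] at hv
      have hne : (φ ⟨u, hu.2⟩ : β) ≠ φ ⟨v, hv.2⟩ := by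
        intro e'
        have := φ.injective (Subtype.ext e')
        exact hvu (congrArg Subtype.val this).symm
      obtain ⟨l', hl', hul', hvl'⟩ := exists_line h'.st hne
      have hsub : l.image e ⊆ l' := by
        intro y hy
        obtain ⟨x, hxl, rfl⟩ := Finset.mem_image.1 hy
        by_cases hx : x ∈ H
        · rw [he1 x hx]
          by_cases hxu : x = u
          · subst hxu
            exact hul'
          · have : x = v := indep_three h.ind hl hu.2 hx hv.2 hu.1 hxl hv.1 (Ne.symm hxu)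
              (Ne.symm hvu)
            subst this
            exact hvl'
        · have hm : mate L H x ⟨u, hu.2⟩ = ⟨v, hv.2⟩ :=
            mate_eq h hx (fun e' => hvu (congrArg Subtype.val e')) ⟨l, hl, hxl, hu.1, hv.1⟩
          have h3 := congrFun (he2 x hx).2 (φ ⟨u, hu.2⟩)
          simp only [Equiv.symm_apply_apply] at h3
          rw [hm] at h3
          obtain ⟨l'', hl'', h4, h5, h6⟩ := (mate_spec h' (he2 x hx).1 (φ ⟨u, hu.2⟩)).2
          rw [h3] at h6
          have := line_unique h'.st hl'' hl' hne h5 h6 hul' hvl'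
          rw [← this]
          exact h4
      have hc : (l.image e).card = 5 := by
        rw [Finset.card_image_of_injective _ hinj, h.st.1 l hl]
      have := Finset.eq_of_subset_of_card_le hsub (by rw [hc, h'.st.1 l' hl'])
      rw [this]
      exact hl'
    · rw [Finset.not_nonempty_iff_eq_empty] at hlH
      have hout : ∀ x ∈ l, x ∉ H := by
        intro x hxl hx
        have : x ∈ l ∩ H := Finset.mem_inter.2 ⟨hxl, hx⟩
        rw [hlH] at this
        exact Finset.notMem_empty _ this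
      apply whitney h' (by rw [Finset.card_image_of_injective _ hinj, h.st.1 l hl])
      · rw [Finset.disjoint_left]
        intro y hy hyH
        obtain ⟨x, hxl, rfl⟩ := Finset.mem_image.1 hy
        exact (he2 x (hout x hxl)).1 hyH
      · intro y1 hy1 y2 hy2 hne l'' hl'' h1 h2
        obtain ⟨x1, hx1l, rfl⟩ := Finset.mem_image.1 hy1
        obtain ⟨x2, hx2l, rfl⟩ := Finset.mem_image.1 hy2
        have hx1 := hout x1 hx1l
        have hx2 := hout x2 hx2l
        by_contra hne'
        obtain ⟨u', hu'⟩ := Finset.nonempty_iff_ne_empty.2 hne'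
        rw [Finset.mem_inter] at hu'
        have hm1 := mate_spec h' (he2 x1 hx1).1 ⟨u', hu'.2⟩
        obtain ⟨m, hm, hm1', hm2, hm3⟩ := hm1.2
        have hd : e x1 ≠ u' := fun e' => (he2 x1 hx1).1 (e' ▸ hu'.2)
        have em : m = l'' := line_unique h'.st hm hl'' hd hm1' hm2 h1 hu'.1
        rw [em] at hm3
        have hm2' : mate L' H' (e x2) ⟨u', hu'.2⟩ = mate L' H' (e x1) ⟨u', hu'.2⟩ :=
          mate_eq h' (he2 x2 hx2).1 hm1.1 ⟨l'', hl'', h2, hu'.1, hm3⟩
        have h3 := congrFun (he2 x1 hx1).2 ⟨u', hu'.2⟩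
        have h4 := congrFun (he2 x2 hx2).2 ⟨u', hu'.2⟩
        rw [hm2', h3] at h4
        have h5 := φ.injective h4
        obtain ⟨k1, hk1, a1, b1, c1⟩ := (mate_spec h hx1 (φ.symm ⟨u', hu'.2⟩)).2
        obtain ⟨k2, hk2, a2, b2, c2⟩ := (mate_spec h hx2 (φ.symm ⟨u', hu'.2⟩)).2
        rw [← h5] at c2
        have huv : ((φ.symm ⟨u', hu'.2⟩ : ↥H) : α) ≠ (mate L H x1 (φ.symm ⟨u', hu'.2⟩) : α) :=
          fun e' => (mate_spec h hx1 (φ.symm ⟨u', hu'.2⟩)).1 (Subtype.ext e'.symm)
        have ek := line_unique h.st hk1 hk2 huv b1 c1 b2 c2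
        have x1x2 : x1 ≠ x2 := fun e' => hne (by rw [e'])
        rw [← ek] at a2
        have ekl := line_unique h.st hk1 hl x1x2 a1 a2 hx1l hx2l
        rw [ekl] at b1
        exact hout _ b1 (φ.symm ⟨u', hu'.2⟩).2
  refine ⟨Equiv.ofBijective e ((Fintype.bijective_iff_injective_and_card e).2
    ⟨hinj, by rw [h.card, h'.card]⟩), ?_, ?_⟩
  · intro x
    rw [Equiv.ofBijective_apply]
    exact he1 x x.2
  · intro l hl
    have := hline l hl
    exact this

/-- an automorphism fixing a hyperoval pointwise is trivial -/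
theorem eq_of_fix (h : Hyp L H) (g : α → α) (hg : ∀ l ∈ L, l.image g ∈ L)
    (hfix : ∀ x ∈ H, g x = x) (p : α) : g p = p := by
  by_cases hp : p ∈ H
  · exact hfix p hp
  · obtain ⟨u1, u2, hne1, hne2⟩ := exists_two h.six (mate L H p)
    obtain ⟨l1, hl1, a1, b1, c1⟩ := (mate_spec h hp u1).2
    obtain ⟨l2, hl2, a2, b2, c2⟩ := (mate_spec h hp u2).2
    have d1 : (u1 : α) ≠ (mate L H p u1 : α) :=
      fun e => (mate_spec h hp u1).1 (Subtype.ext e.symm)
    have d2 : (u2 : α) ≠ (mate L H p u2 : α) :=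
      fun e => (mate_spec h hp u2).1 (Subtype.ext e.symm)
    have g1 : l1.image g = l1 := by
      apply line_unique h.st (hg l1 hl1) hl1 d1 _ _ b1 c1
      · rw [← hfix _ u1.2]
        exact Finset.mem_image_of_mem g b1
      · rw [← hfix _ (mate L H p u1).2]
        exact Finset.mem_image_of_mem g c1
    have g2 : l2.image g = l2 := by
      apply line_unique h.st (hg l2 hl2) hl2 d2 _ _ b2 c2
      · rw [← hfix _ u2.2]
        exact Finset.mem_image_of_mem g b2
      · rw [← hfix _ (mate L H p u2).2]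
        exact Finset.mem_image_of_mem g c2
    have hl12 : l1 ≠ l2 := by
      intro e
      rw [← e] at b2
      have := indep_three h.ind hl1 u1.2 (mate L H p u1).2 u2.2 b1 c1 b2 d1
        (fun e => hne1 (Subtype.ext e.symm))
      exact hne2 (Subtype.ext this.symm)
    obtain ⟨q, hq⟩ := meet h.card h.st hl1 hl2 hl12
    have m1 : g p ∈ l1 ∩ l2 := by
      rw [Finset.mem_inter]
      constructor
      · rw [← g1]
        exact Finset.mem_image_of_mem g a1
      · rw [← g2]
        exact Finset.mem_image_of_mem g a2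
    have m2 : p ∈ l1 ∩ l2 := Finset.mem_inter.2 ⟨a1, a2⟩
    rw [hq, Finset.mem_singleton] at m1 m2
    rw [m1, m2]

theorem exists_hyp (hα : Fintype.card α = 21) (hL : Cfsg.IsSteinerSystem 2 5 L) :
    ∃ H, Hyp L H := by
  have h := Ind_six hα hL
  obtain ⟨H, hH⟩ := Finset.card_pos.1 (by omega : 0 < (Ind L 6).card)
  rw [mem_Ind] at hH
  exact ⟨H, hα, hL, hH.1, hH.2⟩

end Cfsg.Agent.Helper29.Plane4
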