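import Mathlib
import Cfsg.Prelude.Def_Sporadic_a
import Cfsg.Agent.Helper2.Steiner
import Cfsg.Agent.Helper29.Plane4
import Cfsg.Agent.Helper29.Plane4Hyp

set_option autoImplicit false

/-! Hyperovals of a plane of order 4 meeting a given hyperoval evenly: there are 56. -/

namespace Cfsg.Agent.Helper29.Plane4

open Cfsg.Agent.Helper2.Steiner

variable {α : Type*} [Fintype α] [DecidableEq α] {L : Set (Finset α)} {H : Finset α}

/-- number of hyperovals containing `T` -/
noncomputable def Nhyp (L : Set (Finset α)) (T : Finset α) : ℕ :=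
  ((Ind L 6).filter (fun K => T ⊆ K)).card

theorem Nhyp_step (T : Finset α) :
    Nhyp L T * (6 - T.card) = ∑ x ∈ E L T, Nhyp L (insert x T) := by
  classical
  have key := Finset.sum_card_bipartiteAbove_eq_sum_card_bipartiteBelow
    (s := (Ind L 6).filter (fun K => T ⊆ K)) (t := E L T) (r := fun K x => x ∈ K)
  have h1 : ∀ K ∈ (Ind L 6).filter (fun K => T ⊆ K),
      ((E L T).bipartiteAbove (fun K x => x ∈ K) K).card = 6 - T.card := by
    intro K hK
    rw [Finset.mem_filter, mem_Ind] at hK
    have e : (E L T).bipartiteAbove (fun K x => x ∈ K) K = K \ T := by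
      ext x
      simp only [Finset.bipartiteAbove, Finset.mem_filter, Finset.mem_sdiff, mem_E]
      constructor
      · rintro ⟨⟨hx, _⟩, hxK⟩
        exact ⟨hxK, hx⟩
      · rintro ⟨hxK, hx⟩
        exact ⟨⟨hx, hK.1.2.mono (Finset.insert_subset hxK hK.2)⟩, hxK⟩
    rw [e, Finset.card_sdiff_of_subset hK.2, hK.1.1]
  have h2 : ∀ x ∈ E L T,
      (((Ind L 6).filter (fun K => T ⊆ K)).bipartiteBelow (fun K x => x ∈ K) x).card
        = Nhyp L (insert x T) := by
    intro x _
    rw [Nhyp]
    congr 1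
    ext K
    simp only [Finset.bipartiteBelow, Finset.mem_filter, Finset.insert_subset_iff]
    tauto
  rw [Finset.sum_const_nat h1, Finset.sum_congr rfl h2] at key
  exact key

theorem Nhyp_four (hα : Fintype.card α = 21) (hL : Cfsg.IsSteinerSystem 2 5 L)
    {T : Finset α} (hT : Indep L T) (h4 : T.card = 4) : Nhyp L T = 1 := by
  obtain ⟨K, hK, hu⟩ := hyperoval_unique hα hL hT h4
  rw [Nhyp, Finset.card_eq_one]
  refine ⟨K, ?_⟩
  ext K'
  simp only [Finset.mem_filter, mem_Ind, Finset.mem_singleton]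
  constructor
  · intro h
    exact hu K' h
  · rintro rfl
    exact hK

theorem Nhyp_three (hα : Fintype.card α = 21) (hL : Cfsg.IsSteinerSystem 2 5 L)
    {T : Finset α} (hT : Indep L T) (h3 : T.card = 3) : Nhyp L T = 3 := by
  have h := Nhyp_step (L := L) T
  have h2 : ∀ x ∈ E L T, Nhyp L (insert x T) = 1 := by
    intro x hx
    rw [mem_E] at hx
    exact Nhyp_four hα hL hx.2 (by rw [Finset.card_insert_of_notMem hx.1, h3])
  rw [Finset.sum_const_nat h2, E_card hα hL hT (by omega) (by omega), h3] at h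
  have e : (6 - 3) * (4 - Nat.choose (3 - 1) 2) = 9 := by decide
  omega

theorem Nhyp_two (hα : Fintype.card α = 21) (hL : Cfsg.IsSteinerSystem 2 5 L)
    {T : Finset α} (hT : Indep L T) (h2 : T.card = 2) : Nhyp L T = 12 := by
  have h := Nhyp_step (L := L) T
  have h2' : ∀ x ∈ E L T, Nhyp L (insert x T) = 3 := by
    intro x hx
    rw [mem_E] at hx
    exact Nhyp_three hα hL hx.2 (by rw [Finset.card_insert_of_notMem hx.1, h2])
  rw [Finset.sum_const_nat h2', E_card hα hL hT (by omega) (by omega), h2] at h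
  have e : (6 - 2) * (4 - Nat.choose (2 - 1) 2) = 16 := by decide
  omega

theorem Nhyp_one (hα : Fintype.card α = 21) (hL : Cfsg.IsSteinerSystem 2 5 L)
    {T : Finset α} (hT : Indep L T) (h1 : T.card = 1) : Nhyp L T = 48 := by
  have h := Nhyp_step (L := L) T
  have h2' : ∀ x ∈ E L T, Nhyp L (insert x T) = 12 := by
    intro x hx
    rw [mem_E] at hx
    exact Nhyp_two hα hL hx.2 (by rw [Finset.card_insert_of_notMem hx.1, h1])
  rw [Finset.sum_const_nat h2', E_card hα hL hT (by omega) (by omega), h1] at h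
  have e : (6 - 1) * (4 - Nat.choose (1 - 1) 2) = 20 := by decide
  omega

theorem blocks_coe (s : Finset (Finset α)) : blocks (↑s : Set (Finset α)) = s := by
  ext x
  simp [mem_blocks]

/-- moments of the intersections of the hyperovals with a fixed hyperoval -/
theorem hyp_moment (h : Hyp L H) (i n : ℕ) (hn : ∀ T ∈ H.powersetCard i, Nhyp L T = n) :
    ∑ K ∈ (Ind L 6).erase H, ((H ∩ K).card).choose i + Nat.choose 6 i
      = Nat.choose 6 i * n := by
  have hH : H ∈ Ind L 6 := mem_Ind.2 ⟨h.six, h.ind⟩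
  have h1 := inter_sum (↑(Ind L 6) : Set (Finset α)) H i
  rw [blocks_coe] at h1
  have h2 : ∑ I ∈ H.powersetCard i, ((Ind L 6).filter (fun c => I ⊆ c)).card
      = Nat.choose 6 i * n := by
    have e : ∑ I ∈ H.powersetCard i, ((Ind L 6).filter (fun c => I ⊆ c)).card
        = ∑ I ∈ H.powersetCard i, Nhyp L I := rfl
    rw [e, Finset.sum_const_nat hn, Finset.card_powersetCard, h.six]
  have h3 := Finset.add_sum_erase (Ind L 6) (fun K => ((H ∩ K).card).choose i) hH
  simp only [Finset.inter_self, h.six] at h3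
  rw [h1, h2] at h3
  omega

theorem hyp_inter_le (h : Hyp L H) {K : Finset α} (hK : K ∈ Ind L 6) (hne : K ≠ H) :
    (H ∩ K).card ≤ 3 := by
  by_contra hgt
  push Not at hgt
  obtain ⟨S, hS, hS4⟩ := Finset.exists_subset_card_eq (by omega : 4 ≤ (H ∩ K).card)
  rw [mem_Ind] at hK
  have hSi : Indep L S := h.ind.mono (hS.trans Finset.inter_subset_left)
  obtain ⟨K0, _, hu⟩ := hyperoval_unique h.card h.st hSi hS4
  have e1 := hu H ⟨⟨h.six, h.ind⟩, hS.trans Finset.inter_subset_left⟩
  have e2 := hu K ⟨hK, hS.trans Finset.inter_subset_right⟩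
  exact hne (e2.trans e1.symm)

theorem even_count (h : Hyp L H) :
    ((Ind L 6).filter (fun K => Even (K ∩ H).card)).card = 56 := by
  classical
  have hH : H ∈ Ind L 6 := mem_Ind.2 ⟨h.six, h.ind⟩
  have hsub : ∀ i, ∀ T ∈ H.powersetCard i, Indep L T ∧ T.card = i := by
    intro i T hT
    rw [Finset.mem_powersetCard] at hT
    exact ⟨h.ind.mono hT.1, hT.2⟩
  have m1 := hyp_moment h 1 48
    (fun T hT => Nhyp_one h.card h.st (hsub 1 T hT).1 (hsub 1 T hT).2)
  have m2 := hyp_moment h 2 12
    (fun T hT => Nhyp_two h.card h.st (hsub 2 T hT).1 (hsub 2 T hT).2)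
  have m3 := hyp_moment h 3 3
    (fun T hT => Nhyp_three h.card h.st (hsub 3 T hT).1 (hsub 3 T hT).2)
  have c1 : Nat.choose 6 1 = 6 := by decide
  have c2 : Nat.choose 6 2 = 15 := by decide
  have c3 : Nat.choose 6 3 = 20 := by decide
  rw [c1] at m1
  rw [c2] at m2
  rw [c3] at m3
  have hcard : ((Ind L 6).erase H).card = 167 := by
    rw [Finset.card_erase_of_mem hH, Ind_six h.card h.st]
  have hterm : ∀ K ∈ (Ind L 6).erase H,
      (if Even (K ∩ H).card then 1 else 0) + ((H ∩ K).card).choose 1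
        + 4 * ((H ∩ K).card).choose 3 = 1 + 2 * ((H ∩ K).card).choose 2 := by
    intro K hK
    rw [Finset.mem_erase] at hK
    have hle := hyp_inter_le h hK.2 hK.1
    rw [Finset.inter_comm K H]
    generalize (H ∩ K).card = j at hle
    interval_cases j <;> decide
  have hsum := Finset.sum_congr (rfl : (Ind L 6).erase H = (Ind L 6).erase H) hterm
  simp only [Finset.sum_add_distrib, ← Finset.mul_sum] at hsum
  rw [← Finset.card_filter, Finset.sum_const, smul_eq_mul, mul_one, hcard] at hsum
  have hE : ((Ind L 6).filter (fun K => Even (K ∩ H).card))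
      = insert H (((Ind L 6).erase H).filter (fun K => Even (K ∩ H).card)) := by
    ext K
    simp only [Finset.mem_filter, Finset.mem_insert, Finset.mem_erase]
    constructor
    · rintro ⟨h1, h2⟩
      by_cases e : K = H
      · exact Or.inl e
      · exact Or.inr ⟨⟨e, h1⟩, h2⟩
    · rintro (rfl | ⟨⟨_, h1⟩, h2⟩)
      · refine ⟨hH, ?_⟩
        rw [Finset.inter_self, h.six]
        decide
      · exact ⟨h1, h2⟩
  rw [hE, Finset.card_insert_of_notMem (by simp)]
  omega

end Cfsg.Agent.Helper29.Plane4
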