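import Mathlib
import Cfsg.Prelude.Def_Sporadic_a
import Cfsg.Agent.Helper2.Steiner
import Cfsg.Agent.Helper29.Plane4
import Cfsg.Agent.Helper29.Plane4Hyp
import Cfsg.Agent.Helper29.Plane4Even
import Cfsg.Agent.S0351
import Cfsg.Agent.S0356

set_option autoImplicit false

/-! Uniqueness of S(3,6,22): the derived design at a point is a plane of order 4, the blocks
off the point are the hyperovals meeting a fixed one evenly. -/

namespace Cfsg.Agent.Helper29.S3622U

open Cfsg.Agent.Helper2.Steiner Cfsg.Agent.Helper29.Plane4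

variable {α : Type*} [Fintype α] [DecidableEq α] {B : Set (Finset α)}

/-- restriction of a set to the complement of `p` -/
abbrev sub (p : α) (c : Finset α) : Finset {a : α // a ≠ p} :=
  Finset.subtype (fun a => a ≠ p) c

/-- the derived design at `p` -/
def Lp (B : Set (Finset α)) (p : α) : Set (Finset {a : α // a ≠ p}) :=
  {b' | ∃ b ∈ B, p ∈ b ∧ b' = Finset.subtype (fun a => a ≠ p) b}

theorem card_X (hα : Fintype.card α = 22) (p : α) : Fintype.card {a : α // a ≠ p} = 21 := by
  have := Fintype.card_congr (Equiv.optionSubtypeNe p)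
  rw [Fintype.card_option, hα] at this
  omega

theorem Lp_steiner (hB : Cfsg.IsSteinerSystem 3 6 B) (p : α) :
    Cfsg.IsSteinerSystem 2 5 (Lp B p) :=
  Cfsg.Agent.S0351.result (t := 2) (k := 5) hB p

omit [Fintype α] in
theorem sub_inter (p : α) (c d : Finset α) : sub p c ∩ sub p d = sub p (c ∩ d) := by
  ext x
  simp [sub, Finset.mem_subtype]

omit [Fintype α] in
theorem card_sub (p : α) (c : Finset α) (hp : p ∉ c) : (sub p c).card = c.card := by
  rw [sub, Finset.card_subtype, Finset.filter_ne', Finset.erase_eq_of_notMem hp]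

omit [Fintype α] in
theorem card_sub_le (p : α) (c : Finset α) : (sub p c).card ≤ c.card := by
  rw [sub, Finset.card_subtype]
  exact Finset.card_filter_le _ _

omit [Fintype α] in
theorem sub_inj {p : α} {c d : Finset α} (hc : p ∉ c) (hd : p ∉ d) (h : sub p c = sub p d) :
    c = d := by
  ext x
  by_cases hx : x = p
  · subst hx
    simp [hc, hd]
  · have h1 : (⟨x, hx⟩ : {a : α // a ≠ p}) ∈ sub p c ↔ (⟨x, hx⟩ : {a : α // a ≠ p}) ∈ sub p d := by
      rw [h]
    simpa [sub, Finset.mem_subtype] using h1

theorem hyp_of_block (hα : Fintype.card α = 22) (hB : Cfsg.IsSteinerSystem 3 6 B) {p : α}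
    {b : Finset α} (hb : b ∈ B) (hpb : p ∉ b) : Hyp (Lp B p) (sub p b) := by
  refine ⟨card_X hα p, Lp_steiner hB p, ?_, ?_⟩
  · rw [card_sub p b hpb, hB.1 b hb]
  · rintro l ⟨c, hc, hpc, rfl⟩
    change (sub p c ∩ sub p b).card ≤ 2
    rw [sub_inter]
    have hne : c ≠ b := fun e => hpb (e ▸ hpc)
    have h1 := Cfsg.Agent.S0356.result hα hB hc hb hne
    have h2 := card_sub_le p (c ∩ b)
    omega

theorem even_of_blocks (hα : Fintype.card α = 22) (hB : Cfsg.IsSteinerSystem 3 6 B) {p : α}
    {b c : Finset α} (hb : b ∈ B) (hc : c ∈ B) (hpb : p ∉ b) :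
    Even (sub p c ∩ sub p b).card := by
  rw [sub_inter, card_sub p _ (fun h => hpb (Finset.mem_inter.1 h).2)]
  by_cases e : c = b
  · subst e
    rw [Finset.inter_self, hB.1 c hc]
    decide
  · rcases Cfsg.Agent.S0356.result hα hB hc hb e with h | h <;> rw [h] <;> decide

theorem card_blocks (hα : Fintype.card α = 22) (hB : Cfsg.IsSteinerSystem 3 6 B) :
    (blocks B).card = 77 := by
  have h := lambda_count hB ∅ (by simp)
  simp only [Finset.empty_subset, Finset.filter_true, Finset.card_empty, Nat.sub_zero, hα] at h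
  have e1 : Nat.choose 6 3 = 20 := by decide
  have e2 : Nat.choose 22 3 = 1540 := by decide
  rw [e1, e2] at h
  have : ((blocks B).filter (fun _ => True)).card = (blocks B).card := by simp
  omega

theorem card_blocks_through (hα : Fintype.card α = 22) (hB : Cfsg.IsSteinerSystem 3 6 B)
    (p : α) : ((blocks B).filter (fun c => p ∈ c)).card = 21 := by
  have h := lambda_count hB {p} (by simp)
  simp only [Finset.singleton_subset_iff, Finset.card_singleton, hα] at h
  have e1 : Nat.choose (6 - 1) (3 - 1) = 10 := by decide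
  have e2 : Nat.choose (22 - 1) (3 - 1) = 210 := by decide
  rw [e1, e2] at h
  omega

theorem card_blocks_off (hα : Fintype.card α = 22) (hB : Cfsg.IsSteinerSystem 3 6 B)
    (p : α) : ((blocks B).filter (fun c => p ∉ c)).card = 56 := by
  have h := Finset.card_filter_add_card_filter_not (s := blocks B) (fun c => p ∈ c)
  rw [card_blocks hα hB, card_blocks_through hα hB p] at h
  omega

/-- the blocks off `p` are exactly the hyperovals meeting a fixed one evenly -/
theorem key (hα : Fintype.card α = 22) (hB : Cfsg.IsSteinerSystem 3 6 B) {p : α}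
    {b : Finset α} (hb : b ∈ B) (hpb : p ∉ b) {K : Finset {a : α // a ≠ p}}
    (h6 : K.card = 6) (hK : Indep (Lp B p) K) (hev : Even (K ∩ sub p b).card) :
    ∃ c ∈ B, p ∉ c ∧ K = sub p c := by
  classical
  have h := hyp_of_block hα hB hb hpb
  have hcount := even_count h
  set F := ((blocks B).filter (fun c => p ∉ c)).image (sub p) with hF
  have hFcard : F.card = 56 := by
    rw [hF, Finset.card_image_of_injOn, card_blocks_off hα hB p]
    intro c hc d hd hcd
    simp only [Finset.coe_filter, Set.mem_ofPred_eq] at hc hd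
    exact sub_inj hc.2 hd.2 hcd
  have hsub : F ⊆ (Ind (Lp B p) 6).filter (fun K => Even (K ∩ sub p b).card) := by
    intro K hK
    rw [hF, Finset.mem_image] at hK
    obtain ⟨c, hc, rfl⟩ := hK
    rw [Finset.mem_filter, mem_blocks] at hc
    rw [Finset.mem_filter, mem_Ind]
    have hc' := hyp_of_block hα hB hc.1 hc.2
    exact ⟨⟨hc'.six, hc'.ind⟩, even_of_blocks hα hB hb hc.1 hpb⟩
  have heq := Finset.eq_of_subset_of_card_le hsub (by rw [hcount, hFcard])
  have hKF : K ∈ F := by
    rw [heq, Finset.mem_filter, mem_Ind]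
    exact ⟨⟨h6, hK⟩, hev⟩
  rw [hF, Finset.mem_image] at hKF
  obtain ⟨c, hc, rfl⟩ := hKF
  rw [Finset.mem_filter, mem_blocks] at hc
  exact ⟨c, hc.1, hc.2, rfl⟩

/-- points of the restricted block vs the block -/
def subEquiv {p : α} {b : Finset α} (hpb : p ∉ b) : ↥(sub p b) ≃ ↥b where
  toFun y := ⟨y.1.1, Finset.mem_subtype.1 y.2⟩
  invFun x := ⟨⟨x.1, fun h => hpb (h ▸ x.2)⟩, Finset.mem_subtype.2 x.2⟩
  left_inv _ := rfl
  right_inv _ := rfl

theorem lines_onto {γ δ : Type*} [Fintype γ] [DecidableEq γ] [Fintype δ] [DecidableEq δ]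
    {L : Set (Finset γ)} {L' : Set (Finset δ)} (hγ : Fintype.card γ = 21)
    (hδ : Fintype.card δ = 21) (hL : Cfsg.IsSteinerSystem 2 5 L)
    (hL' : Cfsg.IsSteinerSystem 2 5 L') (e : γ ≃ δ) (he : ∀ l ∈ L, l.image e ∈ L')
    {l' : Finset δ} (hl' : l' ∈ L') : ∃ l ∈ L, l.image e = l' := by
  have h : (fun b => b.image e) '' L = L' := by
    apply Set.eq_of_subset_of_ncard_le
    · rintro _ ⟨l, hl, rfl⟩
      exact he l hl
    · rw [Set.ncard_image_of_injective _ (Finset.image_injective e.injective), ncard_eq,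
        ncard_eq, card_lines hγ hL, card_lines hδ hL']
    · exact Set.toFinite _
  rw [← h] at hl'
  obtain ⟨l, hl, rfl⟩ := hl'
  exact ⟨l, hl, rfl⟩

/-- strong uniqueness of S(3,6,22): a point, a block off it and a labelling of the block
can be mapped to any other such configuration -/
theorem exists_iso {β : Type*} [Fintype β] [DecidableEq β] {B' : Set (Finset β)}
    (hα : Fintype.card α = 22) (hβ : Fintype.card β = 22) (hB : Cfsg.IsSteinerSystem 3 6 B)
    (hB' : Cfsg.IsSteinerSystem 3 6 B') {p : α} {b : Finset α} (hb : b ∈ B) (hpb : p ∉ b)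
    {p' : β} {b' : Finset β} (hb' : b' ∈ B') (hpb' : p' ∉ b') (φ : ↥b ≃ ↥b') :
    ∃ e : α ≃ β, e p = p' ∧ (∀ x : ↥b, e x = φ x) ∧ ∀ c ∈ B, c.image e ∈ B' := by
  classical
  have h := hyp_of_block hα hB hb hpb
  have h' := hyp_of_block hβ hB' hb' hpb'
  obtain ⟨e0, he0, hline⟩ :=
    exists_ext h h' ((subEquiv hpb).trans (φ.trans (subEquiv hpb').symm))
  set e : α ≃ β := (Equiv.optionSubtypeNe p).symm.trans
    ((Equiv.optionCongr e0).trans (Equiv.optionSubtypeNe p')) with he
  have hep : e p = p' := by
    rw [he]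
    simp
  have hex : ∀ (x : α) (hx : x ≠ p), e x = (e0 ⟨x, hx⟩ : β) := by
    intro x hx
    rw [he]
    simp [Equiv.optionSubtypeNe_symm_of_ne hx]
  refine ⟨e, hep, ?_, ?_⟩
  · intro x
    have hx : (x : α) ≠ p := fun e' => hpb (e' ▸ x.2)
    rw [hex _ hx]
    have h1 := he0 ⟨⟨x, hx⟩, Finset.mem_subtype.2 x.2⟩
    rw [h1]
    rfl
  · intro c hc
    have hcard : (c.image e).card = 6 := by
      rw [Finset.card_image_of_injective _ e.injective, hB.1 c hc]
    by_cases hpc : p ∈ c
    · have hl : sub p c ∈ Lp B p := ⟨c, hc, hpc, rfl⟩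
      obtain ⟨c', hc', hpc', heq⟩ := hline _ hl
      have hsub : c.image e ⊆ c' := by
        intro y hy
        obtain ⟨x, hx, rfl⟩ := Finset.mem_image.1 hy
        by_cases hxp : x = p
        · rw [hxp, hep]
          exact hpc'
        · rw [hex x hxp]
          have h2 : e0 ⟨x, hxp⟩ ∈ (sub p c).image e0 :=
            Finset.mem_image_of_mem _ (Finset.mem_subtype.2 hx)
          rw [heq] at h2
          exact Finset.mem_subtype.1 h2
      have h3 := Finset.eq_of_subset_of_card_le hsub (by rw [hcard, hB'.1 c' hc'])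
      rw [h3]
      exact hc'
    · have hc6 := hyp_of_block hα hB hc hpc
      have hH' : (sub p b).image e0 = sub p' b' := by
        apply Finset.eq_of_subset_of_card_le
        · intro y hy
          obtain ⟨x, hx, rfl⟩ := Finset.mem_image.1 hy
          rw [he0 ⟨x, hx⟩]
          exact Subtype.coe_prop _
        · rw [Finset.card_image_of_injective _ e0.injective, h.six, h'.six]
      obtain ⟨c', hc', hpc', heq⟩ := key hβ hB' hb' hpb' (K := (sub p c).image e0)
        (by rw [Finset.card_image_of_injective _ e0.injective, hc6.six])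
        (by
          intro l' hl'
          obtain ⟨l, hl, rfl⟩ := lines_onto (card_X hα p) (card_X hβ p') (Lp_steiner hB p)
            (Lp_steiner hB' p') e0 hline hl'
          rw [← Finset.image_inter _ _ e0.injective,
            Finset.card_image_of_injective _ e0.injective]
          exact hc6.ind l hl)
        (by
          rw [← hH', ← Finset.image_inter _ _ e0.injective,
            Finset.card_image_of_injective _ e0.injective]
          exact even_of_blocks hα hB hb hc hpb)
      have hsub : c.image e ⊆ c' := by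
        intro y hy
        obtain ⟨x, hx, rfl⟩ := Finset.mem_image.1 hy
        have hxp : x ≠ p := fun e' => hpc (e' ▸ hx)
        rw [hex x hxp]
        have h2 : e0 ⟨x, hxp⟩ ∈ (sub p c).image e0 :=
          Finset.mem_image_of_mem _ (Finset.mem_subtype.2 hx)
        rw [heq] at h2
        exact Finset.mem_subtype.1 h2
      have h3 := Finset.eq_of_subset_of_card_le hsub (by rw [hcard, hB'.1 c' hc'])
      rw [h3]
      exact hc'

theorem exists_block_off (hα : Fintype.card α = 22) (hB : Cfsg.IsSteinerSystem 3 6 B)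
    (p : α) : ∃ b ∈ B, p ∉ b := by
  have h := card_blocks_off hα hB p
  obtain ⟨b, hb⟩ := Finset.card_pos.1 (by omega : 0 < ((blocks B).filter (fun c => p ∉ c)).card)
  rw [Finset.mem_filter, mem_blocks] at hb
  exact ⟨b, hb.1, hb.2⟩

end Cfsg.Agent.Helper29.S3622U
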