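import Mathlib
import Cfsg.Prelude.Def_Sporadic_a
import Cfsg.Agent.Helper2.Steiner
import Cfsg.Agent.Helper29.Plane4
import Cfsg.Agent.Helper29.Plane4Hyp
import Cfsg.Agent.Helper29.Plane4Even
import Cfsg.Agent.Helper29.S3622U

set_option autoImplicit false

/-! Automorphisms of S(3,6,22): sharply transitive on (point, block off it, labelling). -/

namespace Cfsg.Agent.Helper29.S3622U

open Cfsg.Agent.Helper2.Steiner Cfsg.Agent.Helper29.Plane4

open scoped Pointwise

variable {α : Type*} [Fintype α] [DecidableEq α] {B : Set (Finset α)}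

omit [Fintype α] in
theorem smul_eq_image (g : Equiv.Perm α) (l : Finset α) : g • l = l.image g := by
  ext x
  rw [Finset.mem_smul_finset, Finset.mem_image]
  rfl

theorem mem_aut {g : Equiv.Perm α} (hg : ∀ c ∈ B, c.image g ∈ B) :
    g ∈ Cfsg.setSystemAut B := by
  rw [MulAction.mem_stabilizer_iff]
  apply Set.eq_of_subset_of_ncard_le
  · rintro _ ⟨l, hl, rfl⟩
    show g • l ∈ B
    rw [smul_eq_image]
    exact hg l hl
  · rw [Set.ncard_smul_set]
  · exact Set.toFinite _

omit [Fintype α] in
theorem aut_image {g : Equiv.Perm α} (hg : g ∈ Cfsg.setSystemAut B) {c : Finset α}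
    (hc : c ∈ B) : c.image g ∈ B := by
  rw [MulAction.mem_stabilizer_iff] at hg
  have : g • c ∈ g • B := Set.smul_mem_smul_set hc
  rw [hg, smul_eq_image] at this
  exact this

/-- an automorphism fixing a point and, pointwise, a block off it is trivial -/
theorem aut_eq_one (hα : Fintype.card α = 22) (hB : Cfsg.IsSteinerSystem 3 6 B) {p : α}
    {b : Finset α} (hb : b ∈ B) (hpb : p ∉ b) {g : Equiv.Perm α}
    (hg : ∀ c ∈ B, c.image g ∈ B) (hp : g p = p) (hfix : ∀ x ∈ b, g x = x) : g = 1 := by
  have h := hyp_of_block hα hB hb hpb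
  have hne : ∀ y : {a : α // a ≠ p}, g y.1 ≠ p :=
    fun y e => y.2 (g.injective (e.trans hp.symm))
  have hlines : ∀ l ∈ Lp B p, l.image (fun y : {a : α // a ≠ p} =>
      (⟨g y.1, hne y⟩ : {a : α // a ≠ p})) ∈ Lp B p := by
    rintro l ⟨c, hc, hpc, rfl⟩
    refine ⟨c.image g, hg c hc, ?_, ?_⟩
    · rw [← hp]
      exact Finset.mem_image_of_mem g hpc
    · ext y
      simp only [Finset.mem_image, Finset.mem_subtype]
      constructor
      · rintro ⟨x, hx, rfl⟩
        exact ⟨x.1, hx, rfl⟩
      · rintro ⟨x, hx, hxy⟩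
        have hxp : x ≠ p := by
          intro e
          apply y.2
          rw [← hxy, e, hp]
        exact ⟨⟨x, hxp⟩, hx, Subtype.ext hxy⟩
  have hfix0 : ∀ y ∈ sub p b, (⟨g y.1, hne y⟩ : {a : α // a ≠ p}) = y := by
    intro y hy
    exact Subtype.ext (hfix y.1 (Finset.mem_subtype.1 hy))
  have hall := eq_of_fix h _ hlines hfix0
  ext x
  by_cases hx : x = p
  · rw [hx, hp]
    rfl
  · have := congrArg Subtype.val (hall ⟨x, hx⟩)
    exact this

/-- 3-transitivity -/
theorem three_trans (hα : Fintype.card α = 22) (hB : Cfsg.IsSteinerSystem 3 6 B)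
    (x y : Fin 3 ↪ α) : ∃ g : Equiv.Perm α, g ∈ Cfsg.setSystemAut B ∧ ∀ i, g (x i) = y i := by
  classical
  obtain ⟨bx, ⟨hbx, hxs⟩, _⟩ := hB.2 (Finset.univ.map x) (by simp)
  obtain ⟨by', ⟨hby, hys⟩, _⟩ := hB.2 (Finset.univ.map y) (by simp)
  have hxm : ∀ i, x i ∈ bx := fun i => hxs (by simp)
  have hym : ∀ i, y i ∈ by' := fun i => hys (by simp)
  have hex : ∀ b ∈ B, ∃ p, p ∉ b := by
    intro b hb
    by_contra hcon
    push Not at hcon
    have : b = Finset.univ := Finset.eq_univ_iff_forall.2 hcon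
    have h6 := hB.1 b hb
    rw [this, Finset.card_univ, hα] at h6
    omega
  obtain ⟨p, hp⟩ := hex bx hbx
  obtain ⟨p', hp'⟩ := hex by' hby
  set φ1 : ↥bx ≃ ↥by' := Finset.equivOfCardEq ((hB.1 bx hbx).trans (hB.1 by' hby).symm)
  have hinj1 : Function.Injective (fun i : Fin 3 => φ1 ⟨x i, hxm i⟩) := by
    intro i j hij
    have := φ1.injective hij
    exact x.injective (congrArg Subtype.val this)
  have hinj2 : Function.Injective (fun i : Fin 3 => (⟨y i, hym i⟩ : ↥by')) := by
    intro i j hij
    exact y.injective (congrArg Subtype.val hij)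
  obtain ⟨σ, hσ⟩ := Equiv.Perm.exists_smul_eq_embedding
    (⟨_, hinj1⟩ : Fin 3 ↪ ↥by') ⟨_, hinj2⟩
  obtain ⟨e, _, he, hblocks⟩ := exists_iso hα hα hB hB hbx hp hby hp' (φ1.trans σ)
  refine ⟨e, mem_aut hblocks, fun i => ?_⟩
  have h1 := he ⟨x i, hxm i⟩
  have h2 := congrArg (fun f : Fin 3 ↪ ↥by' => (f i : α)) hσ
  simp only [Function.Embedding.smul_apply, Function.Embedding.coeFn_mk,
    Equiv.Perm.smul_def] at h2
  rw [h1, Equiv.trans_apply, h2]

omit [Fintype α] in
theorem card_emb_fiber [Fintype α] (b : Finset α) (h6 : b.card = 6) :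
    ((Finset.univ : Finset (Fin 6 ↪ α)).filter (fun f => Finset.univ.map f = b)).card
      = 720 := by
  classical
  have e : (Finset.univ : Finset (Fin 6 ↪ α)).filter (fun f => Finset.univ.map f = b)
      = (Finset.univ : Finset (Fin 6 ↪ ↥b)).image
          (fun f' => f'.trans (Function.Embedding.subtype _)) := by
    ext f
    simp only [Finset.mem_filter, Finset.mem_univ, true_and, Finset.mem_image]
    constructor
    · intro hf
      have hm : ∀ i, f i ∈ b := fun i => by
        rw [← hf]
        exact Finset.mem_map_of_mem f (Finset.mem_univ i)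
      refine ⟨⟨fun i => ⟨f i, hm i⟩, fun i j hij => f.injective (congrArg Subtype.val hij)⟩, ?_⟩
      ext i
      rfl
    · rintro ⟨f', rfl⟩
      apply Finset.eq_of_subset_of_card_le
      · intro x hx
        obtain ⟨i, _, rfl⟩ := Finset.mem_map.1 hx
        exact (f' i).2
      · rw [Finset.card_map, Finset.card_univ, Fintype.card_fin, h6]
  rw [e, Finset.card_image_of_injective, Finset.card_univ, Fintype.card_embedding_eq,
    Fintype.card_coe, h6, Fintype.card_fin]
  · rfl
  · intro f1 f2 h
    ext i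
    have := congrArg (fun f : Fin 6 ↪ α => f i) h
    exact this

/-- the labelling of the image of an embedding -/
noncomputable def embEquiv (f : Fin 6 ↪ α) : Fin 6 ≃ ↥(Finset.univ.map f) :=
  Equiv.ofBijective (fun i => ⟨f i, Finset.mem_map_of_mem f (Finset.mem_univ i)⟩)
    ⟨fun i j h => f.injective (congrArg Subtype.val h), fun ⟨x, hx⟩ => by
      obtain ⟨i, _, rfl⟩ := Finset.mem_map.1 hx
      exact ⟨i, rfl⟩⟩

theorem card_aut (hα : Fintype.card α = 22) (hB : Cfsg.IsSteinerSystem 3 6 B) :
    Nat.card ↥(Cfsg.setSystemAut B) = 887040 := by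
  classical
  obtain ⟨p0⟩ : Nonempty α := Fintype.card_pos_iff.1 (by omega)
  obtain ⟨b0, hb0, hp0⟩ := exists_block_off hα hB p0
  obtain ⟨f0, hf0⟩ : ∃ f0 : Fin 6 ↪ α, Finset.univ.map f0 = b0 := by
    refine ⟨(Finset.equivFinOfCardEq (hB.1 b0 hb0)).symm.toEmbedding.trans
      (Function.Embedding.subtype _), ?_⟩
    rw [← Finset.map_map, Finset.map_univ_equiv, Finset.univ_eq_attach, Finset.attach_map_val]
  subst hf0
  letI : Fintype ↥(Cfsg.setSystemAut B) := Fintype.ofFinite _
  rw [Nat.card_eq_fintype_card, ← Finset.card_univ]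
  set YF : Finset (Sigma (fun _ : Fin 6 ↪ α => α)) :=
    ((Finset.univ : Finset (Fin 6 ↪ α)).filter (fun f => Finset.univ.map f ∈ B)).sigma
      (fun f => Finset.univ.filter (fun p => p ∉ Finset.univ.map f)) with hYF
  have hYcard : YF.card = 887040 := by
    rw [hYF, Finset.card_sigma]
    have h16 : ∀ f ∈ (Finset.univ : Finset (Fin 6 ↪ α)).filter
        (fun f => Finset.univ.map f ∈ B),
        (Finset.univ.filter (fun p => p ∉ Finset.univ.map f)).card = 16 := by
      intro f _
      rw [Finset.filter_not, Finset.card_sdiff_of_subset (Finset.filter_subset _ _),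
        Finset.filter_mem_eq_inter, Finset.univ_inter, Finset.card_univ, hα, Finset.card_map,
        Finset.card_univ, Fintype.card_fin]
    rw [Finset.sum_const_nat h16]
    have hcount : ((Finset.univ : Finset (Fin 6 ↪ α)).filter
        (fun f => Finset.univ.map f ∈ B)).card = 77 * 720 := by
      rw [Finset.card_eq_sum_card_fiberwise (f := fun f => Finset.univ.map f) (t := blocks B)
        (by
          intro f hf
          rw [Finset.mem_coe, Finset.mem_filter] at hf
          exact mem_blocks.2 hf.2)]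
      rw [Finset.sum_const_nat (m := 720), card_blocks hα hB]
      intro b hb
      rw [Finset.filter_filter]
      have e2 : (Finset.univ.filter fun f : Fin 6 ↪ α =>
          Finset.univ.map f ∈ B ∧ Finset.univ.map f = b)
          = Finset.univ.filter (fun f => Finset.univ.map f = b) := by
        ext f
        simp only [Finset.mem_filter, Finset.mem_univ, true_and]
        constructor
        · exact fun h => h.2
        · intro h
          exact ⟨h ▸ mem_blocks.1 hb, h⟩
      rw [e2, card_emb_fiber b (hB.1 b (mem_blocks.1 hb))]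
    rw [hcount]
  rw [← hYcard]
  refine Finset.card_bij (s := Finset.univ) (t := YF)
    (fun (g : ↥(Cfsg.setSystemAut B)) _ => (⟨f0.trans (g : Equiv.Perm α).toEmbedding,
    (g : Equiv.Perm α) p0⟩ : Sigma (fun _ : Fin 6 ↪ α => α))) ?_ ?_ ?_
  · intro g _
    rw [hYF, Finset.mem_sigma, Finset.mem_filter, Finset.mem_filter]
    have himg : Finset.univ.map (f0.trans (g : Equiv.Perm α).toEmbedding)
        = (Finset.univ.map f0).image (g : Equiv.Perm α) := by
      rw [← Finset.map_map, Finset.map_eq_image]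
      rfl
    refine ⟨⟨Finset.mem_univ _, ?_⟩, Finset.mem_univ _, ?_⟩
    · rw [himg]
      exact aut_image g.2 hb0
    · rw [himg]
      intro hmem
      obtain ⟨x, hx, hxe⟩ := Finset.mem_image.1 hmem
      exact hp0 ((g : Equiv.Perm α).injective hxe ▸ hx)
  · intro g _ g' _ hgg'
    have h1 : (g : Equiv.Perm α) p0 = (g' : Equiv.Perm α) p0 := by
      have := congrArg (fun s : Sigma (fun _ : Fin 6 ↪ α => α) => s.2) hgg'
      exact this
    have h2 : ∀ i, (g : Equiv.Perm α) (f0 i) = (g' : Equiv.Perm α) (f0 i) := by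
      intro i
      have := congrArg (fun s : Sigma (fun _ : Fin 6 ↪ α => α) => s.1 i) hgg'
      exact this
    have hk : ((g' : Equiv.Perm α)⁻¹ * (g : Equiv.Perm α)) = 1 := by
      apply aut_eq_one hα hB hb0 hp0
      · intro c hc
        exact aut_image (Subgroup.mul_mem _ (Subgroup.inv_mem _ g'.2) g.2) hc
      · rw [Equiv.Perm.mul_apply, h1]
        exact (g' : Equiv.Perm α).symm_apply_apply p0
      · intro x hx
        obtain ⟨i, _, rfl⟩ := Finset.mem_map.1 hx
        rw [Equiv.Perm.mul_apply, h2]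
        exact (g' : Equiv.Perm α).symm_apply_apply _
    apply Subtype.ext
    have := inv_mul_eq_one.1 hk
    exact this.symm
  · rintro ⟨f, p⟩ hy
    rw [hYF, Finset.mem_sigma, Finset.mem_filter, Finset.mem_filter] at hy
    obtain ⟨⟨_, hfB⟩, _, hp⟩ := hy
    obtain ⟨e, hep, he, hblocks⟩ := exists_iso hα hα hB hB hb0 hp0 hfB hp
      ((embEquiv f0).symm.trans (embEquiv f))
    refine ⟨⟨e, mem_aut hblocks⟩, Finset.mem_univ _, ?_⟩
    have hf : f0.trans e.toEmbedding = f := by
      ext i
      have h3 := he ⟨f0 i, Finset.mem_map_of_mem f0 (Finset.mem_univ i)⟩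
      have h4 : (embEquiv f0).symm ⟨f0 i, Finset.mem_map_of_mem f0 (Finset.mem_univ i)⟩ = i :=
        (embEquiv f0).symm_apply_apply i
      rw [Equiv.trans_apply, h4] at h3
      exact h3
    show (⟨f0.trans e.toEmbedding, e p0⟩ : Sigma (fun _ : Fin 6 ↪ α => α)) = ⟨f, p⟩
    rw [hf, hep]

end Cfsg.Agent.Helper29.S3622U
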