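import Mathlib
import Cfsg.Prelude.Def_Sporadic_a
import Cfsg.Agent.Helper29.S3622A

set_option autoImplicit false

/-! Transport of automorphism groups of set systems along isomorphisms. -/

namespace Cfsg.Agent.Helper29.AutT

open Cfsg.Agent.Helper29.S3622U

open scoped Pointwise

variable {α β : Type*} [Fintype α] [DecidableEq α] [Fintype β] [DecidableEq β]

omit [Fintype α] in
theorem conj_mem {B : Set (Finset α)} {B' : Set (Finset β)} (e : α ≃ β)
    (he : (fun b => b.image e) '' B = B') {σ : Equiv.Perm α} (hσ : σ ∈ Cfsg.setSystemAut B) :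
    e.permCongr σ ∈ Cfsg.setSystemAut B' := by
  apply mem_aut
  intro c hc
  rw [← he] at hc ⊢
  obtain ⟨b, hb, rfl⟩ := hc
  refine ⟨b.image σ, aut_image hσ hb, ?_⟩
  show (b.image σ).image e = (b.image e).image (e.permCongr σ)
  rw [Finset.image_image, Finset.image_image]
  congr 1
  funext x
  simp [Equiv.permCongr_apply]

omit [Fintype α] [Fintype β] in
theorem iso_symm {B : Set (Finset α)} {B' : Set (Finset β)} (e : α ≃ β)
    (he : (fun b => b.image e) '' B = B') : (fun b => b.image e.symm) '' B' = B := by
  rw [← he, Set.image_image]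
  have : (fun b : Finset α => (b.image e).image e.symm) = id := by
    funext b
    rw [Finset.image_image]
    simp
  rw [this, Set.image_id]

/-- the isomorphism of automorphism groups -/
noncomputable def autEquiv {B : Set (Finset α)} {B' : Set (Finset β)} (e : α ≃ β)
    (he : (fun b => b.image e) '' B = B') : Cfsg.setSystemAut B ≃* Cfsg.setSystemAut B' where
  toFun σ := ⟨e.permCongr σ.1, conj_mem e he σ.2⟩
  invFun τ := ⟨e.symm.permCongr τ.1, conj_mem e.symm (iso_symm e he) τ.2⟩
  left_inv σ := by
    apply Subtype.ext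
    apply Equiv.ext
    intro x
    simp [Equiv.permCongr_apply]
  right_inv τ := by
    apply Subtype.ext
    apply Equiv.ext
    intro x
    simp [Equiv.permCongr_apply]
  map_mul' σ τ := by
    apply Subtype.ext
    apply Equiv.ext
    intro x
    simp [Equiv.permCongr_apply]

omit [Fintype β] in
theorem trans_of_iso {B : Set (Finset α)} {B' : Set (Finset β)} (e : α ≃ β)
    (he : (fun b => b.image e) '' B = B') (n : ℕ)
    (h : ∀ x y : Fin n ↪ β, ∃ g ∈ Cfsg.setSystemAut B', ∀ i, g (x i) = y i) :
    MulAction.IsMultiplyPretransitive (Cfsg.setSystemAut B) α n := by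
  rw [MulAction.isMultiplyPretransitive_iff]
  intro x y
  obtain ⟨g, hg, hxy⟩ := h (x.trans e.toEmbedding) (y.trans e.toEmbedding)
  refine ⟨⟨e.symm.permCongr g, conj_mem e.symm (iso_symm e he) hg⟩, ?_⟩
  ext i
  show e.symm.permCongr g (x i) = y i
  have := hxy i
  simp only [Function.Embedding.trans_apply, Equiv.coe_toEmbedding] at this
  simp [Equiv.permCongr_apply, this]

end Cfsg.Agent.Helper29.AutT
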