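import Mathlib
import Cfsg.Agent.Helper15.CD

set_option autoImplicit false
open scoped Pointwise

namespace Cfsg.Agent.Helper29.CLNorm

open Cfsg.Agent.Helper15

section Basic

variable {G : Type*} [Group G] [Finite G]

/-- Product formula when `B` normalizes `A`. -/
theorem card_sup_mul_card_inf (A B : Subgroup G) (h : B ≤ Subgroup.normalizer (A : Set G)) :
    Nat.card ↥(A ⊔ B) * Nat.card ↥(A ⊓ B) = Nat.card A * Nat.card B := by
  have h1 : A.relIndex B = A.relIndex (B ⊔ A) := by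
    letI := Subgroup.normal_subgroupOf_of_le_normalizer h
    letI := Subgroup.normal_subgroupOf_sup_of_le_normalizer h
    exact Nat.card_congr (QuotientGroup.quotientInfEquivProdNormalizerQuotient B A h).toEquiv
  have h2 : Nat.card ↥(A ⊓ B) * A.relIndex B = Nat.card B := by
    have := Subgroup.relIndex_mul_relIndex (H := (⊥ : Subgroup G)) (K := A ⊓ B) (L := B) bot_le inf_le_right
    rw [Subgroup.inf_relIndex_right] at this
    simpa [Subgroup.relIndex_bot_left] using this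
  have h3 : Nat.card A * A.relIndex (B ⊔ A) = Nat.card ↥(B ⊔ A) := by
    have := Subgroup.relIndex_mul_relIndex (H := (⊥ : Subgroup G)) (K := A) (L := B ⊔ A) bot_le le_sup_right
    simpa [Subgroup.relIndex_bot_left] using this
  rw [sup_comm, ← h3, ← h2, h1]; ring

theorem mcl_of_card {Q Q1 : Subgroup G} (hQ : Cfsg.IsMinimalCentrallyLarge Q)
    (h1 : Cfsg.IsCentrallyLarge Q1) (hc : Nat.card Q1 = Nat.card Q) :
    Cfsg.IsMinimalCentrallyLarge Q1 := by
  refine ⟨h1, ?_⟩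
  intro R hR hRcl
  obtain ⟨R', hR', hR'm⟩ := exists_isMinimalCentrallyLarge_le hRcl
  have h3 := (mcl_card hR'm hQ).1
  have h2 : R' = Q1 := Subgroup.eq_of_le_of_card_ge (le_trans hR' hR) (by rw [h3, hc])
  exact le_antisymm hR (h2 ▸ hR')

theorem mcl_centralizer_of {Q X : Subgroup G} (hQ : Cfsg.IsMinimalCentrallyLarge Q)
    (hX : Cfsg.IsCentralizerLarge X) (hXab : X ≤ Subgroup.centralizer (X : Set G))
    (hc : Nat.card X = Nat.card ↥(Subgroup.centralizer (Q : Set G))) :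
    Cfsg.IsMinimalCentrallyLarge (Subgroup.centralizer (X : Set G)) ∧
      Subgroup.centralizer ((Subgroup.centralizer (X : Set G) : Subgroup G) : Set G) = X := by
  obtain ⟨c1, c2⟩ := cd_centralizer hX
  have hCL : Cfsg.IsCentrallyLarge (Subgroup.centralizer (X : Set G)) :=
    isCentrallyLarge_iff.mpr ⟨c1, by rw [← c2]; exact hXab⟩
  refine ⟨mcl_of_card hQ hCL ?_, c2.symm⟩
  have q1 := (isCentrallyLarge_iff.mp hQ.1).1
  unfold Cfsg.IsCentralizerLarge at hX q1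
  have hpos : 0 < Nat.card X := Nat.card_pos
  apply Nat.eq_of_mul_eq_mul_left hpos
  rw [hX, hc, mul_comm, q1]

theorem mcl_map_conj {Q : Subgroup G} (hQ : Cfsg.IsMinimalCentrallyLarge Q) (g : G) :
    Cfsg.IsMinimalCentrallyLarge (Q.map (MulAut.conj g).toMonoidHom) ∧
    Subgroup.centralizer ((Q.map (MulAut.conj g).toMonoidHom : Subgroup G) : Set G) =
      (Subgroup.centralizer (Q : Set G)).map (MulAut.conj g).toMonoidHom := by
  have hinj : Function.Injective (MulAut.conj g).toMonoidHom := (MulAut.conj g).injective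
  obtain ⟨q1, q2⟩ := isCentrallyLarge_iff.mp hQ.1
  have hL := isCentralizerLarge_map_conj q1 g
  have h1 : Nat.card ↥(Q.map (MulAut.conj g).toMonoidHom) = Nat.card ↥Q :=
    Subgroup.card_map_of_injective hinj
  have h2 : (Subgroup.centralizer (Q : Set G)).map (MulAut.conj g).toMonoidHom ≤
      Subgroup.centralizer ((Q.map (MulAut.conj g).toMonoidHom : Subgroup G) : Set G) := by
    have := Subgroup.map_centralizer_le_centralizer_image (Q : Set G) (MulAut.conj g).toMonoidHom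
    rw [Subgroup.coe_map]
    exact this
  have h3 : Nat.card ↥((Subgroup.centralizer (Q : Set G)).map (MulAut.conj g).toMonoidHom) =
      Nat.card ↥(Subgroup.centralizer (Q : Set G)) := Subgroup.card_map_of_injective hinj
  have h4 : Nat.card ↥(Subgroup.centralizer ((Q.map (MulAut.conj g).toMonoidHom : Subgroup G) : Set G)) =
      Nat.card ↥(Subgroup.centralizer (Q : Set G)) := by
    unfold Cfsg.IsCentralizerLarge at hL q1
    have hpos : 0 < Nat.card ↥Q := Nat.card_pos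
    apply Nat.eq_of_mul_eq_mul_left hpos
    rw [q1, ← h1, hL]
  have h5 : (Subgroup.centralizer (Q : Set G)).map (MulAut.conj g).toMonoidHom =
      Subgroup.centralizer ((Q.map (MulAut.conj g).toMonoidHom : Subgroup G) : Set G) :=
    Subgroup.eq_of_le_of_card_ge h2 (by rw [h3, h4])
  have hCL : Cfsg.IsCentrallyLarge (Q.map (MulAut.conj g).toMonoidHom) :=
    isCentrallyLarge_iff.mpr ⟨hL, by rw [← h5]; exact Subgroup.map_mono q2⟩
  exact ⟨mcl_of_card hQ hCL h1, h5.symm⟩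

end Basic

section Choice

open scoped commutatorElement

variable {G : Type*} [Group G] [Group.IsNilpotent G]

theorem exists_conj (Y F : Subgroup G) (hYab : ∀ x ∈ Y, ∀ y ∈ Y, x * y = y * x)
    (hprod : ((Y ⊔ F : Subgroup G) : Set G) = (Y : Set G) * (F : Set G))
    (hF : ¬ F ≤ Subgroup.normalizer (Y : Set G)) :
    ∃ a ∈ F, a ∉ Subgroup.normalizer (Y : Set G) ∧
      (∀ y ∈ Y, a * y * a⁻¹ ∈ Subgroup.normalizer (Y : Set G)) ∧
      (∀ y ∈ Y, a⁻¹ * y * a ∈ Subgroup.normalizer (Y : Set G)) := by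
  classical
  have hex : ∃ i, ¬ ((Y ⊔ F) ⊓ Subgroup.upperCentralSeries G i ≤ Subgroup.normalizer (Y : Set G)) := by
    refine ⟨Group.nilpotencyClass G, ?_⟩
    rw [Subgroup.upperCentralSeries_nilpotencyClass, inf_top_eq]
    intro h
    exact hF (le_trans le_sup_right h)
  have hi := Nat.find_spec hex
  have hmin := fun j (hj : j < Nat.find hex) => Nat.find_min hex hj
  obtain ⟨j, hj⟩ : ∃ j, Nat.find hex = j + 1 := by
    refine Nat.exists_eq_succ_of_ne_zero ?_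
    intro h0
    rw [h0, Subgroup.upperCentralSeries_zero, inf_bot_eq] at hi
    exact hi bot_le
  rw [hj] at hi
  have hlow : (Y ⊔ F) ⊓ Subgroup.upperCentralSeries G j ≤ Subgroup.normalizer (Y : Set G) := by
    have := hmin j (by omega)
    exact not_not.mp this
  obtain ⟨g, hg, hgN⟩ := SetLike.not_le_iff_exists.mp hi
  obtain ⟨hg0, hgZ⟩ := Subgroup.mem_inf.mp hg
  have hginvZ : g⁻¹ ∈ Subgroup.upperCentralSeries G (j + 1) := inv_mem hgZ
  have hYle : Y ≤ Subgroup.normalizer (Y : Set G) := Subgroup.le_normalizer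
  have hY0 : Y ≤ Y ⊔ F := le_sup_left
  have key1 : ∀ y ∈ Y, g * y * g⁻¹ ∈ Subgroup.normalizer (Y : Set G) := by
    intro y hy
    have h1 : ⁅g, y⁆ ∈ Subgroup.normalizer (Y : Set G) := by
      apply hlow
      refine Subgroup.mem_inf.mpr ⟨?_, (Subgroup.mem_upperCentralSeries_succ_iff.mp hgZ) y⟩
      rw [commutatorElement_def]
      exact (Y ⊔ F).mul_mem ((Y ⊔ F).mul_mem ((Y ⊔ F).mul_mem hg0 (hY0 hy)) ((Y ⊔ F).inv_mem hg0))
        ((Y ⊔ F).inv_mem (hY0 hy))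
    have e : g * y * g⁻¹ = ⁅g, y⁆ * y := by rw [commutatorElement_def]; group
    rw [e]; exact mul_mem h1 (hYle hy)
  have key2 : ∀ y ∈ Y, g⁻¹ * y * g ∈ Subgroup.normalizer (Y : Set G) := by
    intro y hy
    have h1 : ⁅g⁻¹, y⁆ ∈ Subgroup.normalizer (Y : Set G) := by
      apply hlow
      refine Subgroup.mem_inf.mpr ⟨?_, (Subgroup.mem_upperCentralSeries_succ_iff.mp hginvZ) y⟩
      rw [commutatorElement_def]
      exact (Y ⊔ F).mul_mem ((Y ⊔ F).mul_mem ((Y ⊔ F).mul_mem ((Y ⊔ F).inv_mem hg0) (hY0 hy))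
        ((Y ⊔ F).inv_mem ((Y ⊔ F).inv_mem hg0))) ((Y ⊔ F).inv_mem (hY0 hy))
    have e : g⁻¹ * y * g = ⁅g⁻¹, y⁆ * y := by rw [commutatorElement_def]; group
    rw [e]; exact mul_mem h1 (hYle hy)
  have hg' : g ∈ ((Y ⊔ F : Subgroup G) : Set G) := hg0
  rw [hprod] at hg'
  obtain ⟨y0, hy0, f, hf, rfl⟩ := Set.mem_mul.mp hg'
  refine ⟨f, hf, ?_, ?_, ?_⟩
  · intro hfN; exact hgN (mul_mem (hYle hy0) hfN)
  · intro y hy
    have h2 := key1 y hy
    have e : f * y * f⁻¹ = y0⁻¹ * (y0 * f * y * (y0 * f)⁻¹) * y0 := by group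
    rw [e]; exact mul_mem (mul_mem (inv_mem (hYle hy0)) h2) (hYle hy0)
  · intro y hy
    have h2 := key2 y hy
    have hc : y0 * y = y * y0 := hYab y0 hy0 y hy
    have e : f⁻¹ * y * f = (y0 * f)⁻¹ * y * (y0 * f) := by
      calc f⁻¹ * y * f = (y0 * f)⁻¹ * (y0 * y) * f := by group
        _ = (y0 * f)⁻¹ * (y * y0) * f := by rw [hc]
        _ = (y0 * f)⁻¹ * y * (y0 * f) := by group
    rw [e]; exact h2

end Choice

section Core

variable {G : Type*} [Group G]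

/-- `a Y a⁻¹`. -/
def cj (Y : Subgroup G) (a : G) : Subgroup G := Y.map (MulAut.conj a).toMonoidHom

theorem mem_cj {Y : Subgroup G} {a x : G} : x ∈ cj Y a ↔ ∃ y ∈ Y, a * y * a⁻¹ = x := by
  unfold cj
  simp [Subgroup.mem_map, MulAut.conj_apply]

/-- The replacement subgroup. -/
def rep (Y : Subgroup G) (a : G) : Subgroup G :=
  Subgroup.closure ({c | ∃ y ∈ Y, c = y⁻¹ * (a * y * a⁻¹)} ∪ ((Y ⊓ cj Y a : Subgroup G) : Set G))

/-- commutator-like element -/
def kk (p f : G) : G := p * f * p⁻¹ * f⁻¹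

theorem closure_comm {S : Set G} (h : ∀ s ∈ S, ∀ t ∈ S, s * t = t * s) :
    ∀ x ∈ Subgroup.closure S, ∀ y ∈ Subgroup.closure S, x * y = y * x := by
  have h1 : ∀ s ∈ S, ∀ x ∈ Subgroup.closure S, x * s = s * x := by
    intro s hs x hx
    have : Subgroup.closure S ≤ Subgroup.centralizer {s} := by
      rw [Subgroup.closure_le]
      intro t ht
      exact Subgroup.mem_centralizer_singleton_iff.mpr (h t ht s hs)
    exact Subgroup.mem_centralizer_singleton_iff.mp (this hx)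
  intro x hx y hy
  have : Subgroup.closure S ≤ Subgroup.centralizer {x} := by
    rw [Subgroup.closure_le]
    intro t ht
    exact Subgroup.mem_centralizer_singleton_iff.mpr (h1 t ht x hx).symm
  exact (Subgroup.mem_centralizer_singleton_iff.mp (this hy)).symm

theorem g_one {w h w' h' z z' : G} (e1 : w' * h = z * (h * w')) (e2 : w * h' = z' * (h' * w))
    (hw : w * w' = w' * w) (hh : h * h' = h' * h) (c1 : z * w = w * z) (c2 : z' * w' = w' * z') :
    z * (w * h * (w' * h')) = z' * (w' * h' * (w * h)) := by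
  calc z * (w * h * (w' * h')) = (z * w) * (h * w') * h' := by group
    _ = (w * z) * (h * w') * h' := by rw [c1]
    _ = w * (z * (h * w')) * h' := by group
    _ = w * (w' * h) * h' := by rw [← e1]
    _ = (w * w') * (h * h') := by group
    _ = (w' * w) * (h' * h) := by rw [hw, hh]
    _ = w' * (w * h') * h := by group
    _ = w' * (z' * (h' * w)) * h := by rw [e2]
    _ = (w' * z') * (h' * w) * h := by group
    _ = (z' * w') * (h' * w) * h := by rw [c2]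
    _ = z' * (w' * h' * (w * h)) := by group

variable (Y F : Subgroup G) (a : G)
  (hYab : ∀ x ∈ Y, ∀ y ∈ Y, x * y = y * x)
  (n1 : ∀ y ∈ Y, a * y * a⁻¹ ∈ Subgroup.normalizer (Y : Set G))
  (n2 : ∀ y ∈ Y, a⁻¹ * y * a ∈ Subgroup.normalizer (Y : Set G))

include hYab in
theorem cj_comm : ∀ u ∈ cj Y a, ∀ v ∈ cj Y a, u * v = v * u := by
  intro u hu v hv
  obtain ⟨y, hy, rfl⟩ := mem_cj.mp hu
  obtain ⟨y', hy', rfl⟩ := mem_cj.mp hv
  have := hYab y hy y' hy'
  calc a * y * a⁻¹ * (a * y' * a⁻¹) = a * (y * y') * a⁻¹ := by group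
    _ = a * (y' * y) * a⁻¹ := by rw [this]
    _ = a * y' * a⁻¹ * (a * y * a⁻¹) := by group

include n1 in
theorem cj_le_normalizer : cj Y a ≤ Subgroup.normalizer (Y : Set G) := by
  intro u hu
  obtain ⟨y, hy, rfl⟩ := mem_cj.mp hu
  exact n1 y hy

include n2 in
theorem le_normalizer_cj : Y ≤ Subgroup.normalizer ((cj Y a : Subgroup G) : Set G) := by
  intro y hy
  have h1 : y ∈ (Subgroup.normalizer (Y : Set G)).map (MulAut.conj a).toMonoidHom :=
    ⟨a⁻¹ * y * a, n2 y hy, by simp [MulAut.conj_apply]; group⟩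
  rw [Subgroup.map_equiv_normalizer_eq] at h1
  exact h1

include hYab in
theorem central : ∀ n ∈ Y ⊓ cj Y a, ∀ h ∈ Y ⊔ cj Y a, n * h = h * n := by
  intro n hn h hh
  have : Y ⊔ cj Y a ≤ Subgroup.centralizer {n} := by
    apply sup_le
    · intro y hy
      exact Subgroup.mem_centralizer_singleton_iff.mpr (hYab y hy n hn.1)
    · intro u hu
      exact Subgroup.mem_centralizer_singleton_iff.mpr (cj_comm Y a hYab u hu n hn.2)
  exact (Subgroup.mem_centralizer_singleton_iff.mp (this hh)).symm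

include hYab n1 n2 in
theorem kk_mem {p f : G} (hp : p ∈ Y) (hf : f ∈ Y ⊔ cj Y a) : kk p f ∈ Y ⊓ cj Y a := by
  have hset := Subgroup.coe_mul_of_left_le_normalizer_right (cj Y a) Y (cj_le_normalizer Y a n1)
  have hf' : f ∈ ((cj Y a ⊔ Y : Subgroup G) : Set G) := by rw [sup_comm]; exact hf
  rw [hset] at hf'
  obtain ⟨u, hu, y, hy, rfl⟩ := Set.mem_mul.mp hf'
  have hc : y * p⁻¹ = p⁻¹ * y := hYab y hy p⁻¹ (inv_mem hp)
  have e : kk p (u * y) = p * u * p⁻¹ * u⁻¹ := by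
    unfold kk
    calc p * (u * y) * p⁻¹ * (u * y)⁻¹ = p * u * (y * p⁻¹) * y⁻¹ * u⁻¹ := by group
      _ = p * u * (p⁻¹ * y) * y⁻¹ * u⁻¹ := by rw [hc]
      _ = p * u * p⁻¹ * u⁻¹ := by group
  rw [e]
  refine Subgroup.mem_inf.mpr ⟨?_, ?_⟩
  · have h1 := (Subgroup.mem_normalizer_iff.mp (cj_le_normalizer Y a n1 hu) p⁻¹).mp (inv_mem hp)
    have e2 : p * u * p⁻¹ * u⁻¹ = p * (u * p⁻¹ * u⁻¹) := by group
    rw [e2]; exact mul_mem hp h1
  · have h1 := (Subgroup.mem_normalizer_iff.mp (le_normalizer_cj Y a n2 hp) u).mp hu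
    exact mul_mem h1 (inv_mem hu)

include hYab n1 n2 in
theorem kk_mul {p p' f : G} (hp : p ∈ Y) (hp' : p' ∈ Y) (hf : f ∈ Y ⊔ cj Y a) :
    kk (p * p') f = kk p' f * kk p f := by
  have hc := central Y a hYab (kk p' f) (kk_mem Y a hYab n1 n2 hp' hf) p (le_sup_left (a := Y) hp)
  unfold kk at hc ⊢
  calc p * p' * f * (p * p')⁻¹ * f⁻¹ = p * (p' * f * p'⁻¹ * f⁻¹) * (f * p⁻¹ * f⁻¹) := by group
    _ = (p' * f * p'⁻¹ * f⁻¹) * p * (f * p⁻¹ * f⁻¹) := by rw [hc]
    _ = p' * f * p'⁻¹ * f⁻¹ * (p * f * p⁻¹ * f⁻¹) := by group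

include hYab n1 n2 in
theorem kk_inv {p f : G} (hp : p ∈ Y) (hf : f ∈ Y ⊔ cj Y a) : kk p⁻¹ f = (kk p f)⁻¹ := by
  have h1 := kk_mul Y a hYab n1 n2 hp (inv_mem hp) hf
  have h2 : kk (p * p⁻¹) f = 1 := by unfold kk; group
  rw [h2] at h1
  exact eq_inv_of_mul_eq_one_left h1.symm

end Core

section Core2

variable {G : Type*} [Group G]
variable (Y F : Subgroup G) (a : G)
  (hYab : ∀ x ∈ Y, ∀ y ∈ Y, x * y = y * x)
  (n1 : ∀ y ∈ Y, a * y * a⁻¹ ∈ Subgroup.normalizer (Y : Set G))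
  (n2 : ∀ y ∈ Y, a⁻¹ * y * a ∈ Subgroup.normalizer (Y : Set G))
  (haF : a ∈ F) (hFab : ∀ x ∈ F, ∀ y ∈ F, x * y = y * x)
  (hprod : ((Y ⊔ F : Subgroup G) : Set G) = (Y : Set G) * (F : Set G))

theorem cc_mem {y : G} (hy : y ∈ Y) : y⁻¹ * (a * y * a⁻¹) ∈ Y ⊔ cj Y a :=
  (Y ⊔ cj Y a).mul_mem ((Y ⊔ cj Y a).inv_mem (le_sup_left (b := cj Y a) hy))
    (le_sup_right (a := Y) (mem_cj.mpr ⟨y, hy, rfl⟩))

include haF hprod in
theorem decomp {y : G} (hy : y ∈ Y) :
    ∃ y2 ∈ Y, ∃ h ∈ F, a * y * a⁻¹ = y2 * h ∧ h ∈ Y ⊔ cj Y a := by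
  have h1 : a * y * a⁻¹ ∈ ((Y ⊔ F : Subgroup G) : Set G) :=
    (Y ⊔ F).mul_mem ((Y ⊔ F).mul_mem (le_sup_right (a := Y) haF) (le_sup_left (b := F) hy))
      ((Y ⊔ F).inv_mem (le_sup_right (a := Y) haF))
  rw [hprod] at h1
  obtain ⟨y2, hy2, h, hh, e⟩ := Set.mem_mul.mp h1
  refine ⟨y2, hy2, h, hh, e.symm, ?_⟩
  have e2 : h = y2⁻¹ * (a * y * a⁻¹) := by rw [← e]; group
  rw [e2]
  exact (Y ⊔ cj Y a).mul_mem ((Y ⊔ cj Y a).inv_mem (le_sup_left (b := cj Y a) hy2))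
    (le_sup_right (a := Y) (mem_cj.mpr ⟨y, hy, rfl⟩))

include hYab n1 n2 haF hFab hprod in
theorem comm_cc {y y' : G} (hy : y ∈ Y) (hy' : y' ∈ Y) :
    y⁻¹ * (a * y * a⁻¹) * (y'⁻¹ * (a * y' * a⁻¹)) =
      y'⁻¹ * (a * y' * a⁻¹) * (y⁻¹ * (a * y * a⁻¹)) := by
  obtain ⟨y2, hy2, h, hh, e, hH⟩ := decomp Y F a haF hprod hy
  obtain ⟨y2', hy2', h', hh', e', hH'⟩ := decomp Y F a haF hprod hy'
  have hhh : h * h' = h' * h := hFab h hh h' hh'
  have hah : a * h * a⁻¹ = h := by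
    have := hFab a haF h hh
    calc a * h * a⁻¹ = h * a * a⁻¹ := by rw [this]
      _ = h := by group
  have hah' : a * h' * a⁻¹ = h' := by
    have := hFab a haF h' hh'
    calc a * h' * a⁻¹ = h' * a * a⁻¹ := by rw [this]
      _ = h' := by group
  have hYH : Y ≤ Y ⊔ cj Y a := le_sup_left
  have cen := central Y a hYab
  have km := fun {p f : G} (hp : p ∈ Y) (hf : f ∈ Y ⊔ cj Y a) => kk_mem Y a hYab n1 n2 hp hf
  have hI : kk y2 h' = kk y2' h := by
    have g := g_one (w := y2) (h := h) (w' := y2') (h' := h') (z := kk y2' h) (z' := kk y2 h')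
      (by unfold kk; group) (by unfold kk; group) (hYab y2 hy2 y2' hy2') hhh
      (cen _ (km hy2' hH) y2 (hYH hy2)) (cen _ (km hy2 hH') y2' (hYH hy2'))
    have hcomm : y2 * h * (y2' * h') = y2' * h' * (y2 * h) := by
      rw [← e, ← e']
      exact cj_comm Y a hYab _ (mem_cj.mpr ⟨y, hy, rfl⟩) _ (mem_cj.mpr ⟨y', hy', rfl⟩)
    rw [hcomm] at g
    exact (mul_right_cancel g).symm
  have hII : kk y h' = kk y' h := by
    have s1 : a * kk y h' * a⁻¹ = kk y2 h' := by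
      unfold kk
      calc a * (y * h' * y⁻¹ * h'⁻¹) * a⁻¹
          = (a * y * a⁻¹) * (a * h' * a⁻¹) * (a * y * a⁻¹)⁻¹ * (a * h' * a⁻¹)⁻¹ := by group
        _ = (y2 * h) * h' * (y2 * h)⁻¹ * h'⁻¹ := by rw [e, hah']
        _ = y2 * (h * h') * h⁻¹ * y2⁻¹ * h'⁻¹ := by group
        _ = y2 * (h' * h) * h⁻¹ * y2⁻¹ * h'⁻¹ := by rw [hhh]
        _ = y2 * h' * y2⁻¹ * h'⁻¹ := by group
    have s2 : a * kk y' h * a⁻¹ = kk y2' h := by
      unfold kk
      calc a * (y' * h * y'⁻¹ * h⁻¹) * a⁻¹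
          = (a * y' * a⁻¹) * (a * h * a⁻¹) * (a * y' * a⁻¹)⁻¹ * (a * h * a⁻¹)⁻¹ := by group
        _ = (y2' * h') * h * (y2' * h')⁻¹ * h⁻¹ := by rw [e', hah]
        _ = y2' * (h' * h) * h'⁻¹ * y2'⁻¹ * h⁻¹ := by group
        _ = y2' * (h * h') * h'⁻¹ * y2'⁻¹ * h⁻¹ := by rw [hhh]
        _ = y2' * h * y2'⁻¹ * h⁻¹ := by group
    have h3 : a * kk y h' * a⁻¹ = a * kk y' h * a⁻¹ := by rw [s1, s2, hI]
    exact mul_left_cancel (mul_right_cancel h3)
  have hz : kk (y'⁻¹ * y2') h = kk (y⁻¹ * y2) h' := by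
    rw [kk_mul Y a hYab n1 n2 (inv_mem hy') hy2' hH, kk_mul Y a hYab n1 n2 (inv_mem hy) hy2 hH',
      kk_inv Y a hYab n1 n2 hy' hH, kk_inv Y a hYab n1 n2 hy hH', hI, hII]
  have hw1 : y⁻¹ * y2 ∈ Y := mul_mem (inv_mem hy) hy2
  have hw2 : y'⁻¹ * y2' ∈ Y := mul_mem (inv_mem hy') hy2'
  have g := g_one (w := y⁻¹ * y2) (h := h) (w' := y'⁻¹ * y2') (h' := h') (z := kk (y'⁻¹ * y2') h)
    (z' := kk (y⁻¹ * y2) h') (by unfold kk; group) (by unfold kk; group) (hYab _ hw1 _ hw2) hhh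
    (cen _ (km hw2 hH) _ (hYH hw1)) (cen _ (km hw1 hH') _ (hYH hw2))
  rw [hz] at g
  have g' := mul_left_cancel g
  rw [e, e']
  calc y⁻¹ * (y2 * h) * (y'⁻¹ * (y2' * h')) = y⁻¹ * y2 * h * (y'⁻¹ * y2' * h') := by group
    _ = y'⁻¹ * y2' * h' * (y⁻¹ * y2 * h) := g'
    _ = y'⁻¹ * (y2' * h') * (y⁻¹ * (y2 * h)) := by group

include hYab n1 n2 haF hFab hprod in
theorem rep_comm : ∀ x ∈ rep Y a, ∀ y ∈ rep Y a, x * y = y * x := by
  unfold rep
  apply closure_comm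
  intro s hs t ht
  have hc : ∀ c, (∃ y ∈ Y, c = y⁻¹ * (a * y * a⁻¹)) → c ∈ Y ⊔ cj Y a := by
    rintro c ⟨y, hy, rfl⟩
    exact cc_mem Y a hy
  rcases hs with hs | hs <;> rcases ht with ht | ht
  · obtain ⟨y, hy, rfl⟩ := hs
    obtain ⟨y', hy', rfl⟩ := ht
    exact comm_cc Y F a hYab n1 n2 haF hFab hprod hy hy'
  · exact (central Y a hYab t ht s (hc s hs)).symm
  · exact central Y a hYab s hs t (hc t ht)
  · exact hYab s hs.1 t ht.1

theorem rep_le : rep Y a ≤ Y ⊔ cj Y a := by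
  unfold rep
  rw [Subgroup.closure_le]
  rintro s (⟨y, hy, rfl⟩ | hs)
  · exact cc_mem Y a hy
  · exact le_sup_left (b := cj Y a) hs.1

include n1 in
theorem sup_le_normalizer : Y ⊔ cj Y a ≤ Subgroup.normalizer (Y : Set G) :=
  sup_le Subgroup.le_normalizer (cj_le_normalizer Y a n1)

include n1 in
theorem card_ineq [Finite G] (D D' : Subgroup G) [hD : D.Normal] (hDD : D' ≤ D)
    (hc : ∀ y ∈ Y ⊓ D, y⁻¹ * (a * y * a⁻¹) ∈ D') :
    Nat.card ↥(Y ⊓ D) * Nat.card ↥((Y ⊓ cj Y a) ⊓ D') ≤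
      Nat.card ↥(rep Y a ⊓ D') * Nat.card ↥((Y ⊓ cj Y a) ⊓ D) := by
  set K : Subgroup G := Subgroup.closure {c | ∃ y ∈ Y ⊓ D, c = y⁻¹ * (a * y * a⁻¹)} ⊔
    ((Y ⊓ cj Y a) ⊓ D') with hK
  have hKrep : K ≤ rep Y a ⊓ D' := by
    apply sup_le
    · rw [Subgroup.closure_le]
      rintro c ⟨y, hy, rfl⟩
      exact Subgroup.mem_inf.mpr ⟨Subgroup.subset_closure (Or.inl ⟨y, hy.1, rfl⟩), hc y hy⟩
    · intro x hx
      exact Subgroup.mem_inf.mpr ⟨Subgroup.subset_closure (Or.inr hx.1), hx.2⟩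
  have hnorm : Subgroup.normalizer (Y : Set G) ≤
      Subgroup.normalizer ((Y ⊓ D : Subgroup G) : Set G) := by
    intro g hg
    rw [Subgroup.mem_normalizer_iff] at hg ⊢
    intro h
    constructor
    · intro hh
      exact Subgroup.mem_inf.mpr ⟨(hg h).mp hh.1, hD.conj_mem h hh.2 g⟩
    · intro hh
      refine Subgroup.mem_inf.mpr ⟨(hg h).mpr hh.1, ?_⟩
      have := hD.conj_mem _ hh.2 g⁻¹
      simpa [mul_assoc] using this
  have hK2 : K ≤ Subgroup.normalizer ((Y ⊓ D : Subgroup G) : Set G) :=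
    le_trans (le_trans (le_trans hKrep inf_le_left) (rep_le Y a))
      (le_trans (sup_le_normalizer Y a n1) hnorm)
  have hmap : (Y ⊓ D).map (MulAut.conj a).toMonoidHom ≤ (Y ⊓ D) ⊔ K := by
    rintro x ⟨y, hy, rfl⟩
    have e : (MulAut.conj a).toMonoidHom y = y * (y⁻¹ * (a * y * a⁻¹)) := by
      simp [MulAut.conj_apply]
    rw [e]
    exact mul_mem (le_sup_left (b := K) hy) (le_sup_right (a := Y ⊓ D)
      (le_sup_left (b := (Y ⊓ cj Y a) ⊓ D') (Subgroup.subset_closure ⟨y, hy, rfl⟩)))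
  have c1 := card_mul_card_le (Y ⊓ D) ((Y ⊓ D).map (MulAut.conj a).toMonoidHom)
  have hcm : Nat.card ↥((Y ⊓ D).map (MulAut.conj a).toMonoidHom) = Nat.card ↥(Y ⊓ D) :=
    Subgroup.card_map_of_injective (MulAut.conj a).injective
  have c3 : Nat.card ↥((Y ⊓ D) ⊔ (Y ⊓ D).map (MulAut.conj a).toMonoidHom) ≤
      Nat.card ↥((Y ⊓ D) ⊔ K) := Subgroup.card_le_of_le (sup_le le_sup_left hmap)
  have c4 : Nat.card ↥((Y ⊓ D) ⊓ (Y ⊓ D).map (MulAut.conj a).toMonoidHom) ≤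
      Nat.card ↥((Y ⊓ cj Y a) ⊓ D) := by
    apply Subgroup.card_le_of_le
    intro x hx
    obtain ⟨hx1, hx2⟩ := Subgroup.mem_inf.mp hx
    obtain ⟨y, hy, rfl⟩ := hx2
    exact Subgroup.mem_inf.mpr ⟨Subgroup.mem_inf.mpr ⟨hx1.1,
      mem_cj.mpr ⟨y, hy.1, by simp [MulAut.conj_apply]⟩⟩, hx1.2⟩
  have c2 := card_sup_mul_card_inf (Y ⊓ D) K hK2
  have c5 : Nat.card ↥((Y ⊓ cj Y a) ⊓ D') ≤ Nat.card ↥((Y ⊓ D) ⊓ K) := by
    apply Subgroup.card_le_of_le
    intro x hx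
    exact Subgroup.mem_inf.mpr ⟨Subgroup.mem_inf.mpr ⟨hx.1.1, hDD hx.2⟩,
      le_sup_right (a := Subgroup.closure _) hx⟩
  have c6 : Nat.card ↥K ≤ Nat.card ↥(rep Y a ⊓ D') := Subgroup.card_le_of_le hKrep
  have hpos : 0 < Nat.card ↥(Y ⊓ D) := Nat.card_pos
  rw [hcm] at c1
  apply Nat.le_of_mul_le_mul_left _ hpos
  calc Nat.card ↥(Y ⊓ D) * (Nat.card ↥(Y ⊓ D) * Nat.card ↥((Y ⊓ cj Y a) ⊓ D'))
      = Nat.card ↥(Y ⊓ D) * Nat.card ↥(Y ⊓ D) * Nat.card ↥((Y ⊓ cj Y a) ⊓ D') := by ring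
    _ ≤ Nat.card ↥((Y ⊓ D) ⊔ (Y ⊓ D).map (MulAut.conj a).toMonoidHom) *
          Nat.card ↥((Y ⊓ D) ⊓ (Y ⊓ D).map (MulAut.conj a).toMonoidHom) *
          Nat.card ↥((Y ⊓ cj Y a) ⊓ D') := Nat.mul_le_mul_right _ c1
    _ ≤ Nat.card ↥((Y ⊓ D) ⊔ K) * Nat.card ↥((Y ⊓ cj Y a) ⊓ D) * Nat.card ↥((Y ⊓ D) ⊓ K) :=
        Nat.mul_le_mul (Nat.mul_le_mul c3 c4) c5
    _ = Nat.card ↥((Y ⊓ D) ⊔ K) * Nat.card ↥((Y ⊓ D) ⊓ K) * Nat.card ↥((Y ⊓ cj Y a) ⊓ D) := by ring
    _ = Nat.card ↥(Y ⊓ D) * Nat.card ↥K * Nat.card ↥((Y ⊓ cj Y a) ⊓ D) := by rw [c2]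
    _ ≤ Nat.card ↥(Y ⊓ D) * Nat.card ↥(rep Y a ⊓ D') * Nat.card ↥((Y ⊓ cj Y a) ⊓ D) :=
        Nat.mul_le_mul_right _ (Nat.mul_le_mul_left _ c6)
    _ = Nat.card ↥(Y ⊓ D) * (Nat.card ↥(rep Y a ⊓ D') * Nat.card ↥((Y ⊓ cj Y a) ⊓ D)) := by ring

end Core2

section Main

open scoped commutatorElement

variable {G : Type*} [Group G] [Finite G]

/-- The potential. -/
noncomputable def pot (γ : ℕ → Subgroup G) (c : ℕ) (Q : Subgroup G) : ℕ :=
  ∑ i ∈ Finset.range (c + 1), Nat.card ↥(Subgroup.centralizer (Q : Set G) ⊓ γ i)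

omit [Finite G] in
theorem normalizer_le_normalizer_centralizer' (Y : Subgroup G) :
    Subgroup.normalizer (Y : Set G) ≤
      Subgroup.normalizer ((Subgroup.centralizer (Y : Set G) : Subgroup G) : Set G) := by
  have key : ∀ g ∈ Subgroup.normalizer (Y : Set G), ∀ x ∈ Subgroup.centralizer (Y : Set G),
      g * x * g⁻¹ ∈ Subgroup.centralizer (Y : Set G) := by
    intro g hg x hx
    rw [Subgroup.mem_centralizer_iff] at hx ⊢
    intro y hy
    have hy' : g⁻¹ * y * g ∈ Y := (Subgroup.mem_normalizer_iff''.mp hg y).mp hy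
    have h1 := hx _ hy'
    calc y * (g * x * g⁻¹) = g * (g⁻¹ * y * g * x) * g⁻¹ := by group
      _ = g * (x * (g⁻¹ * y * g)) * g⁻¹ := by rw [h1]
      _ = g * x * g⁻¹ * y := by group
  intro g hg
  rw [Subgroup.mem_normalizer_iff]
  intro x
  constructor
  · exact key g hg x
  · intro hx
    have := key g⁻¹ (inv_mem hg) _ hx
    simpa [mul_assoc] using this

theorem replace_step (γ : ℕ → Subgroup G) (c : ℕ) (hγn : ∀ i, (γ i).Normal) (hγ0 : γ 0 = ⊤)
    (hγc : γ c = ⊥) (hγanti : ∀ i, γ (i + 1) ≤ γ i)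
    (hγcomm : ∀ i, ∀ x ∈ γ i, ∀ g : G, x⁻¹ * (g * x * g⁻¹) ∈ γ (i + 1))
    {Q : Subgroup G} (hQ : Cfsg.IsMinimalCentrallyLarge Q) (F : Subgroup G) (a : G) (haF : a ∈ F)
    (hFab : ∀ x ∈ F, ∀ y ∈ F, x * y = y * x)
    (hprod : ((Subgroup.centralizer (Q : Set G) ⊔ F : Subgroup G) : Set G) =
      (Subgroup.centralizer (Q : Set G) : Set G) * (F : Set G))
    (ha : a ∉ Subgroup.normalizer ((Subgroup.centralizer (Q : Set G) : Subgroup G) : Set G))
    (n1 : ∀ y ∈ Subgroup.centralizer (Q : Set G), a * y * a⁻¹ ∈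
      Subgroup.normalizer ((Subgroup.centralizer (Q : Set G) : Subgroup G) : Set G))
    (n2 : ∀ y ∈ Subgroup.centralizer (Q : Set G), a⁻¹ * y * a ∈
      Subgroup.normalizer ((Subgroup.centralizer (Q : Set G) : Subgroup G) : Set G)) :
    ∃ Q' : Subgroup G, Cfsg.IsMinimalCentrallyLarge Q' ∧ pot γ c Q < pot γ c Q' := by
  obtain ⟨q1, q2⟩ := isCentrallyLarge_iff.mp hQ.1
  obtain ⟨hY, hQY⟩ := cd_centralizer q1
  obtain ⟨hQ'm, hQ'c⟩ := mcl_map_conj hQ a
  obtain ⟨q1', q2'⟩ := isCentrallyLarge_iff.mp hQ'm.1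
  have hQY' := (cd_centralizer q1').2
  have hmic := mcl_inf_centralizer hQ hQ'm
  unfold pot
  obtain ⟨Y, hYdef⟩ : ∃ Y : Subgroup G, Y = Subgroup.centralizer (Q : Set G) := ⟨_, rfl⟩
  rw [← hYdef] at hprod ha n1 n2 hY hQY q2 hQ'c hmic ⊢
  have hQ'c' : Subgroup.centralizer ((Q.map (MulAut.conj a).toMonoidHom : Subgroup G) : Set G) =
      cj Y a := hQ'c
  rw [hQ'c'] at hQY' q2' hmic
  have hYab : ∀ x ∈ Y, ∀ y ∈ Y, x * y = y * x := by
    intro x hx y hy
    rw [hYdef] at hx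
    exact (Subgroup.mem_centralizer_iff.mp hx y (q2 hy)).symm
  have hY' : Cfsg.IsCentralizerLarge (cj Y a) := isCentralizerLarge_map_conj hY a
  obtain ⟨g1, -, -, g4, -⟩ := cd_pair hY hY'
  have hcardcj : Nat.card ↥(cj Y a) = Nat.card ↥Y :=
    Subgroup.card_map_of_injective (MulAut.conj a).injective
  have hXab := rep_comm Y F a hYab n1 n2 haF hFab hprod
  have hXH : rep Y a ≤ Y ⊔ cj Y a := rep_le Y a
  have hXcent : rep Y a ≤ Subgroup.centralizer ((rep Y a : Subgroup G) : Set G) :=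
    fun x hx => Subgroup.mem_centralizer_iff.mpr (fun y hy => hXab y hy x hx)
  have hYX : Nat.card ↥Y ≤ Nat.card ↥(rep Y a) := by
    have h := card_ineq Y a n1 ⊤ ⊤ le_rfl (fun y _ => Subgroup.mem_top _)
    simp only [inf_top_eq] at h
    exact Nat.le_of_mul_le_mul_right h Nat.card_pos
  have hXN : rep Y a ⊓ Subgroup.centralizer ((Y ⊔ cj Y a : Subgroup G) : Set G) ≤ Y ⊓ cj Y a := by
    intro x hx
    obtain ⟨hx1, hx2⟩ := Subgroup.mem_inf.mp hx
    have hxQ : x ∈ Q := by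
      have h := Subgroup.centralizer_le (SetLike.coe_subset_coe.mpr (le_sup_left : Y ≤ Y ⊔ cj Y a)) hx2
      rw [← hQY] at h
      exact h
    have hxQ' : x ∈ Q.map (MulAut.conj a).toMonoidHom := by
      have h := Subgroup.centralizer_le
        (SetLike.coe_subset_coe.mpr (le_sup_right : cj Y a ≤ Y ⊔ cj Y a)) hx2
      rw [← hQY'] at h
      exact h
    have hset := Subgroup.coe_mul_of_left_le_normalizer_right (cj Y a) Y (cj_le_normalizer Y a n1)
    have hxH : x ∈ ((cj Y a ⊔ Y : Subgroup G) : Set G) := by rw [sup_comm]; exact hXH hx1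
    rw [hset] at hxH
    obtain ⟨u, hu, y, hy, rfl⟩ := Set.mem_mul.mp hxH
    have hyQ : y ∈ Q := q2 hy
    have huQ' : u ∈ Q.map (MulAut.conj a).toMonoidHom := q2' hu
    have huQ : u ∈ Q := by
      have := mul_mem hxQ (inv_mem hyQ)
      simpa using this
    have hyQ' : y ∈ Q.map (MulAut.conj a).toMonoidHom := by
      have := mul_mem (inv_mem huQ') hxQ'
      simpa using this
    have huY : u ∈ Y := by
      have : u ∈ (Q.map (MulAut.conj a).toMonoidHom ⊓ Q) ⊓ cj Y a := ⟨⟨huQ', huQ⟩, hu⟩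
      rw [← hmic] at this
      exact this.2
    have hycj : y ∈ cj Y a := by
      have : y ∈ (Q ⊓ Q.map (MulAut.conj a).toMonoidHom) ⊓ Y := ⟨⟨hyQ, hyQ'⟩, hy⟩
      rw [hmic] at this
      exact this.2
    exact Subgroup.mem_inf.mpr ⟨mul_mem huY hy, mul_mem hu hycj⟩
  have hCX : rep Y a ⊔ Subgroup.centralizer ((Y ⊔ cj Y a : Subgroup G) : Set G) ≤
      Subgroup.centralizer ((rep Y a : Subgroup G) : Set G) :=
    sup_le hXcent (Subgroup.centralizer_le (SetLike.coe_subset_coe.mpr hXH))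
  have e1 := card_mul_card_le (rep Y a) (Subgroup.centralizer ((Y ⊔ cj Y a : Subgroup G) : Set G))
  have e2 := Subgroup.card_le_of_le hCX
  have e3 := Subgroup.card_le_of_le hXN
  have hXle := cdm_le_max (rep Y a)
  unfold Cfsg.IsCentralizerLarge at g4
  rw [hcardcj] at g1
  have hn : 0 < Nat.card ↥(Y ⊓ cj Y a) := Nat.card_pos
  have hch : 0 < Nat.card ↥(Subgroup.centralizer ((Y ⊔ cj Y a : Subgroup G) : Set G)) := Nat.card_pos
  have hXdata : Nat.card ↥(rep Y a) * Nat.card ↥(Subgroup.centralizer ((rep Y a : Subgroup G) : Set G)) =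
      Cfsg.maxCentralizerProduct G ∧ Nat.card ↥(rep Y a) = Nat.card ↥Y := by
    generalize Nat.card ↥(rep Y a) = x at *
    generalize Nat.card ↥Y = y at *
    generalize Nat.card ↥(Subgroup.centralizer ((Y ⊔ cj Y a : Subgroup G) : Set G)) = ch at *
    generalize Nat.card ↥(Subgroup.centralizer ((rep Y a : Subgroup G) : Set G)) = cx at *
    generalize Nat.card ↥(Y ⊔ cj Y a) = hh at *
    generalize Nat.card ↥(Y ⊓ cj Y a) = n at *
    generalize Nat.card ↥(rep Y a ⊔ Subgroup.centralizer ((Y ⊔ cj Y a : Subgroup G) : Set G)) = s at *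
    generalize Nat.card ↥(rep Y a ⊓ Subgroup.centralizer ((Y ⊔ cj Y a : Subgroup G) : Set G)) = t at *
    generalize Cfsg.maxCentralizerProduct G = M at *
    have e1' : x * ch ≤ cx * n := le_trans e1 (Nat.mul_le_mul e2 e3)
    have A1 : y * y * ch ≤ x * x * ch := Nat.mul_le_mul_right _ (Nat.mul_le_mul hYX hYX)
    have A2 : x * x * ch ≤ x * cx * n := by
      calc x * x * ch = x * (x * ch) := by ring
        _ ≤ x * (cx * n) := Nat.mul_le_mul_left _ e1'
        _ = x * cx * n := by ring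
    have A3 : x * cx * n ≤ M * n := Nat.mul_le_mul_right _ hXle
    have A4 : M * n = y * y * ch := by rw [← g4, g1]; ring
    constructor
    · have h5 : x * cx * n = M * n := le_antisymm A3 (by rw [A4]; exact le_trans A1 A2)
      exact Nat.eq_of_mul_eq_mul_right hn h5
    · have h5 : x * x * ch = y * y * ch := le_antisymm (by rw [← A4]; exact le_trans A2 A3) A1
      have h6 := Nat.eq_of_mul_eq_mul_right hch h5
      exact Nat.mul_self_inj.mp h6
  obtain ⟨hXM, hXY⟩ := hXdata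
  have hXL : Cfsg.IsCentralizerLarge (rep Y a) := hXM
  obtain ⟨hQn, hCn⟩ := mcl_centralizer_of hQ hXL hXcent (by rw [hXY, hYdef])
  refine ⟨Subgroup.centralizer ((rep Y a : Subgroup G) : Set G), hQn, ?_⟩
  rw [hCn]
  have F1 : ∀ i, Nat.card ↥(Y ⊓ γ i) ≤ Nat.card ↥(rep Y a ⊓ γ i) := by
    intro i
    haveI := hγn i
    have h := card_ineq Y a n1 (γ i) (γ i) le_rfl
      (fun y hy => hγanti i (hγcomm i y hy.2 a))
    exact Nat.le_of_mul_le_mul_right h Nat.card_pos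
  by_contra hlt
  rw [not_lt] at hlt
  have heq : ∀ i ∈ Finset.range (c + 1), Nat.card ↥(Y ⊓ γ i) = Nat.card ↥(rep Y a ⊓ γ i) :=
    (Finset.sum_eq_sum_iff_of_le (fun i _ => F1 i)).mp
      (le_antisymm (Finset.sum_le_sum fun i _ => F1 i) hlt)
  have chain : ∀ i, i ≤ c → Nat.card ↥Y * Nat.card ↥((Y ⊓ cj Y a) ⊓ γ i) ≤
      Nat.card ↥(Y ⊓ γ i) * Nat.card ↥(Y ⊓ cj Y a) := by
    intro i
    induction i with
    | zero =>
      intro _
      rw [hγ0, inf_top_eq, inf_top_eq]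
    | succ i ih =>
      intro hi
      have ih' := ih (by omega)
      haveI := hγn i
      have h := card_ineq Y a n1 (γ i) (γ (i + 1)) (hγanti i) (fun y hy => hγcomm i y hy.2 a)
      rw [← heq (i + 1) (Finset.mem_range.mpr (by omega))] at h
      have hp1 : 0 < Nat.card ↥(Y ⊓ γ i) := Nat.card_pos
      have hp2 : 0 < Nat.card ↥((Y ⊓ cj Y a) ⊓ γ i) := Nat.card_pos
      apply Nat.le_of_mul_le_mul_right _ (Nat.mul_pos hp1 hp2)
      calc Nat.card ↥Y * Nat.card ↥((Y ⊓ cj Y a) ⊓ γ (i + 1)) *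
            (Nat.card ↥(Y ⊓ γ i) * Nat.card ↥((Y ⊓ cj Y a) ⊓ γ i))
          = (Nat.card ↥Y * Nat.card ↥((Y ⊓ cj Y a) ⊓ γ i)) *
            (Nat.card ↥(Y ⊓ γ i) * Nat.card ↥((Y ⊓ cj Y a) ⊓ γ (i + 1))) := by ring
        _ ≤ (Nat.card ↥(Y ⊓ γ i) * Nat.card ↥(Y ⊓ cj Y a)) *
            (Nat.card ↥(Y ⊓ γ (i + 1)) * Nat.card ↥((Y ⊓ cj Y a) ⊓ γ i)) := Nat.mul_le_mul ih' h
        _ = Nat.card ↥(Y ⊓ γ (i + 1)) * Nat.card ↥(Y ⊓ cj Y a) *
            (Nat.card ↥(Y ⊓ γ i) * Nat.card ↥((Y ⊓ cj Y a) ⊓ γ i)) := by ring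
  have hfin := chain c le_rfl
  rw [hγc, inf_bot_eq, inf_bot_eq, Subgroup.card_bot, mul_one, one_mul] at hfin
  have hNY : Y ⊓ cj Y a = Y :=
    Subgroup.eq_of_le_of_card_ge (inf_le_left : Y ⊓ cj Y a ≤ Y) hfin
  have hYcj : Y ≤ cj Y a := by
    intro x hx
    have h7 : x ∈ Y ⊓ cj Y a := by rw [hNY]; exact hx
    exact h7.2
  have hYeq : Y = cj Y a := Subgroup.eq_of_le_of_card_ge hYcj (by rw [hcardcj])
  apply ha
  rw [Subgroup.mem_normalizer_iff]
  intro h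
  constructor
  · intro hh
    have : a * h * a⁻¹ ∈ cj Y a := mem_cj.mpr ⟨h, hh, rfl⟩
    rw [← hYeq] at this
    exact this
  · intro hh
    rw [hYeq] at hh
    obtain ⟨y, hy, e⟩ := mem_cj.mp hh
    have : y = h := mul_left_cancel (mul_right_cancel e)
    rw [← this]; exact hy

end Main

section Final

open scoped commutatorElement

variable {G : Type*} [Group G] [Finite G]

theorem exists_mcl_normalized [Group.IsNilpotent G] :
    ∃ Q : Subgroup G, Cfsg.IsMinimalCentrallyLarge Q ∧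
      Cfsg.thompsonSubgroupA G ≤ Subgroup.normalizer (Q : Set G) ∧
      Cfsg.minimalCentrallyLargeJoin G ≤ Subgroup.normalizer (Q : Set G) := by
  classical
  have hγn : ∀ i, ((⊤ : Subgroup G).lowerCentralSeries i).Normal := fun i => inferInstance
  have hγ0 : (⊤ : Subgroup G).lowerCentralSeries 0 = ⊤ := rfl
  have hγc : (⊤ : Subgroup G).lowerCentralSeries (Group.nilpotencyClass G) = ⊥ :=
    Subgroup.lowerCentralSeries_nilpotencyClass
  have hγanti : ∀ i, (⊤ : Subgroup G).lowerCentralSeries (i + 1) ≤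
      (⊤ : Subgroup G).lowerCentralSeries i :=
    fun i => Subgroup.lowerCentralSeries_antitone _ (Nat.le_succ i)
  have hγcomm : ∀ i, ∀ x ∈ (⊤ : Subgroup G).lowerCentralSeries i, ∀ g : G,
      x⁻¹ * (g * x * g⁻¹) ∈ (⊤ : Subgroup G).lowerCentralSeries (i + 1) := by
    intro i x hx g
    have h1 : ⁅x⁻¹, g⁆ ∈ ⁅(⊤ : Subgroup G).lowerCentralSeries i, (⊤ : Subgroup G)⁆ :=
      Subgroup.commutator_mem_commutator (inv_mem hx) (Subgroup.mem_top g)
    have e : x⁻¹ * (g * x * g⁻¹) = ⁅x⁻¹, g⁆ := by rw [commutatorElement_def]; group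
    rw [e]; exact h1
  obtain ⟨Q0, hQ0⟩ := exists_isCentrallyLarge (G := G)
  obtain ⟨R0, -, hR0⟩ := exists_isMinimalCentrallyLarge_le hQ0
  obtain ⟨Q, hQ, hmax⟩ := Set.exists_max_image {Q : Subgroup G | Cfsg.IsMinimalCentrallyLarge Q}
    (pot (⊤ : Subgroup G).lowerCentralSeries (Group.nilpotencyClass G)) (Set.toFinite _) ⟨R0, hR0⟩
  obtain ⟨q1, q2⟩ := isCentrallyLarge_iff.mp hQ.1
  obtain ⟨hY, hQY⟩ := cd_centralizer q1
  have hYab : ∀ x ∈ Subgroup.centralizer (Q : Set G), ∀ y ∈ Subgroup.centralizer (Q : Set G),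
      x * y = y * x := by
    intro x hx y hy
    exact (Subgroup.mem_centralizer_iff.mp hx y (q2 hy)).symm
  have hNN : Subgroup.normalizer ((Subgroup.centralizer (Q : Set G) : Subgroup G) : Set G) ≤
      Subgroup.normalizer (Q : Set G) := by
    have h := normalizer_le_normalizer_centralizer' (Subgroup.centralizer (Q : Set G))
    rw [← hQY] at h
    exact h
  have key : ∀ F : Subgroup G, (∀ x ∈ F, ∀ y ∈ F, x * y = y * x) →
      ((Subgroup.centralizer (Q : Set G) ⊔ F : Subgroup G) : Set G) =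
        (Subgroup.centralizer (Q : Set G) : Set G) * (F : Set G) →
      F ≤ Subgroup.normalizer (Q : Set G) := by
    intro F hFab hprod
    by_contra hF
    have hF' : ¬ F ≤ Subgroup.normalizer ((Subgroup.centralizer (Q : Set G) : Subgroup G) : Set G) :=
      fun h => hF (le_trans h hNN)
    obtain ⟨a, haF, ha, n1, n2⟩ := exists_conj (Subgroup.centralizer (Q : Set G)) F hYab hprod hF'
    obtain ⟨Q', hQ', hlt⟩ := replace_step _ _ hγn hγ0 hγc hγanti hγcomm hQ F a haF hFab hprod ha n1 n2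
    exact absurd (hmax Q' hQ') (not_le.mpr hlt)
  refine ⟨Q, hQ, ?_, ?_⟩
  · unfold Cfsg.thompsonSubgroupA
    apply sSup_le
    intro A hA
    apply key A
    · intro x hx y hy
      have hc := Subgroup.le_centralizer_iff_isMulCommutative.mpr hA.1
      exact (Subgroup.mem_centralizer_iff.mp (hc hx) y hy).symm
    · have h4 := (cl_maxAbelian hQ.1 hA).2.2.2
      rw [inf_eq_right.mpr q2] at h4
      exact h4
  · unfold Cfsg.minimalCentrallyLargeJoin
    apply sSup_le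
    intro R hR
    obtain ⟨r1, r2⟩ := isCentrallyLarge_iff.mp hR.1
    obtain ⟨hW, -⟩ := cd_centralizer r1
    have hWn : Subgroup.centralizer (R : Set G) ≤ Subgroup.normalizer (Q : Set G) := by
      apply key
      · intro x hx y hy
        exact (Subgroup.mem_centralizer_iff.mp hx y (r2 hy)).symm
      · exact coe_sup_eq_mul_of_card_eq _ _ (cd_pair hY hW).1
    calc R = (R ⊓ Q) ⊔ Subgroup.centralizer (R : Set G) := (mcl_pair hR hQ).1.symm
      _ ≤ Subgroup.normalizer (Q : Set G) :=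
        sup_le (le_trans inf_le_right Subgroup.le_normalizer) hWn

theorem cl_sup_thompson {Q : Subgroup G} (hQ : Cfsg.IsCentrallyLarge Q) :
    Cfsg.IsCentrallyLarge (Q ⊔ Cfsg.thompsonSubgroupA G) := by
  classical
  let 𝒯 : Set (Subgroup G) :=
    {X | Cfsg.IsCentrallyLarge X ∧ Q ≤ X ∧ X ≤ Q ⊔ Cfsg.thompsonSubgroupA G}
  have hne : 𝒯.Nonempty := ⟨Q, hQ, le_rfl, le_sup_left⟩
  obtain ⟨X0, hX0, hmax⟩ := Set.exists_max_image 𝒯 (fun X => Nat.card ↥X) (Set.toFinite 𝒯) hne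
  obtain ⟨h1, h2, h3⟩ := hX0
  have hA : ∀ A ∈ Cfsg.maxAbelianSubgroups G, A ≤ X0 := by
    intro A hA
    have hcl := (cl_maxAbelian h1 hA).2.1
    have hAJ : A ≤ Cfsg.thompsonSubgroupA G := le_sSup hA
    have hle : X0 ⊔ A ≤ Q ⊔ Cfsg.thompsonSubgroupA G := sup_le h3 (le_trans hAJ le_sup_right)
    have h5 := hmax (X0 ⊔ A) ⟨hcl, le_trans h2 le_sup_left, hle⟩
    have heq : X0 = X0 ⊔ A := Subgroup.eq_of_le_of_card_ge le_sup_left h5
    intro x hx
    rw [heq]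
    exact (le_sup_right : A ≤ X0 ⊔ A) hx
  have hJ : Cfsg.thompsonSubgroupA G ≤ X0 := sSup_le hA
  have h6 : X0 = Q ⊔ Cfsg.thompsonSubgroupA G := le_antisymm h3 (sup_le h2 hJ)
  rw [← h6]; exact h1

theorem conj_i {Q : Subgroup G} (hQ : Cfsg.IsCentrallyLarge Q) :
    Subgroup.centralizer ((Cfsg.thompsonSubgroupA G ⊓
      Subgroup.centralizer (Cfsg.thompsonSubgroupA G : Set G) : Subgroup G) : Set G) ≤
      Q ⊔ Cfsg.thompsonSubgroupA G := by
  have hCL := cl_sup_thompson hQ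
  obtain ⟨A, hA⟩ := exists_mem_maxAbelian (G := G)
  have hAJ : A ≤ Cfsg.thompsonSubgroupA G := le_sSup hA
  have h1 : Subgroup.centralizer ((Q ⊔ Cfsg.thompsonSubgroupA G : Subgroup G) : Set G) ≤ A :=
    le_trans (Subgroup.centralizer_le (SetLike.coe_subset_coe.mpr (le_trans hAJ le_sup_right)))
      (centralizer_le_of_mem_maxAbelian hA)
  have h2 : Subgroup.centralizer ((Q ⊔ Cfsg.thompsonSubgroupA G : Subgroup G) : Set G) ≤
      Cfsg.thompsonSubgroupA G := le_trans h1 hAJ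
  have h3 : Subgroup.centralizer ((Q ⊔ Cfsg.thompsonSubgroupA G : Subgroup G) : Set G) ≤
      Subgroup.centralizer (Cfsg.thompsonSubgroupA G : Set G) :=
    Subgroup.centralizer_le (SetLike.coe_subset_coe.mpr le_sup_right)
  have h4 := (cd_centralizer (IsCentrallyLarge.isCentralizerLarge hCL)).2
  have h5 := Subgroup.centralizer_le (SetLike.coe_subset_coe.mpr (le_inf h2 h3))
  rw [← h4] at h5
  exact h5

theorem conj_iii (hJ : Cfsg.thompsonSubgroupA G = ⊤)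
    (hA : ∀ A ∈ Cfsg.maxAbelianSubgroups G,
      Nat.card ↥A ^ 2 = Nat.card G * Nat.card ↥(Subgroup.center G))
    (Q : Subgroup G) (hQ : Cfsg.IsMinimalCentrallyLarge Q) : IsMulCommutative ↥Q := by
  obtain ⟨Q0, hQ0⟩ := exists_isCentrallyLarge (G := G)
  have hTop : Cfsg.IsCentrallyLarge (⊤ : Subgroup G) := by
    have h := cl_sup_thompson hQ0
    rw [hJ, sup_top_eq] at h
    exact h
  obtain ⟨A, hAm⟩ := exists_mem_maxAbelian (G := G)
  have hAc : A ≤ Subgroup.centralizer (A : Set G) :=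
    Subgroup.le_centralizer_iff_isMulCommutative.mpr hAm.1
  have hAself := centralizer_le_of_mem_maxAbelian hAm
  have hAeq : Subgroup.centralizer (A : Set G) = A := le_antisymm hAself hAc
  have hM := (isCentrallyLarge_iff.mp hTop).1
  unfold Cfsg.IsCentralizerLarge at hM
  have hcen : Subgroup.centralizer ((⊤ : Subgroup G) : Set G) = Subgroup.center G := by
    rw [Subgroup.coe_top, Subgroup.centralizer_univ]
  rw [hcen, Subgroup.card_top] at hM
  have hAL : Cfsg.IsCentrallyLarge A := by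
    apply isCentrallyLarge_iff.mpr
    refine ⟨?_, hAself⟩
    unfold Cfsg.IsCentralizerLarge
    rw [hAeq, ← hM, ← hA A hAm, pow_two]
  obtain ⟨R, hRA, hR⟩ := exists_isMinimalCentrallyLarge_le hAL
  have hRab : IsMulCommutative ↥R :=
    Subgroup.le_centralizer_iff_isMulCommutative.mp
      (le_trans hRA (le_trans hAc (Subgroup.centralizer_le (SetLike.coe_subset_coe.mpr hRA))))
  exact ((mcl_abelian hR hRab Q).mp hQ).1

theorem conj_iv (h : ∀ Q : Subgroup G, Cfsg.IsMinimalCentrallyLarge Q → IsMulCommutative ↥Q) :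
    Subgroup.centralizer ((Cfsg.thompsonSubgroupA G ⊓
      Subgroup.centralizer (Cfsg.thompsonSubgroupA G : Set G) : Subgroup G) : Set G) =
      Cfsg.thompsonSubgroupA G := by
  obtain ⟨Q0, hQ0⟩ := exists_isCentrallyLarge (G := G)
  obtain ⟨R, -, hR⟩ := exists_isMinimalCentrallyLarge_le hQ0
  have hab := h R hR
  have hset : {X : Subgroup G | Cfsg.IsMinimalCentrallyLarge X} = Cfsg.maxAbelianSubgroups G := by
    ext X; exact mcl_abelian hR hab X
  have hJeq : Cfsg.minimalCentrallyLargeJoin G = Cfsg.thompsonSubgroupA G := by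
    unfold Cfsg.minimalCentrallyLargeJoin Cfsg.thompsonSubgroupA
    rw [hset]
  have hCL : Cfsg.IsCentrallyLarge (Cfsg.thompsonSubgroupA G) := by
    rw [← hJeq]; exact isCentrallyLarge_minimalCentrallyLargeJoin
  obtain ⟨j1, j2⟩ := isCentrallyLarge_iff.mp hCL
  rw [inf_eq_right.mpr j2]
  exact ((cd_centralizer j1).2).symm

end Final

end Cfsg.Agent.Helper29.CLNorm
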