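import Mathlib
import Cfsg.Prelude.Def_Sporadic_a
import Cfsg.Agent.Helper29.S3622A
import Cfsg.Agent.S0410
import Cfsg.Agent.S0363
import Cfsg.Agent.S0369
import Cfsg.Agent.S0378
import Cfsg.Agent.S0379

set_option autoImplicit false

/-! The concrete S(3,6,22) cut out of the Golay octads through two points, with the two-point
stabiliser of M24 acting on it; transport to any S(3,6,22). -/

namespace Cfsg.Agent.Helper29.M22Conc

open Cfsg Cfsg.Agent.Helper29.S3622U

/-- the 22 points other than the two base points -/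
abbrev X0 : Type := {x : GolayPt // x ≠ none ∧ x ≠ some 0}

/-- the hexads: octads through both base points, with them removed -/
def B0 : Set (Finset X0) :=
  {c' | ∃ c ∈ Cfsg.octads, (none : GolayPt) ∈ c ∧ (some 0 : GolayPt) ∈ c ∧
    c' = c.subtype (fun x => x ≠ none ∧ x ≠ some 0)}

theorem card_X0 : Fintype.card X0 = 22 := by decide

theorem B0_steiner : Cfsg.IsSteinerSystem 3 6 B0 := by
  have hO := Cfsg.Agent.S0363.result
  constructor
  · rintro c' ⟨c, hc, h1, h2, rfl⟩
    rw [Finset.card_subtype]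
    have e : c.filter (fun x => x ≠ none ∧ x ≠ some 0) = (c.erase none).erase (some 0) := by
      ext x
      simp only [Finset.mem_filter, Finset.mem_erase]
      tauto
    rw [e, Finset.card_erase_of_mem (Finset.mem_erase.2 ⟨by decide, h2⟩),
      Finset.card_erase_of_mem h1, hO.1 c hc]
  · intro T hT
    have hn2 : (some 0 : GolayPt) ∉ T.map (Function.Embedding.subtype _) := by
      rw [Finset.mem_map]
      rintro ⟨x, _, hx⟩
      exact x.2.2 hx
    have hn1 : (none : GolayPt) ∉
        insert (some 0 : GolayPt) (T.map (Function.Embedding.subtype _)) := by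
      rw [Finset.mem_insert, Finset.mem_map]
      rintro (h | ⟨x, _, hx⟩)
      · exact absurd h (by decide)
      · exact x.2.1 hx
    have hc5 : (insert (none : GolayPt)
        (insert (some 0 : GolayPt) (T.map (Function.Embedding.subtype _)))).card = 5 := by
      rw [Finset.card_insert_of_notMem hn1, Finset.card_insert_of_notMem hn2, Finset.card_map,
        hT]
    obtain ⟨c, ⟨hc, hsub⟩, huniq⟩ := hO.2 _ hc5
    have hp : (none : GolayPt) ∈ c := hsub (Finset.mem_insert_self _ _)
    have hq : (some 0 : GolayPt) ∈ c :=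
      hsub (Finset.mem_insert_of_mem (Finset.mem_insert_self _ _))
    refine ⟨c.subtype _, ⟨⟨c, hc, hp, hq, rfl⟩, ?_⟩, ?_⟩
    · intro x hx
      rw [Finset.mem_subtype]
      apply hsub
      apply Finset.mem_insert_of_mem
      apply Finset.mem_insert_of_mem
      exact Finset.mem_map_of_mem _ hx
    · rintro c'' ⟨⟨d, hd, hdp, hdq, rfl⟩, hTd⟩
      have hdc : d = c := by
        apply huniq
        refine ⟨hd, ?_⟩
        intro x hx
        rw [Finset.mem_insert, Finset.mem_insert, Finset.mem_map] at hx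
        rcases hx with rfl | rfl | ⟨y, hy, rfl⟩
        · exact hdp
        · exact hdq
        · exact Finset.mem_subtype.1 (hTd hy)
      rw [hdc]

/-- restriction of a permutation fixing the two base points -/
def res (g : Equiv.Perm GolayPt) (h1 : g none = none) (h2 : g (some 0) = some 0) :
    Equiv.Perm X0 :=
  g.subtypePerm (fun x => by
    constructor
    · rintro ⟨a, b⟩
      exact ⟨fun e => a (by rw [e, h1]), fun e => b (by rw [e, h2])⟩
    · rintro ⟨a, b⟩
      exact ⟨fun e => a (g.injective (e.trans h1.symm)),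
        fun e => b (g.injective (e.trans h2.symm))⟩)

theorem res_apply (g : Equiv.Perm GolayPt) (h1 : g none = none) (h2 : g (some 0) = some 0)
    (x : X0) : (res g h1 h2 x : GolayPt) = g x := rfl

theorem res_blocks (g : Equiv.Perm GolayPt) (hg : g ∈ Cfsg.M24) (h1 : g none = none)
    (h2 : g (some 0) = some 0) {c' : Finset X0} (hc' : c' ∈ B0) :
    c'.image (res g h1 h2) ∈ B0 := by
  obtain ⟨c, hc, hp, hq, rfl⟩ := hc'
  rw [Cfsg.Agent.S0369.result] at hg
  refine ⟨c.image g, aut_image hg hc, ?_, ?_, ?_⟩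
  · exact Finset.mem_image.2 ⟨none, hp, h1⟩
  · exact Finset.mem_image.2 ⟨some 0, hq, h2⟩
  · ext y
    simp only [Finset.mem_image, Finset.mem_subtype]
    constructor
    · rintro ⟨x, hx, rfl⟩
      exact ⟨x.1, hx, rfl⟩
    · rintro ⟨x, hx, hxy⟩
      have hxP : x ≠ none ∧ x ≠ some 0 :=
        ⟨fun e => y.2.1 (by rw [← hxy, e, h1]), fun e => y.2.2 (by rw [← hxy, e, h2])⟩
      exact ⟨⟨x, hxP⟩, hx, Subtype.ext hxy⟩

/-- any S(3,6,22) has a simple group of automorphisms of order 443520 -/
theorem exists_M22 {α : Type*} [Fintype α] [DecidableEq α] (hα : Fintype.card α = 22)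
    {B : Set (Finset α)} (hB : Cfsg.IsSteinerSystem 3 6 B) :
    ∃ H : Subgroup (Cfsg.setSystemAut B), Nat.card H = 443520 ∧ IsSimpleGroup H := by
  obtain ⟨e, he⟩ := Cfsg.Agent.S0410.result card_X0 hα B0_steiner hB
  have fix1 : ∀ g : ↥(MulAction.stabilizer Cfsg.M24 (none : GolayPt) ⊓
      MulAction.stabilizer Cfsg.M24 (some 0 : GolayPt)),
      (g.1.1 : Equiv.Perm GolayPt) none = none := fun g => (Subgroup.mem_inf.1 g.2).1
  have fix2 : ∀ g : ↥(MulAction.stabilizer Cfsg.M24 (none : GolayPt) ⊓
      MulAction.stabilizer Cfsg.M24 (some 0 : GolayPt)),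
      (g.1.1 : Equiv.Perm GolayPt) (some 0) = some 0 := fun g => (Subgroup.mem_inf.1 g.2).2
  have hψ0 : ∀ g : ↥(MulAction.stabilizer Cfsg.M24 (none : GolayPt) ⊓
      MulAction.stabilizer Cfsg.M24 (some 0 : GolayPt)),
      e.permCongr (res g.1.1 (fix1 g) (fix2 g)) ∈ Cfsg.setSystemAut B := by
    intro g
    apply mem_aut
    intro c hc
    rw [← he] at hc
    obtain ⟨c', hc', rfl⟩ := hc
    rw [← he]
    refine ⟨c'.image (res g.1.1 (fix1 g) (fix2 g)), res_blocks _ g.1.2 _ _ hc', ?_⟩
    simp only [Finset.image_image]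
    apply Finset.image_congr
    intro x _
    simp [Equiv.permCongr_apply]
  let ψ : ↥(MulAction.stabilizer Cfsg.M24 (none : GolayPt) ⊓
      MulAction.stabilizer Cfsg.M24 (some 0 : GolayPt)) →* ↥(Cfsg.setSystemAut B) :=
    MonoidHom.mk' (fun g => ⟨e.permCongr (res g.1.1 (fix1 g) (fix2 g)), hψ0 g⟩) (by
      intro g h
      apply Subtype.ext
      ext x
      show e (res (g * h).1.1 (fix1 (g * h)) (fix2 (g * h)) (e.symm x))
        = e (res g.1.1 (fix1 g) (fix2 g) (e.symm (e (res h.1.1 (fix1 h) (fix2 h) (e.symm x)))))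
      rw [Equiv.symm_apply_apply]
      rfl)
  have hinj : Function.Injective ψ := by
    intro g h hgh
    have h0 : ∀ x : α, e (res g.1.1 (fix1 g) (fix2 g) (e.symm x))
        = e (res h.1.1 (fix1 h) (fix2 h) (e.symm x)) :=
      fun x => congrArg (fun k : ↥(Cfsg.setSystemAut B) => (k : Equiv.Perm α) x) hgh
    have h1 : ∀ y : X0, (g.1.1 : Equiv.Perm GolayPt) y = h.1.1 y := by
      intro y
      have h2 := h0 (e y)
      rw [Equiv.symm_apply_apply] at h2
      exact congrArg Subtype.val (e.injective h2)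
    apply Subtype.ext
    apply Subtype.ext
    apply Equiv.ext
    intro x
    by_cases hx1 : x = none
    · rw [hx1, fix1 g, fix1 h]
    · by_cases hx2 : x = some 0
      · rw [hx2, fix2 g, fix2 h]
      · exact h1 ⟨x, hx1, hx2⟩
  have eqv := MonoidHom.ofInjective hinj
  refine ⟨ψ.range, ?_, ?_⟩
  · rw [← Nat.card_congr eqv.toEquiv]
    exact Cfsg.Agent.S0378.result none (some 0) (by decide)
  · have := Cfsg.Agent.S0379.result none (some 0) (by decide)
    exact (MulEquiv.isSimpleGroup_congr eqv).1 inferInstance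

end Cfsg.Agent.Helper29.M22Conc
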