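import Mathlib
import Cfsg.Agent.Helper19.Nilpotent

/-!
Helper29: the group of order 162 with a normal elementary abelian subgroup of order 27,
`|Z(S)| = 3` centralised by a Sylow 2-subgroup `T` which does not centralise `S`,
is the centraliser in `S_9` of an element of cycle type `3^3` (statement S3376).

Strategy: find a subgroup `H` of order 18 with `H ∩ Z(S) = 1` (then `H` is core-free and the
central element of order 3 acts without fixed points on the nine cosets of `H`).
-/

set_option autoImplicit false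

namespace Cfsg.Agent.Helper29.Ord162

theorem aux_compl {M : Type*} [AddCommGroup M] (p : ℕ) [Fact p.Prime] [Module (ZMod p) M] :
    ComplementedLattice (AddSubgroup M) :=
  (AddSubgroup.toZModSubmodule p (M := M)).symm.complementedLattice

theorem exists_compl {A : Type*} [CommGroup A] (p : ℕ) [Fact p.Prime] (hexp : ∀ a : A, a ^ p = 1)
    (B : Subgroup A) : ∃ W : Subgroup A, IsCompl B W := by
  have hexp' : ∀ x : Additive A, p • x = 0 := fun x => congrArg Additive.ofMul (hexp x.toMul)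
  have h1 : ComplementedLattice (AddSubgroup (Additive A)) :=
    @aux_compl (Additive A) _ p _ (AddCommGroup.zmodModule hexp')
  have h2 : ComplementedLattice (Subgroup A) :=
    (Subgroup.toAddSubgroup (G := A)).symm.complementedLattice
  exact exists_isCompl B

/-- complement of `Z` inside an abelian subgroup `J` of exponent 3. -/
theorem compl_in_sub {G : Type*} [Group G] (J Z : Subgroup G)
    (hc : ∀ a ∈ J, ∀ b ∈ J, a * b = b * a) (hexp : ∀ a ∈ J, a ^ 3 = 1) :
    ∃ W : Subgroup G, W ≤ J ∧ W ⊓ Z = ⊥ ∧ ∀ j ∈ J, ∃ w ∈ W, ∃ z ∈ Z, j = w * z := by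
  let inst : CommGroup J := { (inferInstance : Group J) with
    mul_comm := fun a b => Subtype.ext (hc a a.2 b b.2) }
  obtain ⟨W, hW⟩ := @exists_compl J inst 3 _ (fun a => Subtype.ext (hexp a a.2)) (Z.subgroupOf J)
  refine ⟨W.map J.subtype, ?_, ?_, ?_⟩
  · intro g hg
    obtain ⟨w, -, rfl⟩ := Subgroup.mem_map.mp hg
    exact w.2
  · rw [eq_bot_iff]
    rintro g ⟨hg1, hg2⟩
    obtain ⟨w, hw, rfl⟩ := Subgroup.mem_map.mp hg1
    have h1 : w ∈ Z.subgroupOf J ⊓ W := ⟨Subgroup.mem_subgroupOf.mpr hg2, hw⟩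
    rw [hW.inf_eq_bot] at h1
    have h2 : w = 1 := h1
    rw [h2]; exact Subgroup.one_mem _
  · intro j hj
    have h1 : (⟨j, hj⟩ : J) ∈ Z.subgroupOf J ⊔ W := by rw [hW.sup_eq_top]; trivial
    obtain ⟨a, ha, b, hb, hab⟩ := (@Subgroup.mem_sup J inst _ _ _).mp h1
    refine ⟨b, Subgroup.mem_map_of_mem _ hb, a, Subgroup.mem_subgroupOf.mp ha, ?_⟩
    have h2 : (a : G) * (b : G) = j := congrArg Subtype.val hab
    rw [← h2]; exact hc a a.2 b b.2

abbrev sig : Equiv.Perm (Fin 9) :=
  Equiv.swap (0 : Fin 9) 1 * Equiv.swap 1 2 * Equiv.swap 3 4 * Equiv.swap 4 5 * Equiv.swap 6 7 *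
    Equiv.swap 7 8

theorem sig_pow : sig ^ 3 = 1 := by decide

theorem sig_fix : ∀ i, sig i ≠ i := by decide

theorem ct_of {σ : Equiv.Perm (Fin 9)} (h3 : σ ^ 3 = 1) (hfix : ∀ i, σ i ≠ i) :
    σ.cycleType = Multiset.replicate 3 3 := by
  have hne : σ ≠ 1 := by
    intro h; exact hfix 0 (by rw [h]; rfl)
  have hord : orderOf σ = 3 := orderOf_eq_prime h3 hne
  obtain ⟨n, hn⟩ := Equiv.Perm.cycleType_prime_order (σ := σ) (by rw [hord]; exact Nat.prime_three)
  rw [hord] at hn
  have hsum := Equiv.Perm.sum_cycleType σ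
  have hsupp : σ.support = Finset.univ := by
    ext i; simp [hfix i]
  rw [hsupp, hn, Multiset.sum_replicate] at hsum
  simp at hsum
  have : n = 2 := by omega
  rw [hn, this]

theorem card_cent {σ : Equiv.Perm (Fin 9)} (h : σ.cycleType = Multiset.replicate 3 3) :
    Nat.card (Subgroup.centralizer ({σ} : Set (Equiv.Perm (Fin 9)))) = 162 := by
  rw [Equiv.Perm.nat_card_centralizer, h]
  simp
  decide

section main

variable {G : Type*} [Group G] [Finite G]

theorem card_sylow3 (hG : Nat.card G = 162) (S : Sylow 3 G) : Nat.card (S : Subgroup G) = 81 := by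
  obtain ⟨k, hk⟩ := IsPGroup.iff_card.mp S.2
  have hmul := (S : Subgroup G).card_mul_index
  have hnd := S.not_dvd_index
  rw [hG, hk] at hmul
  have hk5 : k < 5 := by
    by_contra hcon
    have h1 : 3 ^ 5 ≤ 3 ^ k := Nat.pow_le_pow_right (by norm_num) (by omega)
    have h2 : 3 ^ k ∣ 162 := Dvd.intro _ hmul
    have h3 := Nat.le_of_dvd (by norm_num) h2
    omega
  rw [hk]
  interval_cases k <;> norm_num at hmul ⊢ <;> omega

theorem card_sylow2 (hG : Nat.card G = 162) (T : Sylow 2 G) : Nat.card (T : Subgroup G) = 2 := by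
  obtain ⟨k, hk⟩ := IsPGroup.iff_card.mp T.2
  have hmul := (T : Subgroup G).card_mul_index
  have hnd := T.not_dvd_index
  rw [hG, hk] at hmul
  have hk5 : k < 8 := by
    by_contra hcon
    have h1 : 2 ^ 8 ≤ 2 ^ k := Nat.pow_le_pow_right (by norm_num) (by omega)
    have h2 : 2 ^ k ∣ 162 := Dvd.intro _ hmul
    have h3 := Nat.le_of_dvd (by norm_num) h2
    omega
  rw [hk]
  interval_cases k <;> norm_num at hmul ⊢ <;> omega

theorem iso_of_H (hG : Nat.card G = 162) (H : Subgroup G) (z : G) (hidx : H.index = 9)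
    (hcore : H.normalCore = ⊥) (hzH : z ∉ H) (hz3 : z ^ 3 = 1) (hzc : ∀ g : G, g * z = z * g) :
    Nonempty (G ≃* Subgroup.centralizer ({sig} : Set (Equiv.Perm (Fin 9)))) := by
  classical
  have hcard9 : Nat.card (G ⧸ H) = 9 := by rw [← Subgroup.index_eq_card]; exact hidx
  let e₀ : (G ⧸ H) ≃ Fin 9 := Finite.equivFinOfCardEq hcard9
  let Φ : G →* Equiv.Perm (Fin 9) :=
    (e₀.permCongrHom).toMonoidHom.comp (MulAction.toPermHom G (G ⧸ H))
  have hΦ : ∀ g i, Φ g i = e₀ (g • e₀.symm i) := fun g i => rfl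
  have hinj0 : Function.Injective (MulAction.toPermHom G (G ⧸ H)) := by
    rw [← MonoidHom.ker_eq_bot_iff, ← Subgroup.normalCore_eq_ker]; exact hcore
  have hΦinj : Function.Injective Φ := by
    show Function.Injective ((e₀.permCongrHom).toMonoidHom.comp (MulAction.toPermHom G (G ⧸ H)))
    rw [MonoidHom.coe_comp]
    exact (e₀.permCongrHom).injective.comp hinj0
  have hzfix : ∀ i, Φ z i ≠ i := by
    intro i hi
    rw [hΦ] at hi
    have hq : z • (e₀.symm i) = e₀.symm i := by
      apply e₀.injective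
      rw [hi]; simp
    obtain ⟨g, hg⟩ := QuotientGroup.mk_surjective (e₀.symm i)
    rw [← hg] at hq
    rw [MulAction.Quotient.smul_mk, QuotientGroup.eq] at hq
    have h1 : (z * g)⁻¹ * g = z⁻¹ := by rw [← hzc g]; group
    rw [smul_eq_mul, h1] at hq
    exact hzH (by simpa using H.inv_mem hq)
  have hΦz3 : Φ z ^ 3 = 1 := by rw [← map_pow, hz3, map_one]
  have hct : (Φ z).cycleType = sig.cycleType := by
    rw [ct_of hΦz3 hzfix, ct_of sig_pow sig_fix]
  obtain ⟨c, hc⟩ := isConj_iff.mp (Equiv.Perm.isConj_iff_cycleType_eq.mpr hct)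
  let Ψ : G →* Equiv.Perm (Fin 9) := (MulAut.conj c).toMonoidHom.comp Φ
  have hΨ : ∀ g, Ψ g = c * Φ g * c⁻¹ := fun g => rfl
  have hΨinj : Function.Injective Ψ := by
    show Function.Injective ((MulAut.conj c).toMonoidHom.comp Φ)
    rw [MonoidHom.coe_comp]
    exact (MulAut.conj c).injective.comp hΦinj
  have hΨz : Ψ z = sig := by rw [hΨ]; exact hc
  have hmem : ∀ g, Ψ g ∈ Subgroup.centralizer ({sig} : Set (Equiv.Perm (Fin 9))) := by
    intro g
    rw [Subgroup.mem_centralizer_singleton_iff, ← hΨz, ← map_mul, ← map_mul, hzc g]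
  let Ψ' : G →* Subgroup.centralizer ({sig} : Set (Equiv.Perm (Fin 9))) := Ψ.codRestrict _ hmem
  have hΨ'inj : Function.Injective Ψ' := fun a b h => hΨinj (congrArg Subtype.val h)
  have hbij : Function.Bijective Ψ' :=
    (Nat.bijective_iff_injective_and_card Ψ').mpr
      ⟨hΨ'inj, by rw [hG, card_cent (ct_of sig_pow sig_fix)]⟩
  exact ⟨MulEquiv.ofBijective Ψ' hbij⟩

theorem exists_H (hG : Nat.card G = 162)
    (S : Sylow 3 G) (T : Sylow 2 G) (J : Subgroup G) [hJn : J.Normal] (hJcomm : IsMulCommutative J)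
    (hJexp : ∀ a ∈ J, a ^ 3 = 1) (hJcard : Nat.card J = 27)
    (Z : Subgroup G) (hZ : Z = (S : Subgroup G) ⊓ Subgroup.centralizer ((S : Subgroup G) : Set G))
    (hZcard : Nat.card Z = 3)
    (hZT : Z ≤ Subgroup.centralizer ((T : Subgroup G) : Set G))
    (hST : (S : Subgroup G) ⊓ Subgroup.centralizer ((T : Subgroup G) : Set G) ≠ S) :
    ∃ (H : Subgroup G) (z : G), H.index = 9 ∧ H.normalCore = ⊥ ∧ z ∉ H ∧ z ^ 3 = 1 ∧
      ∀ g : G, g * z = z * g := by
  classical
  have hS81 := card_sylow3 hG S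
  have hT2 := card_sylow2 hG T
  have hSidx : (S : Subgroup G).index = 2 := by
    have := (S : Subgroup G).card_mul_index
    rw [hG, hS81] at this; omega
  haveI hSn : (S : Subgroup G).Normal := Subgroup.normal_of_index_eq_two hSidx
  have hJc : ∀ a ∈ J, ∀ b ∈ J, a * b = b * a := by
    intro a ha b hb
    have := hJcomm.is_comm.comm (⟨a, ha⟩ : J) ⟨b, hb⟩
    exact congrArg Subtype.val this
  have hS_odd : ∀ g ∈ (S : Subgroup G), g ^ 2 = 1 → g = 1 := by
    intro g hg h2
    have h81 : g ^ 81 = 1 := by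
      have := pow_card_eq_one' (G := (S : Subgroup G)) (x := ⟨g, hg⟩)
      rw [hS81] at this
      exact congrArg Subtype.val this
    have h80 : g ^ 80 = 1 := by
      have : g ^ 80 = (g ^ 2) ^ 40 := by rw [← pow_mul]
      rw [this, h2, one_pow]
    calc g = g ^ 81 * (g ^ 80)⁻¹ := by group
      _ = 1 := by rw [h81, h80]; simp
  have hq2 : ∀ g : G, ((g : G ⧸ (S : Subgroup G))) ^ 2 = 1 := by
    intro g
    have := pow_card_eq_one' (G := G ⧸ (S : Subgroup G)) (x := (g : G ⧸ (S : Subgroup G)))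
    rwa [← Subgroup.index_eq_card, hSidx] at this
  have hcube : ∀ g : G, g ^ 3 = 1 → g ∈ (S : Subgroup G) := by
    intro g h3
    have h3' : ((g : G ⧸ (S : Subgroup G))) ^ 3 = 1 := by
      rw [← QuotientGroup.mk_pow, h3]; rfl
    have h1 : ((g : G ⧸ (S : Subgroup G))) = 1 := by
      calc (g : G ⧸ (S : Subgroup G))
          = (g : G ⧸ (S : Subgroup G)) ^ 3 * (((g : G ⧸ (S : Subgroup G))) ^ 2)⁻¹ := by group
        _ = 1 := by rw [h3', hq2 g]; simp
    exact (QuotientGroup.eq_one_iff g).mp h1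
  have hsq : ∀ g : G, g ^ 2 ∈ (S : Subgroup G) := by
    intro g
    rw [← QuotientGroup.eq_one_iff, QuotientGroup.mk_pow]; exact hq2 g
  have hJS : J ≤ S := fun j hj => hcube j (hJexp j hj)
  have hZS : Z ≤ S := by rw [hZ]; exact inf_le_left
  have hZc : ∀ z ∈ Z, ∀ s ∈ (S : Subgroup G), s * z = z * s := by
    intro z hz s hs
    rw [hZ] at hz
    exact Subgroup.mem_centralizer_iff.mp hz.2 s hs
  have hZJ : Z ≤ J := by
    by_contra hcon
    have hbot : Z ⊓ J = ⊥ := by
      have hdvd : Nat.card (Z ⊓ J : Subgroup G) ∣ 3 := by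
        rw [← hZcard]; exact Subgroup.card_dvd_of_le inf_le_left
      rcases (Nat.dvd_prime Nat.prime_three).mp hdvd with h1 | h3
      · exact Subgroup.card_eq_one.mp h1
      · exfalso; apply hcon
        have h4 : Z ⊓ J = Z := Subgroup.eq_of_le_of_card_ge inf_le_left (by rw [h3, hZcard])
        rw [← h4]; exact inf_le_right
    have h1 : J.relIndex (Z ⊔ J) = 3 := by
      rw [Subgroup.relIndex_sup_right, ← Subgroup.inf_relIndex_right, inf_comm, hbot,
        Subgroup.relIndex_bot_left, hZcard]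
    have h3 : Nat.card (Z ⊔ J : Subgroup G) = 81 := by
      have := Subgroup.relIndex_mul_relIndex (⊥ : Subgroup G) J (Z ⊔ J) bot_le le_sup_right
      rw [Subgroup.relIndex_bot_left, Subgroup.relIndex_bot_left, h1, hJcard] at this
      omega
    have h4 : Z ⊔ J = S := Subgroup.eq_of_le_of_card_ge (sup_le hZS hJS) (by rw [h3, hS81])
    have key : ∀ j ∈ J, ∀ b ∈ (S : Subgroup G), j * b = b * j := by
      intro j hj b hb
      have hle : Z ⊔ J ≤ Subgroup.centralizer {j} := by
        apply sup_le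
        · intro z hz
          rw [Subgroup.mem_centralizer_singleton_iff]
          exact (hZc z hz j (hJS hj)).symm
        · intro j' hj'
          rw [Subgroup.mem_centralizer_singleton_iff]
          exact hJc j' hj' j hj
      rw [h4] at hle
      have := hle hb
      rw [Subgroup.mem_centralizer_singleton_iff] at this
      exact this.symm
    have h5 : ∀ a ∈ (S : Subgroup G), ∀ b ∈ (S : Subgroup G), a * b = b * a := by
      intro a ha b hb
      have hle : Z ⊔ J ≤ Subgroup.centralizer {b} := by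
        apply sup_le
        · intro z hz
          rw [Subgroup.mem_centralizer_singleton_iff]
          exact (hZc z hz b hb).symm
        · intro j hj
          rw [Subgroup.mem_centralizer_singleton_iff]
          exact key j hj b hb
      rw [h4] at hle
      have := hle ha
      rw [Subgroup.mem_centralizer_singleton_iff] at this
      exact this
    have h6 : (S : Subgroup G) ≤ Z := by
      rw [hZ]; intro s hs
      exact ⟨hs, Subgroup.mem_centralizer_iff.mpr (fun h hh => h5 h hh s hs)⟩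
    have := Subgroup.card_le_of_le h6
    rw [hS81, hZcard] at this; omega
  have hT_sq : ∀ x ∈ (T : Subgroup G), x ^ 2 = 1 := by
    intro x hx
    have := pow_card_eq_one' (G := (T : Subgroup G)) (x := ⟨x, hx⟩)
    rw [hT2] at this
    exact congrArg Subtype.val this
  obtain ⟨t, htT, ht1⟩ : ∃ t ∈ (T : Subgroup G), t ≠ 1 := by
    by_contra hcon
    push Not at hcon
    have : (T : Subgroup G) = ⊥ := (Subgroup.eq_bot_iff_forall _).mpr hcon
    rw [this] at hT2
    simp at hT2
  have ht2 : t ^ 2 = 1 := hT_sq t htT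
  have htS : t ∉ (S : Subgroup G) := fun h => ht1 (hS_odd t h ht2)
  have htt : t * t = 1 := by rw [← pow_two]; exact ht2
  have hdich : ∀ g : G, g ∈ (S : Subgroup G) ∨ g * t ∈ (S : Subgroup G) := by
    intro g
    by_cases hg : g ∈ (S : Subgroup G)
    · exact Or.inl hg
    · right
      rw [Subgroup.mul_mem_iff_of_index_two hSidx]
      exact ⟨fun h => absurd h hg, fun h => absurd h htS⟩
  have hTel : ∀ x ∈ (T : Subgroup G), x = 1 ∨ x = t := by
    intro x hx
    rcases hdich x with h | h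
    · left; exact hS_odd x h (hT_sq x hx)
    · right
      have h1 : x * t = 1 := hS_odd _ h (hT_sq _ (mul_mem hx htT))
      have h2 : t * t = 1 := by rw [← pow_two]; exact ht2
      calc x = x * (t * t) := by rw [h2, mul_one]
        _ = (x * t) * t := by group
        _ = t := by rw [h1, one_mul]
  have hZt : ∀ z ∈ Z, t * z = z * t := by
    intro z hz
    exact Subgroup.mem_centralizer_iff.mp (hZT hz) t htT
  obtain ⟨s0, hs0S, hs0⟩ : ∃ s ∈ (S : Subgroup G), s * t ≠ t * s := by
    by_contra hcon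
    push Not at hcon
    apply hST
    apply inf_eq_left.mpr
    intro s hs
    rw [Subgroup.mem_centralizer_iff]
    intro x hx
    rcases hTel x hx with h | h
    · rw [h]; simp
    · rw [h]; exact (hcon s hs).symm
  have hZcent : ∀ z ∈ Z, ∀ g : G, g * z = z * g := by
    intro z hz g
    rcases hdich g with hg | hg
    · exact hZc z hz g hg
    · have h1 := hZc z hz (g * t) hg
      have h2 := hZt z hz
      have h3 : t * z * t⁻¹ = z := by rw [h2]; group
      calc g * z = g * (t * z * t⁻¹) := by rw [h3]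
        _ = ((g * t) * z) * t⁻¹ := by group
        _ = (z * (g * t)) * t⁻¹ := by rw [h1]
        _ = z * g := by group
  have hZ3 : ∀ z ∈ Z, z ^ 3 = 1 := by
    intro z hz
    have := pow_card_eq_one' (G := Z) (x := ⟨z, hz⟩)
    rw [hZcard] at this
    exact congrArg Subtype.val this
  obtain ⟨W, hWJ, hWZ, hWgen⟩ := compl_in_sub J Z hJc hJexp
  have hconjJ : ∀ j ∈ J, t * j * t⁻¹ ∈ J := fun j hj => hJn.conj_mem j hj t
  have htinv : t⁻¹ = t := by
    rw [inv_eq_iff_mul_eq_one, ← pow_two]; exact ht2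
  let U : Subgroup G :=
    { carrier := {j | j ∈ J ∧ j * (t * j * t⁻¹) ∈ W}
      one_mem' := ⟨J.one_mem, by simp⟩
      mul_mem' := by
        rintro a b ⟨ha, ha'⟩ ⟨hb, hb'⟩
        refine ⟨J.mul_mem ha hb, ?_⟩
        have e : a * b * (t * (a * b) * t⁻¹) = (a * (t * a * t⁻¹)) * (b * (t * b * t⁻¹)) := by
          have c1 := hJc b hb (t * a * t⁻¹) (hconjJ a ha)
          calc a * b * (t * (a * b) * t⁻¹) = a * (b * (t * a * t⁻¹)) * (t * b * t⁻¹) := by group
            _ = a * ((t * a * t⁻¹) * b) * (t * b * t⁻¹) := by rw [c1]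
            _ = _ := by group
        show a * b * (t * (a * b) * t⁻¹) ∈ W
        rw [e]; exact W.mul_mem ha' hb'
      inv_mem' := by
        rintro a ⟨ha, ha'⟩
        refine ⟨J.inv_mem ha, ?_⟩
        have e : a⁻¹ * (t * a⁻¹ * t⁻¹) = (a * (t * a * t⁻¹))⁻¹ := by
          have c1 := hJc a ha (t * a * t⁻¹) (hconjJ a ha)
          rw [c1]; group
        show a⁻¹ * (t * a⁻¹ * t⁻¹) ∈ W
        rw [e]; exact W.inv_mem ha' }
  have hUmem : ∀ u, u ∈ U ↔ u ∈ J ∧ u * (t * u * t⁻¹) ∈ W := fun u => Iff.rfl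
  have hUJ : U ≤ J := fun u hu => ((hUmem u).mp hu).1
  have hU2 : ∀ u ∈ U, t⁻¹ * u * t ∈ U := by
    intro u hu
    obtain ⟨huJ, huW⟩ := (hUmem u).mp hu
    have h1 : t⁻¹ * u * t = t * u * t⁻¹ := by rw [htinv]
    rw [h1, hUmem]
    refine ⟨hconjJ u huJ, ?_⟩
    have e : (t * u * t⁻¹) * (t * (t * u * t⁻¹) * t⁻¹) = u * (t * u * t⁻¹) := by
      have c1 := hJc u huJ (t * u * t⁻¹) (hconjJ u huJ)
      have e2 : t * (t * u * t⁻¹) * t⁻¹ = u := by
        have : t * (t * u * t⁻¹) * t⁻¹ = (t * t) * u * (t * t)⁻¹ := by group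
        rw [this, htt]; simp
      rw [e2, c1]
    rw [e]; exact huW
  have hUZ : U ⊓ Z = ⊥ := by
    rw [eq_bot_iff]
    rintro x ⟨hxU, hxZ⟩
    obtain ⟨hxJ, hxW⟩ := (hUmem x).mp hxU
    have h1 : t * x * t⁻¹ = x := by rw [hZt x hxZ]; group
    rw [h1] at hxW
    have h2 : x * x ∈ W ⊓ Z := ⟨hxW, Z.mul_mem hxZ hxZ⟩
    rw [hWZ] at h2
    have h3 : x ^ 2 = 1 := by rw [pow_two]; exact h2
    have : x = 1 := hS_odd x (hZS hxZ) h3
    rw [this]; exact Subgroup.one_mem _
  have hU9 : Nat.card U = 9 := by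
    let f : U × Z → J := fun p => ⟨(p.1 : G) * (p.2 : G), J.mul_mem (hUJ p.1.2) (hZJ p.2.2)⟩
    have hf : Function.Bijective f := by
      constructor
      · rintro ⟨u, z⟩ ⟨u', z'⟩ h
        have h1 : (u : G) * (z : G) = (u' : G) * (z' : G) := congrArg Subtype.val h
        have h2 : (u' : G)⁻¹ * (u : G) = (z' : G) * (z : G)⁻¹ := by
          calc (u' : G)⁻¹ * u = (u' : G)⁻¹ * (u * z) * (z : G)⁻¹ := by group
            _ = (u' : G)⁻¹ * (u' * z') * (z : G)⁻¹ := by rw [h1]
            _ = _ := by group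
        have h3 : (u' : G)⁻¹ * (u : G) ∈ U ⊓ Z :=
          ⟨U.mul_mem (U.inv_mem u'.2) u.2, by rw [h2]; exact Z.mul_mem z'.2 (Z.inv_mem z.2)⟩
        rw [hUZ] at h3
        have h4 : (u' : G)⁻¹ * (u : G) = 1 := h3
        have h5 : (u : G) = u' := by
          calc (u : G) = u' * ((u' : G)⁻¹ * u) := by group
            _ = u' := by rw [h4, mul_one]
        have h6 : (z : G) = z' := by
          rw [h5] at h1; exact mul_left_cancel h1
        exact Prod.ext (Subtype.ext h5) (Subtype.ext h6)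
      · rintro ⟨j, hj⟩
        obtain ⟨w, hw, z₁, hz₁, hν⟩ := hWgen (j * (t * j * t⁻¹)) (J.mul_mem hj (hconjJ j hj))
        have hzz : z₁ * z₁ ∈ Z := Z.mul_mem hz₁ hz₁
        obtain ⟨c, hc⟩ : ∃ c, c = (z₁ * z₁)⁻¹ := ⟨_, rfl⟩
        have hcZ : c ∈ Z := by rw [hc]; exact Z.inv_mem hzz
        have hcc := hZcent c hcZ
        have e1 : t * (j * c) * t⁻¹ = (t * j * t⁻¹) * c := by
          calc t * (j * c) * t⁻¹ = t * j * (c * t⁻¹) := by group
            _ = t * j * (t⁻¹ * c) := by rw [← hcc t⁻¹]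
            _ = _ := by group
        have e2 : j * c * ((t * j * t⁻¹) * c) = (j * (t * j * t⁻¹)) * (c * c) := by
          calc j * c * ((t * j * t⁻¹) * c) = j * (c * (t * j * t⁻¹)) * c := by group
            _ = j * ((t * j * t⁻¹) * c) * c := by rw [← hcc (t * j * t⁻¹)]
            _ = _ := by group
        have e3 : z₁ * (c * c) = 1 := by
          have h3 := hZ3 z₁ hz₁
          have : z₁ * (c * c) = (z₁ ^ 3)⁻¹ := by rw [hc]; group
          rw [this, h3, inv_one]
        have hu : j * c ∈ U := by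
          rw [hUmem]
          refine ⟨J.mul_mem hj (hZJ hcZ), ?_⟩
          rw [e1, e2, hν, mul_assoc, e3, mul_one]
          exact hw
        refine ⟨(⟨j * c, hu⟩, ⟨c⁻¹, Z.inv_mem hcZ⟩), ?_⟩
        apply Subtype.ext
        show j * c * c⁻¹ = j
        group
    have h1 := Nat.card_congr (Equiv.ofBijective f hf)
    rw [Nat.card_prod, hZcard, hJcard] at h1
    omega
  let H : Subgroup G :=
    { carrier := {h | h ∈ U ∨ h * t ∈ U}
      one_mem' := Or.inl U.one_mem
      mul_mem' := by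
        rintro a b (ha | ha) (hb | hb)
        · exact Or.inl (U.mul_mem ha hb)
        · right
          have : a * b * t = a * (b * t) := by group
          show a * b * t ∈ U
          rw [this]; exact U.mul_mem ha hb
        · right
          have : a * b * t = (a * t) * (t⁻¹ * b * t) := by group
          show a * b * t ∈ U
          rw [this]; exact U.mul_mem ha (hU2 b hb)
        · left
          have : a * b = (a * t) * (t⁻¹ * (b * t) * t) * (t * t)⁻¹ := by group
          show a * b ∈ U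
          rw [this, htt, inv_one, mul_one]; exact U.mul_mem ha (hU2 _ hb)
      inv_mem' := by
        rintro a (ha | ha)
        · exact Or.inl (U.inv_mem ha)
        · right
          have : a⁻¹ * t = (t * t) * (t⁻¹ * (a * t)⁻¹ * t) := by group
          show a⁻¹ * t ∈ U
          rw [this, htt, one_mul]; exact hU2 _ (U.inv_mem ha) }
  have hHmem : ∀ h, h ∈ H ↔ h ∈ U ∨ h * t ∈ U := fun h => Iff.rfl
  have hUH : U ≤ H := fun u hu => (hHmem u).mpr (Or.inl hu)
  have htH : t ∈ H := (hHmem t).mpr (Or.inr (by rw [← pow_two, ht2]; exact U.one_mem))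
  have hHZ : H ⊓ Z = ⊥ := by
    rw [eq_bot_iff]
    rintro x ⟨hxH, hxZ⟩
    rcases (hHmem x).mp hxH with h | h
    · have : x ∈ U ⊓ Z := ⟨h, hxZ⟩
      rw [hUZ] at this; exact this
    · exfalso
      have h1 : x * t ∈ (S : Subgroup G) := hJS (hUJ h)
      have h2 : t = x⁻¹ * (x * t) := by group
      apply htS; rw [h2]
      exact Subgroup.mul_mem _ (Subgroup.inv_mem _ (hZS hxZ)) h1
  have hH18 : Nat.card H = 18 := by
    have hsub : (H : Set G) ⊆ (U : Set G) ∪ (fun u => u * t) '' (U : Set G) := by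
      intro h hh
      rcases (hHmem h).mp hh with h1 | h2
      · exact Or.inl h1
      · right
        refine ⟨h * t, h2, ?_⟩
        show h * t * t = h
        rw [mul_assoc, ← pow_two, ht2, mul_one]
    have hle : Nat.card H ≤ 18 := by
      have hU9' : (U : Set G).ncard = 9 := by rw [← Nat.card_coe_set_eq]; exact hU9
      have h1 : Nat.card H = (H : Set G).ncard := by rw [← Nat.card_coe_set_eq]; rfl
      calc Nat.card H = (H : Set G).ncard := h1
        _ ≤ ((U : Set G) ∪ (fun u => u * t) '' (U : Set G)).ncard :=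
            Set.ncard_le_ncard hsub (Set.toFinite _)
        _ ≤ (U : Set G).ncard + ((fun u => u * t) '' (U : Set G)).ncard := Set.ncard_union_le _ _
        _ ≤ (U : Set G).ncard + (U : Set G).ncard :=
            Nat.add_le_add_left (Set.ncard_image_le (Set.toFinite _)) _
        _ = 18 := by rw [hU9']
    have h9 : 9 ∣ Nat.card H := by rw [← hU9]; exact Subgroup.card_dvd_of_le hUH
    have h2 : 2 ∣ Nat.card H := by
      have ho : orderOf t = 2 := orderOf_eq_prime ht2 ht1
      have := Subgroup.card_dvd_of_le ((Subgroup.zpowers_le).mpr htH)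
      rwa [Nat.card_zpowers, ho] at this
    have hpos : 0 < Nat.card H := Nat.card_pos
    omega
  have hHidx : H.index = 9 := by
    have := H.card_mul_index
    rw [hG, hH18] at this; omega
  have hcore : H.normalCore = ⊥ := by
    obtain ⟨N, hN⟩ : ∃ N, N = H.normalCore := ⟨_, rfl⟩
    rw [← hN]
    have hNH : N ≤ H := by rw [hN]; exact Subgroup.normalCore_le H
    haveI hNn : N.Normal := by rw [hN]; exact Subgroup.normalCore_normal H
    have hNZ : N ⊓ Z = ⊥ := by
      rw [eq_bot_iff, ← hHZ]; exact inf_le_inf_right Z hNH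
    have hNS : N ⊓ (S : Subgroup G) = ⊥ := by
      by_contra hne
      haveI h0 : (N ⊓ (S : Subgroup G)).Normal := inferInstance
      haveI hKn : ((N ⊓ (S : Subgroup G)).subgroupOf (S : Subgroup G)).Normal :=
        Subgroup.Normal.subgroupOf h0 _
      haveI : Group.IsNilpotent (S : Subgroup G) := IsPGroup.isNilpotent S.2
      have hK : (N ⊓ (S : Subgroup G)).subgroupOf (S : Subgroup G) ≠ ⊥ := by
        intro h
        rw [Subgroup.subgroupOf_eq_bot] at h
        apply hne
        have := h.eq_bot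
        rwa [inf_assoc, inf_idem] at this
      have h1 := Cfsg.Agent.Helper19.inf_center_ne_bot_of_normal _ hK
      obtain ⟨x, hx, hx1⟩ : ∃ x ∈ ((N ⊓ (S : Subgroup G)).subgroupOf (S : Subgroup G)) ⊓
          Subgroup.center (S : Subgroup G), x ≠ 1 := by
        by_contra hcon
        push Not at hcon
        exact h1 ((Subgroup.eq_bot_iff_forall _).mpr hcon)
      have hxN : (x : G) ∈ N := (Subgroup.mem_subgroupOf.mp hx.1).1
      have hxZ : (x : G) ∈ Z := by
        rw [hZ]
        refine ⟨x.2, Subgroup.mem_centralizer_iff.mpr ?_⟩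
        intro h hh
        have := Subgroup.mem_center_iff.mp hx.2 ⟨h, hh⟩
        exact congrArg Subtype.val this
      have h2 : (x : G) ∈ N ⊓ Z := ⟨hxN, hxZ⟩
      rw [hNZ] at h2
      exact hx1 (Subtype.ext h2)
    by_contra hne
    obtain ⟨n, hnN, hn1⟩ : ∃ n ∈ N, n ≠ 1 := by
      by_contra hcon
      push Not at hcon
      exact hne ((Subgroup.eq_bot_iff_forall _).mpr hcon)
    have hNS' : ∀ x ∈ N, x ∈ (S : Subgroup G) → x = 1 := by
      intro x hxN hxS
      have : x ∈ N ⊓ (S : Subgroup G) := ⟨hxN, hxS⟩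
      rw [hNS] at this; exact this
    have hn2 : n ^ 2 = 1 := hNS' _ (N.pow_mem hnN 2) (hsq n)
    have hnS : n ∉ (S : Subgroup G) := fun h => hn1 (hNS' n hnN h)
    have hncent : ∀ g : G, g * n * g⁻¹ = n := by
      intro g
      have h1 : g * n * g⁻¹ ∈ N := hNn.conj_mem n hnN g
      have h2 : g * n * g⁻¹ ∉ (S : Subgroup G) := by
        intro h
        have h' := hNS' _ h1 h
        apply hn1
        have : n = g⁻¹ * (g * n * g⁻¹) * g := by group
        rw [this, h']; group
      have h3 : (g * n * g⁻¹) * n⁻¹ ∈ (S : Subgroup G) := by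
        rw [Subgroup.mul_mem_iff_of_index_two hSidx]
        exact ⟨fun h => absurd h h2, fun h => absurd ((Subgroup.inv_mem_iff _).mp h) hnS⟩
      have h4 := hNS' _ (N.mul_mem h1 (N.inv_mem hnN)) h3
      exact mul_inv_eq_one.mp h4
    have hnt : n * t ∈ (S : Subgroup G) := (hdich n).resolve_left hnS
    have hnt2 : (n * t) ^ 2 = 1 := by
      have h1 := hncent t
      have : (n * t) ^ 2 = n * (t * n * t⁻¹) * (t * t) := by
        rw [pow_two]; group
      rw [this, h1, htt, mul_one, ← pow_two, hn2]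
    have hnt1 : n * t = 1 := hS_odd _ hnt hnt2
    have htn : t = n⁻¹ := eq_inv_of_mul_eq_one_right hnt1
    apply hs0
    have h1 := hncent s0
    have h2 : s0 * n⁻¹ * s0⁻¹ = n⁻¹ := by
      have : s0 * n⁻¹ * s0⁻¹ = (s0 * n * s0⁻¹)⁻¹ := by group
      rw [this, h1]
    rw [htn]
    calc s0 * n⁻¹ = (s0 * n⁻¹ * s0⁻¹) * s0 := by group
      _ = n⁻¹ * s0 := by rw [h2]
  obtain ⟨z, hzZ, hz1⟩ : ∃ z ∈ Z, z ≠ 1 := by
    by_contra hcon
    push Not at hcon
    have : Z = ⊥ := (Subgroup.eq_bot_iff_forall _).mpr hcon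
    rw [this] at hZcard; simp at hZcard
  refine ⟨H, z, hHidx, hcore, ?_, hZ3 z hzZ, hZcent z hzZ⟩
  intro hzH
  have : z ∈ H ⊓ Z := ⟨hzH, hzZ⟩
  rw [hHZ] at this
  exact hz1 this

theorem main (hG : Nat.card G = 162)
    (S : Sylow 3 G) (T : Sylow 2 G) (J : Subgroup G) [hJn : J.Normal] (hJcomm : IsMulCommutative J)
    (hJexp : ∀ a ∈ J, a ^ 3 = 1) (hJcard : Nat.card J = 27)
    (Z : Subgroup G) (hZ : Z = (S : Subgroup G) ⊓ Subgroup.centralizer ((S : Subgroup G) : Set G))
    (hZcard : Nat.card Z = 3)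
    (hZT : Z ≤ Subgroup.centralizer ((T : Subgroup G) : Set G))
    (hST : (S : Subgroup G) ⊓ Subgroup.centralizer ((T : Subgroup G) : Set G) ≠ S) :
    Nonempty (G ≃* Subgroup.centralizer ({sig} : Set (Equiv.Perm (Fin 9)))) := by
  obtain ⟨H, z, h1, h2, h3, h4, h5⟩ := exists_H hG S T J hJcomm hJexp hJcard Z hZ hZcard hZT hST
  exact iso_of_H hG H z h1 h2 h3 h4 h5

end main

end Cfsg.Agent.Helper29.Ord162
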