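import Mathlib
import Cfsg.Agent.Helper5.NX0
import Cfsg.Agent.Helper24.PrFus
import Cfsg.Agent.Helper22.BlkCover
import Cfsg.Agent.Helper5.BlkExt
import Cfsg.Agent.Helper5.GlCorr

set_option autoImplicit false

namespace Cfsg.Agent.Helper29.S4692w

open Cfsg Cfsg.Agent.Helper5 Cfsg.Agent.Helper22 Cfsg.Agent.Helper24

universe u

/-- [w] powers of an element conjugating `θ` into its own block stabilize the block. -/
theorem pow_stab {G : Type u} [Group G] [Fintype G] {M : Ideal AlgInt} [hMp : M.IsPrime] (N : Subgroup G) [N.Normal] (R : Subgroup ↥N) (w : G) (hw : w ∈ Subgroup.normalizer ((R.map N.subtype : Subgroup G) : Set G)) (θ θ' : IrrCharacter ↥(Subgroup.centralizer (R : Set ↥N))) (hs : SameBlock M θ.1 θ'.1) (hθ' : ∀ k k' : ↥(Subgroup.centralizer (R : Set ↥N)), ((k' : ↥N) : G) = w * ((k : ↥N) : G) * w⁻¹ → θ'.1 k' = θ.1 k) (k : ℕ) (hk : w ^ k ∈ N) : (⟨w ^ k, hk⟩ : ↥N) ∈ Subgroup.normalizer (R : Set ↥N) ∧ StabilizesBlock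 (Subgroup.centralizer (R : Set ↥N)) (blockOf M θ.1) (⟨w ^ k, hk⟩ : ↥N) := by
  classical
  have hNn : N.Normal := inferInstance
  -- membership helper for N
  have hN : ∀ a b : G, a * b = 1 → ∀ n : G, n ∈ N → a * n * b ∈ N := by
    intro a b hab n hn
    obtain rfl : a⁻¹ = b := inv_eq_of_mul_eq_one_right hab
    exact hNn.conj_mem n hn a
  -- R-membership transfer
  have hRmem : ∀ r : ↥N, r ∈ R ↔ (r : G) ∈ (R.map N.subtype : Subgroup G) := by
    intro r
    constructor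
    · intro hr; exact ⟨r, hr, rfl⟩
    · rintro ⟨r0, hr0, h⟩
      have : r0 = r := Subtype.ext h
      rwa [← this]
  -- centralizer helper
  have hKmem : ∀ a b : G, a * b = 1 →
      a ∈ Subgroup.normalizer ((R.map N.subtype : Subgroup G) : Set G) →
      ∀ (c : ↥N), c ∈ Subgroup.centralizer (R : Set ↥N) →
      ∀ h : a * (c : G) * b ∈ N, (⟨a * (c : G) * b, h⟩ : ↥N) ∈ Subgroup.centralizer (R : Set ↥N) := by
    intro a b hab ha c hc h
    obtain rfl : a⁻¹ = b := inv_eq_of_mul_eq_one_right hab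
    rw [Subgroup.mem_centralizer_iff]
    intro r hr
    apply Subtype.ext
    show (r : G) * (a * (c : G) * a⁻¹) = a * (c : G) * a⁻¹ * (r : G)
    have h1 : a⁻¹ * (r : G) * a ∈ (R.map N.subtype : Subgroup G) := by
      have := (Subgroup.mem_normalizer_iff.mp (inv_mem ha) (r : G)).mp ((hRmem r).mp hr)
      simpa using this
    obtain ⟨r0, hr0, hr0eq⟩ := h1
    have h2 : r0 * c = c * r0 := Subgroup.mem_centralizer_iff.mp hc r0 hr0
    have h3 : (r0 : G) * (c : G) = (c : G) * (r0 : G) := congrArg Subtype.val h2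
    have h4 : (N.subtype r0 : G) = (r0 : G) := rfl
    rw [h4] at hr0eq
    calc (r : G) * (a * (c : G) * a⁻¹) = a * ((a⁻¹ * (r : G) * a) * (c : G)) * a⁻¹ := by group
      _ = a * ((c : G) * (a⁻¹ * (r : G) * a)) * a⁻¹ := by rw [← hr0eq, h3]
      _ = a * (c : G) * a⁻¹ * (r : G) := by group
  -- step 1
  have hwk : w ^ k ∈ Subgroup.normalizer ((R.map N.subtype : Subgroup G) : Set G) := pow_mem hw k
  have hg : (⟨w ^ k, hk⟩ : ↥N) ∈ Subgroup.normalizer (R : Set ↥N) := by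
    rw [Subgroup.mem_normalizer_iff]
    intro r
    rw [hRmem r, hRmem]
    exact Subgroup.mem_normalizer_iff.mp hwk (r : G)
  -- τ = conjugation by w⁻¹ on C_N(R)
  have hwinv : w⁻¹ ∈ Subgroup.normalizer ((R.map N.subtype : Subgroup G) : Set G) := inv_mem hw
  let τ : ↥(Subgroup.centralizer (R : Set ↥N)) ≃* ↥(Subgroup.centralizer (R : Set ↥N)) :=
    { toFun := fun c => ⟨⟨w⁻¹ * ((c : ↥N) : G) * w, hN w⁻¹ w (inv_mul_cancel w) _ (c : ↥N).2⟩,
        hKmem w⁻¹ w (inv_mul_cancel w) hwinv (c : ↥N) c.2 _⟩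
      invFun := fun c => ⟨⟨w * ((c : ↥N) : G) * w⁻¹, hN w w⁻¹ (mul_inv_cancel w) _ (c : ↥N).2⟩,
        hKmem w w⁻¹ (mul_inv_cancel w) hw (c : ↥N) c.2 _⟩
      left_inv := fun c => Subtype.ext (Subtype.ext (by
        show w * (w⁻¹ * ((c : ↥N) : G) * w) * w⁻¹ = ((c : ↥N) : G)
        group))
      right_inv := fun c => Subtype.ext (Subtype.ext (by
        show w⁻¹ * (w * ((c : ↥N) : G) * w⁻¹) * w = ((c : ↥N) : G)
        group))
      map_mul' := fun a b => Subtype.ext (Subtype.ext (by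
        show w⁻¹ * (((a : ↥N) : G) * ((b : ↥N) : G)) * w
          = (w⁻¹ * ((a : ↥N) : G) * w) * (w⁻¹ * ((b : ↥N) : G) * w)
        group)) }
  have hτ : ∀ c : ↥(Subgroup.centralizer (R : Set ↥N)),
      (((τ c : ↥(Subgroup.centralizer (R : Set ↥N))) : ↥N) : G) = w⁻¹ * ((c : ↥N) : G) * w :=
    fun c => rfl
  have hθτ : (fun c => θ.1 (τ c)) = θ'.1 := by
    funext c
    symm
    apply hθ'
    rw [hτ]
    group
  -- one step
  have hstep : ∀ χ : IrrCharacter ↥(Subgroup.centralizer (R : Set ↥N)), SameBlock M θ.1 χ.1 →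
      SameBlock M θ.1 (fun c => χ.1 (τ c)) := by
    intro χ h
    have h1 := (sameBlock_comp_equiv (M := M) τ θ.1 χ.1).mpr h
    rw [hθτ] at h1
    exact sameBlock_trans' hs h1
  -- induction
  have hP : ∀ j : ℕ, ∀ χ : IrrCharacter ↥(Subgroup.centralizer (R : Set ↥N)), SameBlock M θ.1 χ.1 →
      ∃ χ' : IrrCharacter ↥(Subgroup.centralizer (R : Set ↥N)), SameBlock M θ.1 χ'.1 ∧
        ∀ k1 k2 : ↥(Subgroup.centralizer (R : Set ↥N)),
          ((k2 : ↥N) : G) = w ^ j * ((k1 : ↥N) : G) * (w ^ j)⁻¹ → χ'.1 k2 = χ.1 k1 := by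
    intro j
    induction j with
    | zero =>
      intro χ h
      refine ⟨χ, h, fun k1 k2 h12 => ?_⟩
      have : k2 = k1 := Subtype.ext (Subtype.ext (by simpa using h12))
      rw [this]
    | succ j ih =>
      intro χ h
      obtain ⟨χ1, hb1, hc1⟩ := ih χ h
      refine ⟨⟨fun c => χ1.1 (τ c), isIrrCharacter_comp_mulEquiv τ χ1.2⟩, hstep χ1 hb1, ?_⟩
      intro k1 k2 h12
      show χ1.1 (τ k2) = χ.1 k1
      apply hc1
      rw [hτ, h12, pow_succ']
      group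
  refine ⟨hg, pf_norm_cent R ⟨w ^ k, hk⟩ hg, ?_⟩
  intro χ hχ
  obtain ⟨χ', hb, hc⟩ := hP k χ hχ
  refine ⟨χ', hb, ?_⟩
  intro k1 k2 h12
  apply hc
  exact congrArg Subtype.val h12

end Cfsg.Agent.Helper29.S4692w
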