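import Mathlib
import Cfsg.Prelude.Def_Sporadic_a
import Cfsg.Agent.Helper29.SRG100
import Cfsg.Agent.Helper29.SRG100A
import Cfsg.Agent.Helper29.S3622A
import Cfsg.Agent.S0410
import Cfsg.Agent.S0428

set_option autoImplicit false

/-! The automorphism group of the point-block graph of an S(3,6,22) has order 100 * 887040. -/

namespace Cfsg.Agent.Helper29.SRG100

open Cfsg Cfsg.Agent.Helper29.S3622U

open scoped Pointwise

variable {α : Type*} [Fintype α] [DecidableEq α] {B : Set (Finset α)}

theorem trans_lemma (hα : Fintype.card α = 22) (hB : Cfsg.IsSteinerSystem 3 6 B)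
    (w : Option (α ⊕ ↥B)) :
    ∃ t : Cfsg.pointBlockGraph B ≃g Cfsg.pointBlockGraph B, t none = w := by
  classical
  letI : Fintype ↥B := Fintype.ofFinite _
  have hΓ : (Cfsg.pointBlockGraph B).IsSRGWith 100 22 0 6 := Cfsg.Agent.S0428.result hα hB
  obtain ⟨i1, h1⟩ := iso_pb' hΓ w
  obtain ⟨i0, h0⟩ := iso_pb' hΓ none
  obtain ⟨e, he⟩ := Cfsg.Agent.S0410.result (card_Pt hΓ none) (card_Pt hΓ w)
    (steiner hΓ none) (steiner hΓ w)
  obtain ⟨i3, h3, _⟩ := pb_iso' e he
  refine ⟨(i0.trans i3).trans i1.symm, ?_⟩
  show i1.symm (i3 (i0 none)) = w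
  rw [h0, h3, ← h1, RelIso.symm_apply_apply]

theorem card_aut_pb (hα : Fintype.card α = 22) (hB : Cfsg.IsSteinerSystem 3 6 B) :
    Nat.card (Cfsg.pointBlockGraph B ≃g Cfsg.pointBlockGraph B) = 88704000 := by
  classical
  letI : Fintype ↥B := Fintype.ofFinite _
  have hΓ : (Cfsg.pointBlockGraph B).IsSRGWith 100 22 0 6 := Cfsg.Agent.S0428.result hα hB
  choose t ht using trans_lemma hα hB
  have hι : ∀ g : ↥(Cfsg.setSystemAut B),
      ∃ i : Cfsg.pointBlockGraph B ≃g Cfsg.pointBlockGraph B, i none = none ∧
      (∀ x, i (some (Sum.inl x)) = some (Sum.inl ((g : Equiv.Perm α) x))) ∧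
      ∀ c : ↥B, ∃ c' : ↥B, i (some (Sum.inr c)) = some (Sum.inr c') ∧
        (c' : Finset α) = (c : Finset α).image (g : Equiv.Perm α) := by
    intro g
    have he : (fun b => b.image (g : Equiv.Perm α)) '' B = B := by
      have h1 := g.2
      rw [MulAction.mem_stabilizer_iff] at h1
      conv_rhs => rw [← h1]
      ext c
      simp only [Set.mem_image, Set.mem_smul_set]
      constructor
      · rintro ⟨b, hb, rfl⟩
        exact ⟨b, hb, smul_eq_image _ _⟩
      · rintro ⟨b, hb, rfl⟩
        exact ⟨b, hb, (smul_eq_image _ _).symm⟩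
    exact pb_iso' (g : Equiv.Perm α) he
  choose ι hι0 hιp hιb using hι
  have hbij : Function.Bijective
      (fun p : Option (α ⊕ ↥B) × ↥(Cfsg.setSystemAut B) => (ι p.2).trans (t p.1)) := by
    constructor
    · rintro ⟨w, g⟩ ⟨w', g'⟩ hEq
      have hfun : ∀ v, t w (ι g v) = t w' (ι g' v) := fun v =>
        congrArg (fun a : Cfsg.pointBlockGraph B ≃g Cfsg.pointBlockGraph B => a v) hEq
      have hw : w = w' := by
        have h1 := hfun none
        rw [hι0, hι0, ht, ht] at h1
        exact h1
      subst hw
      have hg : g = g' := by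
        apply Subtype.ext
        apply Equiv.ext
        intro x
        have h1 := (t w).injective (hfun (some (Sum.inl x)))
        rw [hιp, hιp] at h1
        exact Sum.inl.inj (Option.some.inj h1)
      rw [hg]
    · intro a
      obtain ⟨tw, htw⟩ : ∃ tw : Cfsg.pointBlockGraph B ≃g Cfsg.pointBlockGraph B,
          tw = t (a none) := ⟨_, rfl⟩
      have ha'0 : tw.symm (a none) = none := by
        rw [htw]
        exact (RelIso.symm_apply_eq _).2 (ht (a none)).symm
      have hpt : ∀ x : α, ∃ y : α, tw.symm (a (some (Sum.inl x))) = some (Sum.inl y) := by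
        intro x
        rw [← adj_none_iff]
        have h1 : (Cfsg.pointBlockGraph B).Adj (tw.symm (a none))
            (tw.symm (a (some (Sum.inl x)))) := by
          rw [SimpleGraph.Iso.map_adj_iff, SimpleGraph.Iso.map_adj_iff]
          exact (adj_none_iff _).2 ⟨x, rfl⟩
        rw [ha'0] at h1
        exact h1
      choose gf hgf using hpt
      have hpt' : ∀ y : α, ∃ x : α, tw.symm (a (some (Sum.inl x))) = some (Sum.inl y) := by
        intro y
        have hadj : (Cfsg.pointBlockGraph B).Adj none (a.symm (tw (some (Sum.inl y)))) := by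
          have h1 : (Cfsg.pointBlockGraph B).Adj (tw.symm (a none)) (some (Sum.inl y)) := by
            rw [ha'0]
            exact (adj_none_iff _).2 ⟨y, rfl⟩
          have h2 := (SimpleGraph.Iso.map_adj_iff tw).2 h1
          rw [RelIso.apply_symm_apply] at h2
          have h3 := (SimpleGraph.Iso.map_adj_iff a.symm).2 h2
          rw [RelIso.symm_apply_apply] at h3
          exact h3
        obtain ⟨x, hx⟩ := (adj_none_iff _).1 hadj
        refine ⟨x, ?_⟩
        rw [← hx, RelIso.apply_symm_apply, RelIso.symm_apply_apply]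
      have hgf_inj : Function.Injective gf := by
        intro x x' hxx
        have h1 := hgf x
        have h2 := hgf x'
        rw [hxx] at h1
        have h3 := a.injective (tw.symm.injective (h1.trans h2.symm))
        exact Sum.inl.inj (Option.some.inj h3)
      have hgf_surj : Function.Surjective gf := by
        intro y
        obtain ⟨x, hx⟩ := hpt' y
        refine ⟨x, ?_⟩
        have h1 := hgf x
        rw [hx] at h1
        exact (Sum.inl.inj (Option.some.inj h1)).symm
      have hblk : ∀ c : ↥B, ∃ c' : ↥B, tw.symm (a (some (Sum.inr c))) = some (Sum.inr c') := by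
        intro c
        rcases hv : tw.symm (a (some (Sum.inr c))) with _ | y | c'
        · exfalso
          have h1 := a.injective (tw.symm.injective (hv.trans ha'0.symm))
          exact absurd h1 (by simp)
        · exfalso
          obtain ⟨x, hx⟩ := hpt' y
          have h1 := a.injective (tw.symm.injective (hv.trans hx.symm))
          exact absurd h1 (by simp)
        · exact ⟨c', rfl⟩
      choose cf hcf using hblk
      have hmem : ∀ (c : ↥B) (x : α), gf x ∈ (cf c : Finset α) ↔ x ∈ (c : Finset α) := by
        intro c x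
        rw [← adj_point_block, ← adj_point_block, ← hgf, ← hcf,
          SimpleGraph.Iso.map_adj_iff, SimpleGraph.Iso.map_adj_iff]
      have himg : ∀ c : ↥B, (cf c : Finset α)
          = (c : Finset α).image (Equiv.ofBijective gf ⟨hgf_inj, hgf_surj⟩) := by
        intro c
        ext y
        obtain ⟨x, rfl⟩ := hgf_surj y
        rw [hmem, Finset.mem_image]
        constructor
        · intro hx
          exact ⟨x, hx, rfl⟩
        · rintro ⟨x', hx', hxx⟩
          change gf x' = gf x at hxx
          rw [← hgf_inj hxx]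
          exact hx'
      have hg : Equiv.ofBijective gf ⟨hgf_inj, hgf_surj⟩ ∈ Cfsg.setSystemAut B := by
        apply mem_aut
        intro c hc
        rw [← himg ⟨c, hc⟩]
        exact (cf ⟨c, hc⟩).2
      refine ⟨(a none, ⟨Equiv.ofBijective gf ⟨hgf_inj, hgf_surj⟩, hg⟩), ?_⟩
      apply RelIso.ext
      intro v
      show t (a none) (ι ⟨Equiv.ofBijective gf ⟨hgf_inj, hgf_surj⟩, hg⟩ v) = a v
      rw [← htw]
      have key : ι ⟨Equiv.ofBijective gf ⟨hgf_inj, hgf_surj⟩, hg⟩ v = tw.symm (a v) := by
        rcases v with _ | x | c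
        · rw [hι0, ha'0]
        · rw [hιp, hgf]
          rfl
        · obtain ⟨c', hc', hc'e⟩ := hιb ⟨Equiv.ofBijective gf ⟨hgf_inj, hgf_surj⟩, hg⟩ c
          rw [hc', hcf]
          have e2 : c' = cf c := by
            apply Subtype.ext
            rw [hc'e, himg]
          rw [e2]
      rw [key, RelIso.apply_symm_apply]
  rw [← Nat.card_eq_of_bijective _ hbij, Nat.card_prod, card_aut hα hB]
  have h100 : Nat.card (Option (α ⊕ ↥B)) = 100 := by
    rw [Nat.card_eq_fintype_card]
    exact hΓ.card
  rw [h100]

end Cfsg.Agent.Helper29.SRG100
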